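import Cfsg.Agent.Wu.R
import Cfsg.Agent.Geom.Simple
import Cfsg.Agent.Char.Kernel
import Cfsg.Prelude.Def_Blocks

set_option autoImplicit false
set_option linter.unusedSectionVars false

open Module CF.Geom

namespace CF.Wu

variable {F V : Type*} [Field F] [Fintype F] [AddCommGroup V] [Module F V] [FiniteDimensional F V]
  [Finite V] {σ : F →+* F} {B : V →ₛₗ[σ] V →ₗ[F] F} {q : ℕ}
  {X : Type*} [AddCommGroup X] [Module ℂ X] [FiniteDimensional ℂ X]

/-- The inner product with the conjugation character vanishes iff every centraliser sum does. -/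
theorem t_inner_eq_zero {G : Type*} [Group G] [Fintype G] {χ : G → ℂ} (hχ : Cfsg.IsCharacter G χ) :
    Cfsg.classInner χ (fun g : G => (Nat.card ↥(Subgroup.centralizer ({g} : Set G)) : ℂ)) = 0 ↔
      ∀ x : G, ∑ᶠ c : Subgroup.centralizer ({x} : Set G), χ c = 0 := by
  classical
  obtain ⟨n, ρ, rfl⟩ := hχ
  have h0 : (Nat.card G : ℂ) ≠ 0 := Nat.cast_ne_zero.2 Nat.card_pos.ne'
  have k1 : ∀ g : G, (Nat.card ↥(Subgroup.centralizer ({g} : Set G)) : ℂ) =
      ∑ x : G, if g * x = x * g then 1 else 0 := fun g => by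
    rw [Finset.sum_boole, Nat.card_eq_fintype_card, Fintype.card_subtype]
    congr 2
    ext x
    simp [Subgroup.mem_centralizer_singleton_iff, eq_comm]
  have k2 : ∀ x : G, ∑ᶠ c : Subgroup.centralizer ({x} : Set G), ρ.character c =
      ∑ g : G, ρ.character g * if g * x = x * g then 1 else 0 := fun x => by
    rw [finsum_eq_sum_of_fintype]
    simp only [mul_ite, mul_one, mul_zero]
    rw [← Finset.sum_filter]
    symm
    exact Finset.sum_subtype _ (fun g => by simp [Subgroup.mem_centralizer_singleton_iff]) _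
  have k3 : ∑ g : G, ρ.character g *
      (starRingEnd ℂ) (Nat.card ↥(Subgroup.centralizer ({g} : Set G)) : ℂ) =
      ((∑ x : G, Nat.card ↥(Subgroup.centralizer ({x} : Set G)) *
        finrank ℂ (fx ρ (Subgroup.centralizer ({x} : Set G))) : ℕ) : ℂ) := by
    push_cast
    simp only [card_mul_finrank_fx, k2, map_natCast]
    simp only [k1, Finset.mul_sum]
    exact Finset.sum_comm
  rw [Cfsg.classInner, mul_eq_zero, or_iff_right (inv_ne_zero h0), k3, Nat.cast_eq_zero,
    Finset.sum_eq_zero_iff]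
  refine ⟨fun h x => ?_, fun h x _ => ?_⟩
  · rw [← card_mul_finrank_fx]
    exact_mod_cast h x (Finset.mem_univ _)
  · have := h x
    rw [← card_mul_finrank_fx] at this
    exact_mod_cast this

/-- Centraliser sums along a surjection that reflects commutation. -/
theorem t_cen_iff {A G : Type*} [Group A] [Group G] [Finite A] [Finite G] (p : A →* G)
    (hp : Function.Surjective p) (hc : ∀ a b, p a * p b = p b * p a → a * b = b * a)
    {χ : G → ℂ} (hχ : Cfsg.IsCharacter G χ) (a : A) :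
    ∑ᶠ c : Subgroup.centralizer ({p a} : Set G), χ c = 0 ↔
      ∑ᶠ c : Subgroup.centralizer ({a} : Set A), χ (p c) = 0 := by
  obtain ⟨n, ρ, rfl⟩ := hχ
  have e : Subgroup.centralizer ({p a} : Set G) = (Subgroup.centralizer ({a} : Set A)).map p := by
    ext g
    obtain ⟨b, rfl⟩ := hp g
    rw [Subgroup.mem_centralizer_singleton_iff]
    refine ⟨fun h => ⟨b, Subgroup.mem_centralizer_singleton_iff.2 (hc _ _ h), rfl⟩, ?_⟩
    rintro ⟨c, hc', e⟩
    rw [← e, ← map_mul, ← map_mul, Subgroup.mem_centralizer_singleton_iff.1 hc']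
  rw [← fx_eq_bot_iff_char, e, fx_map, fx_eq_bot_iff_char]
  rfl

theorem t_exists_hom {G : Type*} [Group G] {n : ℕ} (h : HS q (hermSesq (Fin n) σ))
    (hn : 3 ≤ n) (hcop : Nat.Coprime n (q + 1)) (hG : Nonempty (G ≃* Cfsg.PSU n F q)) :
    ∃ p : UG (hermSesq (Fin n) σ) →* G, Function.Surjective p ∧ p.ker = Zs (hermSesq (Fin n) σ) ∧
      ∀ a b, p a * p b = p b * p a → a * b = b * a := by
  obtain ⟨e⟩ := hG
  have hr : finrank F (Fin n → F) = n := by simp
  have : Nontrivial (Fin n → F) := Module.nontrivial_of_finrank_pos (R := F) (by omega)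
  have hZ : Subgroup.center (Cfsg.SU n F q) = ⊥ := by
    rw [← Subgroup.card_eq_one, card_center_su h.card h.frob h.herm h.nd (by omega)
      (suToUG_injective n h.frob) (suToUG_range n h.frob), hr]
    exact hcop
  have hN : (Zs (hermSesq (Fin n) σ)).Normal := ⟨fun z hz g => by
    rw [← (commute_Zs hz g).eq, mul_inv_cancel_right]; exact hz⟩
  let s := suToUG n h.frob
  have hd : ∀ g : UG (hermSesq (Fin n) σ), ∃ z ∈ Zs (hermSesq (Fin n) σ), ∃ a, g = z * s a := by
    intro g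
    have hg : g ∈ Zs (hermSesq (Fin n) σ) ⊔ suSub (hermSesq (Fin n) σ) := by
      rw [Zs_sup_su h (by rwa [hr])]; trivial
    obtain ⟨z, hz, y, hy, rfl⟩ := Subgroup.mem_sup_of_normal_left.1 hg
    rw [← suToUG_range n h.frob] at hy
    obtain ⟨a, rfl⟩ := hy
    exact ⟨z, hz, a, rfl⟩
  let t := (QuotientGroup.mk' (Zs (hermSesq (Fin n) σ))).comp s
  have hm : ∀ z ∈ Zs (hermSesq (Fin n) σ), ∀ a,
      QuotientGroup.mk' (Zs (hermSesq (Fin n) σ)) (z * s a) = t a := fun z hz a => by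
    rw [map_mul, QuotientGroup.mk'_apply, (QuotientGroup.eq_one_iff z).2 hz, one_mul]; rfl
  have ht : Function.Bijective t := by
    refine ⟨(injective_iff_map_eq_one t).2 fun a ha => ?_, fun x => ?_⟩
    · have h1 : s a ∈ Zs (hermSesq (Fin n) σ) := (QuotientGroup.eq_one_iff _).1 ha
      rw [← Subgroup.mem_bot, ← hZ, Subgroup.mem_center_iff]
      intro b
      apply suToUG_injective n h.frob
      rw [map_mul, map_mul]
      exact (commute_Zs h1 (s b)).eq.symm
    · obtain ⟨g, rfl⟩ := QuotientGroup.mk'_surjective _ x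
      obtain ⟨z, hz, a, rfl⟩ := hd g
      exact ⟨a, (hm z hz a).symm⟩
  let E : G ≃* UG (hermSesq (Fin n) σ) ⧸ Zs (hermSesq (Fin n) σ) :=
    (e.trans ((QuotientGroup.quotientMulEquivOfEq hZ).trans QuotientGroup.quotientBot)).trans
      (MulEquiv.ofBijective t ht)
  refine ⟨E.symm.toMonoidHom.comp (QuotientGroup.mk' _),
    E.symm.surjective.comp (QuotientGroup.mk'_surjective _), ?_, fun a b hab => ?_⟩
  · ext g
    rw [MonoidHom.mem_ker, MonoidHom.comp_apply, MulEquiv.coe_toMonoidHom, map_eq_one_iff _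
      E.symm.injective]
    exact QuotientGroup.eq_one_iff g
  · obtain ⟨z, hz, x, rfl⟩ := hd a
    obtain ⟨w, hw, y, rfl⟩ := hd b
    simp only [MonoidHom.comp_apply, hm z hz, hm w hw, MulEquiv.coe_toMonoidHom] at hab
    simp only [← map_mul] at hab
    rw [E.symm.injective.eq_iff, ht.1.eq_iff] at hab
    have h1 : Commute (s x) (s y) := Commute.map hab s
    exact ((commute_Zs hz _).mul_left ((commute_Zs hw _).symm.mul_right h1)).eq

theorem result_of {G : Type*} [Group G] [Fintype G] {n : ℕ} (h : HS q (hermSesq (Fin n) σ))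
    (hn : 3 ≤ n) (hcop : Nat.Coprime n (2 * (q + 1))) (hG : Nonempty (G ≃* Cfsg.PSU n F q))
    {φ : UG (hermSesq (Fin n) σ) → ℂ} (hφ : Good q φ) :
    Nat.card {χ : Cfsg.IrrCharacter G // Cfsg.charDegree (χ : G → ℂ) = (q ^ n - q) / (q + 1)} = 1 ∧
    ∀ χ : Cfsg.IrrCharacter G, Cfsg.classInner (χ : G → ℂ)
      (fun g : G => (Nat.card ↥(Subgroup.centralizer ({g} : Set G)) : ℂ)) ≠ 0 ↔
        Cfsg.charDegree (χ : G → ℂ) ≠ (q ^ n - q) / (q + 1) := by
  obtain ⟨p, hp, hk, hc⟩ := t_exists_hom h hn (Nat.Coprime.coprime_mul_left_right hcop) hG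
  have hr : finrank F (Fin n → F) = n := by simp
  have hd := hφ.deg
  rw [hr] at hd
  obtain ⟨ψ, hψ, e⟩ := CF.Char.exists_irr_of_ker_le hφ.irr p hp fun z hz =>
    (CF.Char.mem_charKer_iff (CF.Char.irr_isCharacter hφ.irr)).2 (hφ.cen z (hk ▸ hz))
  have hz : ∀ χ : G → ℂ, ∀ z ∈ Zs (hermSesq (Fin n) σ), χ (p z) = χ (p 1) := fun χ z hz => by
    rw [← hk] at hz
    rw [MonoidHom.mem_ker.1 hz, map_one]
  have hinj : ∀ χ : G → ℂ, (fun g => χ (p g)) = φ ↔ χ = ψ := fun χ => by
    rw [e]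
    refine ⟨fun h1 => funext fun g => ?_, fun h1 => by rw [h1]⟩
    obtain ⟨a, rfl⟩ := hp g
    exact congrFun h1 a
  have hψ1 : ψ 1 = ((q ^ n - q) / (q + 1) : ℕ) := by
    rw [← hd, e]; simp only [map_one]
  have hdeg : ∀ χ : Cfsg.IrrCharacter G,
      Cfsg.charDegree (χ : G → ℂ) = (q ^ n - q) / (q + 1) ↔ (χ : G → ℂ) = ψ := fun χ => by
    obtain ⟨m, hm⟩ := CF.Char.char_one_eq_nat (CF.Char.irr_isCharacter χ.2)
    refine ⟨fun h1 => (hinj _).1 (hφ.uc _ (CF.Char.irr_comp_of_surjective χ.2 p hp) (hz _) ?_),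
      fun h1 => ?_⟩
    · rw [Cfsg.charDegree, hm, Complex.natCast_re, Nat.floor_natCast] at h1
      simp only [map_one]
      rw [hd, hm, h1]
    · rw [Cfsg.charDegree, h1, hψ1, Complex.natCast_re, Nat.floor_natCast]
  refine ⟨Nat.card_eq_one_iff_exists.2 ⟨⟨⟨ψ, hψ⟩, (hdeg _).2 rfl⟩, fun χ =>
    Subtype.ext (Subtype.ext ((hdeg _).1 χ.2))⟩, fun χ => not_congr ?_⟩
  have hχ := CF.Char.irr_isCharacter χ.2
  rw [t_inner_eq_zero hχ, hdeg, ← hinj]
  refine ⟨fun h1 => hφ.ua _ (CF.Char.irr_comp_of_surjective χ.2 p hp) (hz _) fun g =>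
    (t_cen_iff p hp hc hχ g).1 (h1 _), fun h1 x => ?_⟩
  obtain ⟨a, rfl⟩ := hp x
  rw [t_cen_iff p hp hc hχ a]
  have := hφ.miss a
  rw [← h1] at this
  exact this

end CF.Wu
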