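import Cfsg.Agent.Wu.D

set_option autoImplicit false
set_option linter.unusedSectionVars false

open Module CF.Geom

namespace CF.Wu

variable {F V : Type*} [Field F] [Fintype F] [AddCommGroup V] [Module F V] [FiniteDimensional F V]
  [Finite V] {σ : F →+* F} {B : V →ₛₗ[σ] V →ₗ[F] F} {q : ℕ}
  {X : Type*} [AddCommGroup X] [Module ℂ X] [FiniteDimensional ℂ X]

namespace B1

variable {E : Type*} [CommRing E] [Algebra F E]

/-- The summand. -/
noncomputable def Φ (F : Type*) [Field F] [Algebra F E] (q : ℕ) (y : E) : ℂ :=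
  (-(q : ℂ)) ^ finrank F (LinearMap.ker (LinearMap.mulLeft F y))

theorem Φ_unit (q : ℕ) {u : E} (hu : IsUnit u) (y : E) : Φ F q (u * y) = Φ F q y := by
  have : LinearMap.ker (LinearMap.mulLeft F (u * y)) = LinearMap.ker (LinearMap.mulLeft F y) := by
    ext x
    simp [mul_assoc, hu.mul_right_eq_zero]
  rw [Φ, this, Φ]

open Classical in
/-- The fixed elements of an ideal. -/
noncomputable def Fx [Fintype E] (τ : E →+* E) (I : Ideal E) : Finset E :=
  Finset.univ.filter fun x => x ∈ I ∧ τ x = x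

open Classical in
theorem sum_ideal [Fintype E] {τ : E →+* E} (h2 : ∀ a, τ (τ a) = a) {ε : E}
    (hε : IsUnit (ε - τ ε)) {I : Ideal E} (hI : ∀ x ∈ I, τ x ∈ I) (g : E → ℂ) :
    ∑ b ∈ Finset.univ.filter (· ∈ I), g (b - τ b) =
      (Fx τ I).card * ∑ y ∈ Fx τ I, g ((ε - τ ε) * y) := by
  obtain ⟨δ, hδ⟩ := hε.exists_left_inv
  have hδ' : τ δ = -δ := by
    have := congrArg τ hδ
    rw [map_mul, map_sub, h2, map_one] at this
    linear_combination (-δ) * this - τ δ * hδ
  have : ∑ p ∈ Fx τ I ×ˢ Fx τ I, g ((ε - τ ε) * p.2) =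
      ∑ b ∈ Finset.univ.filter (· ∈ I), g (b - τ b) := by
    refine Finset.sum_bij' (fun p _ => p.1 + ε * p.2)
      (fun b _ => (b - ε * (δ * (b - τ b)), δ * (b - τ b))) ?_ ?_ ?_ ?_ ?_
    · intro p hp
      simp only [Fx, Finset.mem_product, Finset.mem_filter, Finset.mem_univ, true_and] at hp ⊢
      exact I.add_mem hp.1.1 (I.mul_mem_left _ hp.2.1)
    · intro b hb
      simp only [Fx, Finset.mem_product, Finset.mem_filter, Finset.mem_univ, true_and] at hb ⊢
      have k := I.mul_mem_left δ (I.sub_mem hb (hI b hb))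
      refine ⟨⟨I.sub_mem hb (I.mul_mem_left _ k), ?_⟩, k, ?_⟩
      · simp only [map_sub, map_mul, h2, hδ']
        linear_combination (b - τ b) * hδ
      · simp only [map_sub, map_mul, h2, hδ']; ring
    · intro p hp
      simp only [Fx, Finset.mem_product, Finset.mem_filter, Finset.mem_univ, true_and] at hp
      ext
      · simp only [map_add, map_mul, hp.1.2, hp.2.2]
        linear_combination (-ε * p.2) * hδ
      · simp only [map_add, map_mul, hp.1.2, hp.2.2]
        linear_combination p.2 * hδ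
    · intro b _; ring
    · intro p hp
      simp only [Fx, Finset.mem_product, Finset.mem_filter, Finset.mem_univ, true_and] at hp
      congr 1
      simp only [map_add, map_mul, hp.1.2, hp.2.2]; ring
  rw [← this, Finset.sum_product]; simp

open Classical in
/-- Hilbert 90. -/
theorem hilbert [Fintype E] [IsLocalRing E] {τ : E →+* E} (h2 : ∀ a, τ (τ a) = a) {ε : E}
    (hε : IsUnit (ε - τ ε)) (g : E → ℂ) (hg : ∀ u y, IsUnit u → g (u * y) = g y) :
    ∃ c : ℕ, c ≠ 0 ∧ ∑ b ∈ Finset.univ.filter IsUnit, g (b - τ b) =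
      c * ∑ a : {a : E // τ a * a = 1}, g (a.1 - 1) := by
  let f : Eˣ →* Eˣ := MonoidHom.id _ / Units.map τ.toMonoidHom
  have hf : ∀ b : Eˣ, (f b : E) * τ b = b := fun b => by
    show ((b / Units.map τ.toMonoidHom b : Eˣ) : E) * (Units.map τ.toMonoidHom b : Eˣ) = b
    rw [← Units.val_mul, div_mul_cancel]
  have hf' : ∀ b : Eˣ, τ (f b) * f b = 1 := fun b => by
    have h1 := congrArg τ (hf b)
    rw [map_mul, h2] at h1
    apply (b.isUnit.mul (b.isUnit.map τ)).mul_left_cancel
    linear_combination (f b : E) * τ b * h1 + τ b * hf b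
  let p : Eˣ → {a : E // τ a * a = 1} := fun b => ⟨f b, hf' b⟩
  refine ⟨(Finset.univ.filter fun b => f b = 1).card,
    (Finset.card_pos.2 ⟨1, by simp⟩).ne', ?_⟩
  have e1 : ∑ b ∈ Finset.univ.filter IsUnit, g (b - τ b) = ∑ b : Eˣ, g ((p b).1 - 1) := by
    symm
    refine Finset.sum_bij (fun b _ => (b : E)) (by simp) (fun _ _ _ _ => Units.ext)
      (fun b hb => ⟨(Finset.mem_filter.1 hb).2.unit, by simp, rfl⟩) fun b _ => ?_
    rw [← hg _ _ (b.isUnit.map τ)]
    congr 1
    show τ b * (f b - 1) = _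
    linear_combination hf b
  rw [e1, ← Finset.sum_fiberwise (s := Finset.univ) p, Finset.mul_sum]
  refine Finset.sum_congr rfl fun a _ => ?_
  rw [Finset.sum_congr rfl fun b hb => by rw [(Finset.mem_filter.1 hb).2], Finset.sum_const,
    nsmul_eq_mul]
  congr 2
  have ha : IsUnit a.1 := IsUnit.of_mul_eq_one_right _ a.2
  obtain ⟨b, hb⟩ : ∃ b : Eˣ, f b = ha.unit := by
    have k : ∀ c : E, IsUnit (c + a * τ c) → ∃ b : Eˣ, f b = ha.unit := fun c hc => by
      refine ⟨hc.unit, Units.ext ((hc.map τ).mul_right_cancel ?_)⟩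
      have := hf hc.unit
      rw [IsUnit.unit_spec] at this
      rw [this, IsUnit.unit_spec, map_add, map_mul, h2]
      linear_combination (-c) * a.2
    by_cases h1 : IsUnit (1 + a * τ 1)
    · exact k _ h1
    refine k ε ?_
    have : IsUnit ((ε + a * τ ε) + -τ ε * (1 + a * τ 1)) := by
      rw [map_one]; convert hε using 1; ring
    exact (IsLocalRing.isUnit_or_isUnit_of_isUnit_add this).resolve_right
      fun h => h1 (isUnit_of_mul_isUnit_right h)
  rw [MonoidHom.card_fiber_eq_of_mem_range f ⟨1, map_one f⟩ ⟨b, hb⟩]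
  congr 1
  ext x
  simp only [Finset.mem_filter, Finset.mem_univ, true_and]
  exact ⟨fun h => Units.ext (congrArg Subtype.val h), fun h => Subtype.ext (by
    show (f x : E) = a; rw [h]; rfl)⟩

variable [FiniteDimensional F E] [IsLocalRing E]

theorem rank_succ {π : E} (hπ : IsLocalRing.maximalIdeal E = Ideal.span {π}) {j : ℕ}
    (hj : π ^ j ≠ 0) : finrank F (LinearMap.ker (LinearMap.mulLeft F (π ^ (j + 1)))) =
      finrank F (LinearMap.ker (LinearMap.mulLeft F (π ^ j))) +
        finrank F (LinearMap.ker (LinearMap.mulLeft F π)) := by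
  have e1 : LinearMap.mulLeft F (π ^ (j + 1)) =
      (LinearMap.mulLeft F (π ^ j)).comp (LinearMap.mulLeft F π) := by
    ext; simp [pow_succ, mul_assoc]
  have e2 : LinearMap.ker (LinearMap.mulLeft F (π ^ j)) ≤ LinearMap.range (LinearMap.mulLeft F π) := by
    intro x hx
    have : x ∈ IsLocalRing.maximalIdeal E := fun hu => hj (hu.mul_left_eq_zero.1 hx)
    rw [hπ, Ideal.mem_span_singleton] at this
    obtain ⟨c, rfl⟩ := this
    exact ⟨c, rfl⟩
  rw [e1, LinearMap.ker_comp]
  set f := LinearMap.mulLeft F π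
  set K := LinearMap.ker (LinearMap.mulLeft F (π ^ j))
  have e3 := (f.domRestrict (K.comap f)).finrank_range_add_finrank_ker
  rw [LinearMap.range_domRestrict, Submodule.map_comap_eq_of_le e2, LinearMap.ker_domRestrict,
    (Submodule.comapSubtypeEquivOfLe (LinearMap.ker_le_comap f)).finrank_eq] at e3
  exact e3.symm

end B1

open B1 Classical in
theorem chain_sum {E : Type*} [CommRing E] [Algebra F E] [FiniteDimensional F E] [IsLocalRing E]
    [IsPrincipalIdealRing E] (hF : Fintype.card F = q ^ 2) (hσ : ∀ x, σ x = x ^ q) (τ : E →+* E)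
    (h2 : ∀ a, τ (τ a) = a) (hτ : ∀ c, τ (algebraMap F E c) = algebraMap F E (σ c))
    (hodd : Odd (finrank F E)) : ∑ᶠ a : {a : E // τ a * a = 1},
      (-(q : ℂ)) ^ finrank F (LinearMap.ker (LinearMap.mulLeft F (a.1 - 1))) = 0 := by
  have : Finite E := Module.finite_of_finite F
  have := Fintype.ofFinite E
  obtain ⟨ε, hε⟩ : ∃ ε : E, IsUnit (ε - τ ε) := by
    obtain ⟨σ', h1, h3, -⟩ := exists_conj hF
    obtain ⟨a, ha⟩ : ∃ a : F, σ' a ≠ a := by
      by_contra hc; push Not at hc; exact h3 (RingHom.ext hc)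
    refine ⟨algebraMap F E a, ?_⟩
    rw [hτ, ← map_sub, hσ, ← h1]
    exact (IsUnit.mk0 _ (sub_ne_zero.2 ha.symm)).map _
  obtain ⟨π, hπ⟩ := (IsPrincipalIdealRing.principal (IsLocalRing.maximalIdeal E)).principal
  replace hπ : IsLocalRing.maximalIdeal E = Ideal.span {π} := hπ
  have hm : ∀ x, π ∣ x ↔ ¬ IsUnit x := fun x => by
    rw [← Ideal.mem_span_singleton, ← hπ]; rfl
  have hnil : ∃ k, π ^ k = 0 := by
    have : IsArtinianRing E := isArtinian_of_finite
    obtain ⟨k, hk⟩ := IsArtinianRing.isNilpotent_jacobson_bot (R := E)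
    rw [IsLocalRing.jacobson_eq_maximalIdeal ⊥ bot_ne_top, hπ, Ideal.span_singleton_pow] at hk
    exact ⟨k, Ideal.span_singleton_eq_bot.1 hk⟩
  obtain ⟨k, hk⟩ : ∃ k, Nat.find hnil = k + 1 := Nat.exists_eq_succ_of_ne_zero fun h => by
    simpa [h] using Nat.find_spec hnil
  have k0 : π ^ (k + 1) = 0 := hk ▸ Nat.find_spec hnil
  have k1 : ∀ j ≤ k, π ^ j ≠ 0 := fun j hj => Nat.find_min hnil (by omega)
  obtain ⟨d, hd⟩ : ∃ d, finrank F (LinearMap.ker (LinearMap.mulLeft F π)) = d := ⟨_, rfl⟩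
  have r1 : ∀ j ≤ k + 1, finrank F (LinearMap.ker (LinearMap.mulLeft F (π ^ j))) = d * j := by
    intro j hj
    induction j with
    | zero => simp [LinearMap.mulLeft_one]
    | succ j ih => rw [rank_succ hπ (k1 j (by omega)), ih (by omega), hd]; ring
  have r2 : finrank F E = d * (k + 1) := by
    rw [← r1 _ le_rfl, k0, LinearMap.mulLeft_zero_eq_zero, LinearMap.ker_zero, finrank_top]
  rw [r2, Nat.odd_mul] at hodd
  have st : ∀ j, ∀ x ∈ Ideal.span {π ^ j}, τ x ∈ Ideal.span {π ^ j} := fun j x hx => by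
    rw [Ideal.mem_span_singleton] at hx ⊢
    refine (pow_dvd_pow_of_dvd ((hm _).2 fun hu => (hm π).1 dvd_rfl ?_) j).trans
      (map_pow τ π j ▸ map_dvd τ hx)
    exact h2 π ▸ hu.map τ
  have c1 : ∀ j i, j + i = k + 1 → (Fx τ (Ideal.span {π ^ j})).card = (q ^ d) ^ i := by
    intro j i hji
    have e1 := sum_ideal h2 hε (st j) fun _ => 1
    simp only [Finset.sum_const, nsmul_eq_mul, mul_one] at e1
    have e2 : (Finset.univ.filter (· ∈ Ideal.span {π ^ j})).card =
        Fintype.card (LinearMap.range (LinearMap.mulLeft F (π ^ j))) := by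
      rw [Fintype.card_subtype]
      congr 1
      ext x
      simp [Ideal.mem_span_singleton, Dvd.dvd, eq_comm]
    have e3 := (LinearMap.mulLeft F (π ^ j)).finrank_range_add_finrank_ker
    rw [r1 j (by omega), r2, ← hji, mul_add, add_comm, add_right_inj] at e3
    rw [e2, Module.card_eq_pow_finrank (K := F), e3, hF] at e1
    refine Nat.pow_left_injective two_ne_zero ?_
    show _ ^ 2 = _ ^ 2
    rw [sq, ← Nat.cast_inj (R := ℂ), Nat.cast_mul, ← e1]
    congr 1; ring
  set Q : ℂ := (q : ℂ) ^ d with hQ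
  have v1 : ∀ j ≤ k + 1, Φ F q (π ^ j) = (-1) ^ j * Q ^ j := fun j hj => by
    rw [Φ, r1 j hj, pow_mul, hodd.1.neg_pow, neg_pow]
  have s1 : ∀ i j, j + i = k + 1 → 2 * ∑ y ∈ Fx τ (Ideal.span {π ^ j}), Φ F q y =
      -(Q + 1) * Q ^ k + (-1) ^ j * (Q - 1) * Q ^ k := by
    intro i
    induction i with
    | zero =>
      intro j hj
      obtain rfl : j = k + 1 := hj
      have : Fx τ (Ideal.span {π ^ (k + 1)}) = {π ^ (k + 1)} := by
        ext x
        simp only [Fx, k0, Finset.mem_filter, Finset.mem_univ, true_and, Finset.mem_singleton,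
          Ideal.mem_span_singleton, zero_dvd_iff]
        exact ⟨fun h => h.1, fun h => ⟨h, by simp [h]⟩⟩
      rw [this, Finset.sum_singleton, v1 _ le_rfl, hodd.2.neg_one_pow]; ring
    | succ i ih =>
      intro j hj
      have hs : Fx τ (Ideal.span {π ^ (j + 1)}) ⊆ Fx τ (Ideal.span {π ^ j}) := fun x hx => by
        simp only [Fx, Finset.mem_filter, Finset.mem_univ, true_and,
          Ideal.mem_span_singleton] at hx ⊢
        exact ⟨(pow_dvd_pow π (Nat.le_succ j)).trans hx.1, hx.2⟩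
      rw [← Finset.sum_sdiff hs, mul_add, ih (j + 1) (by omega), Finset.sum_congr rfl
        (g := fun _ => (-1) ^ j * Q ^ j) fun x hx => ?_, Finset.sum_const,
        Finset.card_sdiff_of_subset hs, nsmul_eq_mul, Nat.cast_sub (Finset.card_le_card hs),
        c1 j (i + 1) hj, c1 (j + 1) i (by omega), show k = i + j by omega]
      · push_cast; rw [← hQ]; ring
      · simp only [Fx, Finset.mem_sdiff, Finset.mem_filter, Finset.mem_univ, true_and,
          Ideal.mem_span_singleton] at hx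
        obtain ⟨⟨⟨c, rfl⟩, h3⟩, h4⟩ := hx
        have hc : IsUnit c := by
          by_contra hc
          exact h4 ⟨by rw [pow_succ]; exact mul_dvd_mul_left _ ((hm c).2 hc), h3⟩
        rw [mul_comm, Φ_unit q hc, v1 j (by omega)]
  obtain ⟨c, hc, e1⟩ := hilbert h2 hε (Φ F q) fun u y hu => Φ_unit q hu y
  rw [finsum_eq_sum_of_fintype]
  refine (mul_eq_zero.1 (e1.symm.trans ?_)).resolve_left (Nat.cast_ne_zero.2 hc)
  have e2 := sum_ideal h2 hε (st 0) (Φ F q)
  have e3 := sum_ideal h2 hε (st 1) (Φ F q)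
  simp only [Φ_unit q hε] at e2 e3
  rw [c1 0 (k + 1) (by omega)] at e2
  rw [c1 1 k (by omega)] at e3
  have e4 := Finset.sum_filter_add_sum_filter_not Finset.univ IsUnit fun b => Φ F q (b - τ b)
  have e5 : Finset.univ.filter (· ∈ Ideal.span {π ^ 0}) = Finset.univ := by ext; simp
  have e6 : Finset.univ.filter (· ∈ Ideal.span {π ^ 1}) =
      Finset.univ.filter fun b => ¬ IsUnit b := by
    ext; simp [Ideal.mem_span_singleton, hm]
  rw [e5] at e2
  rw [e6] at e3
  have s2 := s1 (k + 1) 0 (by omega)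
  have s3 := s1 k 1 (by omega)
  push_cast at e2 e3
  rw [← hQ] at e2 e3
  linear_combination e4 + e2 - e3 + Q ^ (k + 1) / 2 * s2 - Q ^ k / 2 * s3

end CF.Wu
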