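import Cfsg.Agent.Wu.R
import Cfsg.Agent.Wu.B1

set_option autoImplicit false
set_option linter.unusedSectionVars false

open Module CF.Geom

namespace CF.Wu

variable {F V : Type*} [Field F] [Fintype F] [AddCommGroup V] [Module F V] [FiniteDimensional F V]
  [Finite V] {σ : F →+* F} {B : V →ₛₗ[σ] V →ₗ[F] F} {q : ℕ}
  {X : Type*} [AddCommGroup X] [Module ℂ X] [FiniteDimensional ℂ X]

open Polynomial

theorem polarise (hσ : σ ≠ RingHom.id F) (C : V →ₛₗ[σ] V →ₗ[F] F) (h : ∀ x, C x x = 0) (x y : V) :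
    C x y = 0 := by
  obtain ⟨a, ha⟩ : ∃ a : F, σ a ≠ a := by
    by_contra hc; push Not at hc; exact hσ (RingHom.ext hc)
  have h1 := h (x + y)
  have h2 := h (x + a • y)
  simp only [map_add, LinearMap.add_apply, LinearMap.map_smulₛₗ, LinearMap.smul_apply, smul_eq_mul,
    RingHom.id_apply, h] at h1 h2
  exact (mul_eq_zero.1 (show (a - σ a) * C x y = 0 by
    linear_combination h2 - σ a * h1)).resolve_left (sub_ne_zero.2 ha.symm)

namespace B2

theorem loc {E : Type*} [CommRing E] [Finite E] [Nontrivial E]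
    (h : ∀ i : E, i * i = i → i = 0 ∨ i = 1) : IsLocalRing E := by
  refine IsLocalRing.of_isUnit_or_isUnit_one_sub_self fun a => ?_
  obtain ⟨i, p, hp, e⟩ : ∃ i p : ℕ, 0 < p ∧ a ^ (i + p) = a ^ i := by
    obtain ⟨i, j, hij, e⟩ := Finite.exists_ne_map_eq_of_infinite fun n : ℕ => a ^ n
    rcases lt_or_gt_of_ne hij with k | k
    · exact ⟨i, j - i, by omega, by rw [Nat.add_sub_cancel' k.le]; exact e.symm⟩
    · exact ⟨j, i - j, by omega, by rw [Nat.add_sub_cancel' k.le]; exact e⟩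
  have k : ∀ t, a ^ (i + p * t) = a ^ i := fun t => by
    induction t with
    | zero => simp
    | succ t ih => rw [mul_add, mul_one, ← add_assoc, add_right_comm, pow_add, e, ← pow_add, ih]
  obtain ⟨r, hr⟩ : ∃ r, p * (i + 1) = i + (r + 1) :=
    ⟨p * (i + 1) - i - 1, by have := Nat.le_mul_of_pos_left (i + 1) hp; omega⟩
  rcases h (a ^ (p * (i + 1))) (by
    nth_rewrite 1 [hr]
    rw [pow_add, mul_right_comm, ← pow_add, k, ← pow_add, hr]) with h0 | h1
  · exact Or.inr (IsNilpotent.isUnit_one_sub ⟨_, h0⟩)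
  · exact Or.inl (IsUnit.of_pow_eq_one h1 (by omega))

theorem socle {E : Type*} [CommRing E] [Finite E] [IsLocalRing E] [IsPrincipalIdealRing E] :
    ∃ s : E, s ≠ 0 ∧ ∀ a, a ≠ 0 → a ∣ s := by
  have tot : ∀ a b : E, a ∣ b ∨ b ∣ a := fun a b => by
    obtain ⟨c, hc⟩ := (IsPrincipalIdealRing.principal (Ideal.span {a, b})).principal
    replace hc : Ideal.span {a, b} = Ideal.span {c} := hc
    obtain ⟨a', ha⟩ := Ideal.mem_span_singleton.1 (hc ▸ Ideal.subset_span (by simp) : a ∈ _)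
    obtain ⟨b', hb⟩ := Ideal.mem_span_singleton.1 (hc ▸ Ideal.subset_span (by simp) : b ∈ _)
    obtain ⟨x, y, e⟩ := Ideal.mem_span_pair.1 (hc ▸ Ideal.mem_span_singleton_self c)
    rcases IsLocalRing.isUnit_or_isUnit_one_sub_self (x * a' + y * b') with h | h
    · rcases IsLocalRing.isUnit_or_isUnit_of_isUnit_add h with h | h
      · exact Or.inl (ha ▸ hb ▸ ((isUnit_of_mul_isUnit_right h).mul_right_dvd.2 (dvd_mul_right _ _)))
      · exact Or.inr (ha ▸ hb ▸ ((isUnit_of_mul_isUnit_right h).mul_right_dvd.2 (dvd_mul_right _ _)))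
    · have : c = 0 := h.mul_right_eq_zero.1 (by linear_combination -e + x * ha + y * hb)
      left; rw [hb, this, zero_mul]; exact dvd_zero _
  obtain ⟨s, hs, hm⟩ := Set.exists_min_image {s : E | s ≠ 0}
    (fun s => Nat.card (Ideal.span {s})) (Set.toFinite _) ⟨1, one_ne_zero⟩
  refine ⟨s, hs, fun a ha => (tot a s).elim id fun h => ?_⟩
  have h1 : Ideal.span {a} ≤ Ideal.span {s} := Ideal.span_singleton_le_span_singleton.2 h
  have h2 : (Ideal.span {a} : Set E) = Ideal.span {s} :=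
    Set.Finite.eq_of_subset_of_card_le (Set.toFinite _) h1 (hm a ha)
  exact Ideal.mem_span_singleton.1 (show s ∈ (Ideal.span {a} : Set E) from
    h2 ▸ Ideal.mem_span_singleton_self s)

theorem model (h : HS q B) (g : UG B) : ∃ (I : Ideal F[X]) (ι : (F[X] ⧸ I) →ₐ[F] Module.End F V)
    (τ : (F[X] ⧸ I) →+* (F[X] ⧸ I)), Function.Injective ι ∧ (∃ γ, ι γ = g.1) ∧
      (∀ a v, ι a (g.1 v) = g.1 (ι a v)) ∧ ∀ a x y, B (ι a x) y = B x (ι (τ a) y) := by
  obtain ⟨γ, hγ⟩ : ∃ γ : Module.End F V, γ = g.1 := ⟨_, rfl⟩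
  obtain ⟨I, ι, hι, hm⟩ : ∃ (I : Ideal F[X]) (ι : (F[X] ⧸ I) →ₐ[F] Module.End F V),
      Function.Injective ι ∧ ∀ p, ι (Ideal.Quotient.mk I p) = aeval γ p :=
    ⟨_, Ideal.kerLiftAlg (aeval γ), Ideal.kerLiftAlg_injective _, fun _ => rfl⟩
  obtain ⟨n, hn⟩ : ∃ n, ∀ y, g.1 ((γ ^ n) y) = y := by
    refine ⟨orderOf g - 1, fun y => ?_⟩
    have k : ∀ m, γ ^ m = ((g ^ m).1 : V →ₗ[F] V) := fun m => by
      induction m with
      | zero => rfl
      | succ m ih => rw [pow_succ, ih, pow_succ, hγ]; rfl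
    rw [k]
    show (g * g ^ (orderOf g - 1)).1 y = y
    rw [← pow_succ', Nat.sub_add_cancel (orderOf_pos g), pow_orderOf_eq_one]; rfl
  obtain ⟨τ₀, t1, t2⟩ : ∃ τ₀ : F[X] →+* F[X] ⧸ I, (∀ a, τ₀ (C a) = algebraMap F _ (σ a)) ∧
      τ₀ Polynomial.X = Ideal.Quotient.mk I (Polynomial.X ^ n) :=
    ⟨eval₂RingHom ((algebraMap F _).comp σ) (Ideal.Quotient.mk I (Polynomial.X ^ n)),
      fun a => eval₂_C _ _, eval₂_X _ _⟩
  have ad : ∀ p x y, B (aeval γ p x) y = B x (ι (τ₀ p) y) := fun p => by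
    induction p using Polynomial.induction_on with
    | C a => intro x y; rw [t1, AlgHom.commutes, aeval_C]; simp
    | add p r hp hr =>
      intro x y
      simp only [map_add, LinearMap.add_apply, hp, hr]
    | monomial m a ih =>
      intro x y
      have e1 : ι (τ₀ Polynomial.X) = γ ^ n := by rw [t2, hm, map_pow, aeval_X]
      rw [pow_succ, ← mul_assoc, map_mul, aeval_X, Module.End.mul_apply, ih,
        map_mul τ₀ _ Polynomial.X, mul_comm _ (τ₀ Polynomial.X), map_mul ι, e1, Module.End.mul_apply]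
      conv_lhs => rw [← hn (ι _ y)]
      rw [hγ]
      exact UG_map g _ _
  refine ⟨I, ι, Ideal.Quotient.lift I τ₀ fun p hp => hι (LinearMap.ext fun y => ?_), hι,
    ⟨Ideal.Quotient.mk I Polynomial.X, by rw [hm, aeval_X, hγ]⟩, fun a v => ?_, fun a => ?_⟩
  · rw [map_zero]
    refine h.nd.2 _ fun x => ?_
    rw [← ad, ← hm, Ideal.Quotient.eq_zero_iff_mem.2 hp]; simp
  · have : ι (a * Ideal.Quotient.mk I Polynomial.X) = ι (Ideal.Quotient.mk I Polynomial.X * a) := by
      rw [mul_comm]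
    rw [map_mul, map_mul, hm, aeval_X, hγ] at this
    exact LinearMap.congr_fun this v
  · obtain ⟨p, rfl⟩ := Ideal.Quotient.mk_surjective a
    rw [hm, Ideal.Quotient.lift_mk]
    exact ad p

theorem idem (h : HS q B) (hodd : Odd (finrank F V)) {g : UG B} (hi : Indec g) {E : Type*}
    [CommRing E] [Algebra F E] {ι : E →ₐ[F] Module.End F V} {τ : E →+* E}
    (hι : Function.Injective ι) (hc : ∀ a v, ι a (g.1 v) = g.1 (ι a v))
    (ad : ∀ a x y, B (ι a x) y = B x (ι (τ a) y)) (h2 : ∀ a, τ (τ a) = a) (i : E) (e : i * i = i) :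
    i = 0 ∨ i = 1 := by
  have ap : ∀ a b v, ι a (ι b v) = ι (a * b) v := fun a b v => by rw [map_mul]; rfl
  have k1 : ∀ j : E, j * j = j → τ j = j → j = 0 ∨ j = 1 := fun j e1 e2 => by
    rcases hi (LinearMap.range (ι j)) (by rintro _ ⟨x, rfl⟩; exact ⟨_, hc j x⟩)
      (Submodule.disjoint_def.2 (by
        rintro _ ⟨x, rfl⟩ hx
        refine h.nd.2 _ fun y => ?_
        have := mem_perp.1 hx _ ⟨y, rfl⟩
        rwa [ad, e2, ap, e1] at this)) with h0 | h1
    · exact Or.inl (hι (by rw [map_zero]; exact LinearMap.range_eq_bot.1 h0))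
    · refine Or.inr (hι (LinearMap.ext fun v => ?_))
      obtain ⟨x, rfl⟩ := LinearMap.range_eq_top.1 h1 v
      rw [ap, e1, map_one]; rfl
  have k2 : ∀ j : E, j * j = j → τ j * j = 0 ∨ j = 1 := fun j e1 => by
    have e2 : τ j * τ j = τ j := by rw [← map_mul, e1]
    refine (k1 (τ j * j) (by linear_combination j * j * e2 + τ j * e1)
      (by rw [map_mul, h2, mul_comm])).imp_right fun e3 => ?_
    linear_combination (1 - j) * e3 + τ j * e1
  have k3 : ∀ j : E, τ j * j = 0 → 2 * finrank F (LinearMap.range (ι j)) ≤ finrank F V :=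
    fun j e1 => h.wp.two_mul_finrank_le (by
      rintro _ ⟨x, rfl⟩
      refine mem_perp.2 ?_
      rintro _ ⟨y, rfl⟩
      rw [ad, ap, e1]; simp)
  refine (k2 i e).elim (fun e1 => ?_) Or.inr
  refine (k2 (1 - i) (by linear_combination e)).elim (fun e2 => ?_) fun e2 =>
    Or.inl (by linear_combination -e2)
  have k4 := Submodule.finrank_add_le_finrank_add_finrank (LinearMap.range (ι i))
    (LinearMap.range (ι (1 - i)))
  rw [show LinearMap.range (ι i) ⊔ LinearMap.range (ι (1 - i)) = ⊤ from eq_top_iff.2 fun v _ =>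
    Submodule.mem_sup.2 ⟨_, ⟨v, rfl⟩, _, ⟨v, rfl⟩, by simp⟩, finrank_top] at k4
  have := k3 _ e1
  have := k3 _ e2
  obtain ⟨m, hm⟩ := hodd
  omega

theorem main (h : HS q B) (hodd : Odd (finrank F V)) {g : UG B} (hi : Indec g) {E : Type*}
    [CommRing E] [Algebra F E] [IsPrincipalIdealRing E] {ι : E →ₐ[F] Module.End F V} {τ : E →+* E}
    (hι : Function.Injective ι) (hc : ∀ a v, ι a (g.1 v) = g.1 (ι a v)) {γ : E} (hγ : ι γ = g.1)
    (ad : ∀ a x y, B (ι a x) y = B x (ι (τ a) y)) :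
    ∃ A : Subgroup (UG B), A ≤ Subgroup.centralizer {g} ∧ ∑ᶠ a : A, om q a.1 = 0 := by
  have ap : ∀ a b v, ι a (ι b v) = ι (a * b) v := fun a b v => by rw [map_mul]; rfl
  have : Nontrivial V := Module.nontrivial_of_finrank_pos (R := F) hodd.pos
  have : FiniteDimensional F E := FiniteDimensional.of_injective ι.toLinearMap hι
  have : Finite E := Module.finite_of_finite F
  have : Nontrivial E := ι.toRingHom.domain_nontrivial
  have un : ∀ a b, (∀ x y, B x (ι a y) = B x (ι b y)) → a = b := fun a b e =>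
    hι (LinearMap.ext fun y => sub_eq_zero.1 (h.nd.2 _ fun x => by rw [map_sub, e, sub_self]))
  have h2 : ∀ a, τ (τ a) = a := fun a => un _ _ fun x y => by
    rw [← ad, ← h.herm.eq, ← ad, h.herm.eq]
  have hτ : ∀ c, τ (algebraMap F E c) = algebraMap F E (σ c) := fun c => un _ _ fun x y => by
    rw [← ad, AlgHom.commutes, AlgHom.commutes]; simp
  have := loc (idem h hodd hi hι hc ad h2)
  obtain ⟨s, hs, hs'⟩ := socle (E := E)
  obtain ⟨x, hx⟩ : ∃ x, B x (ι s x) ≠ 0 := by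
    by_contra hc; push Not at hc
    exact hs (un _ _ fun x y => by
      simpa using polarise h.herm.ne_id (B.compl₂ (ι s)) hc x y)
  let e : E →ₗ[F] V := (LinearMap.applyₗ x).comp ι.toLinearMap
  have he : ∀ a, e a = ι a x := fun _ => rfl
  have k1 : ∀ a, (∀ b, B (ι b x) (ι a x) = 0) → a = 0 := fun a ha => by
    by_contra h0
    obtain ⟨b, hb⟩ := hs' a h0
    exact hx (by rw [hb, mul_comm, ← ap, ← h2 b, ← ad, ha])
  have inj : Function.Injective e := (injective_iff_map_eq_zero e).2 fun a ha =>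
    k1 a fun b => by rw [← he a, ha, map_zero]
  have sur : LinearMap.range e = ⊤ := by
    refine (hi _ ?_ (Submodule.disjoint_def.2 ?_)).resolve_left fun h0 => ?_
    · rintro _ ⟨a, rfl⟩
      exact ⟨γ * a, by rw [he, he, ← ap, hγ]; rfl⟩
    · rintro _ ⟨a, rfl⟩ ha
      rw [k1 a fun b => mem_perp.1 ha _ ⟨b, rfl⟩, map_zero]
    · exact one_ne_zero (inj (by rw [LinearMap.range_eq_bot.1 h0]; rfl) : (1 : E) = 0)
  let e' := LinearEquiv.ofBijective e ⟨inj, LinearMap.range_eq_top.1 sur⟩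
  have hz := chain_sum h.card h.frob τ h2 hτ (by rwa [e'.finrank_eq])
  let φ : {a : E // τ a * a = 1} → UG B := fun a =>
    ⟨LinearEquiv.ofLinear (ι a) (ι (τ a))
      (LinearMap.ext fun v => by simp [ap, mul_comm a.1, a.2])
      (LinearMap.ext fun v => by simp [ap, a.2]),
      mem_UG.2 fun u v => by simp [ad, ap, a.2]⟩
  have hφ : ∀ a v, (φ a).1 v = ι a v := fun _ _ => rfl
  let A : Subgroup (UG B) :=
    { carrier := Set.range φ
      mul_mem' := by
        rintro _ _ ⟨a, rfl⟩ ⟨b, rfl⟩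
        exact ⟨⟨a * b, by rw [map_mul]; linear_combination τ b * b * a.2 + b.2⟩,
          Subtype.ext (LinearEquiv.ext fun v => (ap _ _ _).symm)⟩
      one_mem' := ⟨⟨1, by simp⟩, Subtype.ext (LinearEquiv.ext fun v => by rw [hφ]; simp)⟩
      inv_mem' := by
        rintro _ ⟨a, rfl⟩
        exact ⟨⟨τ a, by rw [h2, mul_comm, a.2]⟩, Subtype.ext (LinearEquiv.ext fun v => rfl)⟩ }
  refine ⟨A, ?_, ?_⟩
  · rintro _ ⟨a, rfl⟩
    exact Subgroup.mem_centralizer_singleton_iff.2 (Subtype.ext (LinearEquiv.ext fun v => hc a v))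
  have : Finite {a : E // τ a * a = 1} := inferInstance
  rw [← finsum_eq_of_bijective (f := fun a : {a : E // τ a * a = 1} => (-1) ^ finrank F V *
    (-(q : ℂ)) ^ finrank F (LinearMap.ker (LinearMap.mulLeft F (a.1 - 1))))
    (fun a => (⟨φ a, a, rfl⟩ : A)) ⟨fun a b e => Subtype.ext (hι (LinearMap.ext fun v =>
      congrArg (fun z : A => z.1.1 v) e)), by rintro ⟨_, a, rfl⟩; exact ⟨a, rfl⟩⟩ fun a => ?_,
    ← mul_finsum' _ _ (Set.toFinite _), hz, mul_zero]
  rw [om, ← LinearEquiv.finrank_map_eq e']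
  refine congrArg (fun W : Submodule F V => (-1) ^ finrank F V * (-(q : ℂ)) ^ finrank F W) ?_
  ext v
  obtain ⟨b, rfl⟩ := e'.surjective v
  rw [Submodule.mem_map_equiv, LinearEquiv.symm_apply_apply, mem_fixS, LinearMap.mem_ker,
    LinearMap.mulLeft_apply, sub_mul, one_mul, sub_eq_zero, ← inj.eq_iff]
  show _ ↔ ι a (ι b x) = ι b x
  rw [ap]; rfl

end B2

theorem cent_sum_ind (h : HS q B) (hodd : Odd (finrank F V)) {g : UG B} (hi : Indec g) :
    ∃ A : Subgroup (UG B), A ≤ Subgroup.centralizer {g} ∧ ∑ᶠ a : A, om q a.1 = 0 := by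
  obtain ⟨I, ι, τ, hι, ⟨γ, hγ⟩, hc, ad⟩ := B2.model h g
  have : IsPrincipalIdealRing (F[X] ⧸ I) :=
    IsPrincipalIdealRing.of_surjective (Ideal.Quotient.mk I) Ideal.Quotient.mk_surjective
  exact B2.main h hodd hi hι hc hγ ad

end CF.Wu
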