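import Cfsg.Agent.Wu.R
import Cfsg.Agent.Wu.B2

set_option autoImplicit false
set_option linter.unusedSectionVars false

open Module CF.Geom

namespace CF.Wu

variable {F V : Type*} [Field F] [Fintype F] [AddCommGroup V] [Module F V] [FiniteDimensional F V]
  [Finite V] {σ : F →+* F} {B : V →ₛₗ[σ] V →ₗ[F] F} {q : ℕ}
  {X : Type*} [AddCommGroup X] [Module ℂ X] [FiniteDimensional ℂ X]

theorem cent_sum (h : HS q B) (hodd : Odd (finrank F V)) (g : UG B) :
    ∃ A : Subgroup (UG B), A ≤ Subgroup.centralizer {g} ∧ ∑ᶠ a : A, om q a.1 = 0 := by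
  obtain ⟨U, ⟨h1, hU, h3⟩, hm⟩ := Set.exists_min_image
    {U : Submodule F V | (∀ x ∈ U, g.1 x ∈ U) ∧ Disjoint U (perp B U) ∧ Odd (finrank F U)}
    (fun U => finrank F U) (Set.toFinite _)
    ⟨⊤, fun _ _ => trivial, by rw [h.wp.perp_top]; exact disjoint_bot_right, by
      rwa [finrank_top]⟩
  obtain ⟨a, ha⟩ := exists_res g h1
  have h' := h.res hU
  have k : ∀ W : Submodule F U, (∀ x ∈ W, a.1 x ∈ W) → Disjoint W (perp (rs B U) W) →
      Odd (finrank F W) → W = ⊤ := fun W w1 w2 w3 => by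
    have := hm (W.map U.subtype) ⟨by
      rintro _ ⟨x, hx, rfl⟩
      exact ⟨_, w1 x hx, ha x⟩, Submodule.disjoint_def.2 (by
        rintro _ ⟨x, hx, rfl⟩ hx'
        rw [Submodule.disjoint_def.1 w2 x hx (mem_perp.2 fun y hy =>
          mem_perp.1 hx' _ ⟨y, hy, rfl⟩), map_zero]),
      by rwa [Submodule.finrank_map_subtype_eq]⟩
    simp only [Submodule.finrank_map_subtype_eq] at this
    exact Submodule.eq_top_of_finrank_eq (le_antisymm (Submodule.finrank_le _) this)
  obtain ⟨A, hA, hA'⟩ := cent_sum_ind h' h3 (g := a) fun W w1 w2 => by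
    by_cases ho : Odd (finrank F W)
    · exact Or.inr (k W w1 w2 ho)
    · have e := h'.wp.finrank_perp W
      have := k _ (map_perp_mem a w1) (h'.wp.disjoint_perp_perp w2) (by
        rw [← e, Nat.odd_add] at h3
        rw [← Nat.not_even_iff_odd]
        exact fun h => ho (h3.2 h))
      left
      rw [← h'.wp.perp_perp W, this, h'.wp.perp_top]
  refine ⟨A.map (ext h hU), ?_, ?_⟩
  · rintro _ ⟨b, hb, rfl⟩
    have hb' := Subgroup.mem_centralizer_singleton_iff.1 (hA hb)
    refine Subgroup.mem_centralizer_singleton_iff.2 (Subtype.ext (LinearEquiv.ext fun v => ?_))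
    obtain ⟨x, y, hy, rfl⟩ := h.decomp hU v
    show (ext h hU b).1 (g.1 _) = g.1 ((ext h hU b).1 _)
    rw [map_add g.1, ← ha, ext_add h hU b _ (map_perp_mem g h1 y hy), ext_add h hU b x hy, map_add,
      ← ha]
    exact congrArg (fun z : UG (rs B U) => (z.1 x : V) + g.1 y) hb'
  · rw [← finsum_eq_of_bijective (f := fun b : A => (q : ℂ) ^ finrank F (perp B U) * om q b.1)
      (A.equivMapOfInjective _ (ext_injective h hU)) (MulEquiv.bijective _) fun b => ?_,
      ← mul_finsum' _ _ (Set.toFinite _), hA', mul_zero]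
    show _ = om q (ext h hU b)
    rw [om, om, finrank_fixS_ext, ← h.wp.finrank_perp U, pow_add, pow_add,
      show (q : ℂ) = -1 * -q by ring, mul_pow]
    simp only [neg_mul, one_mul, neg_neg]; ring

end CF.Wu
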