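import Cfsg.Agent.Wu.D

/-! Traces of elements acting fixed-point-freely on a section. -/

set_option autoImplicit false
set_option linter.unusedSectionVars false

open Module CF.Geom

namespace CF.Wu

variable {X : Type*} [AddCommGroup X] [Module ℂ X] [FiniteDimensional ℂ X]
  {G : Type*} [Group G] [Finite G] (ρ : Representation ℂ G X)

namespace FO

/-- The projection onto the fixed vectors of `H`. -/
noncomputable def pj (H : Subgroup G) : End ℂ X := (Nat.card H : ℂ)⁻¹ • ∑ᶠ h : H, ρ h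

theorem pj_mem (H : Subgroup G) (v : X) : pj ρ H v ∈ fx ρ H := by
  have := Fintype.ofFinite H
  have h := sum_mem_fx ρ H v
  rw [finsum_eq_sum_of_fintype] at h
  rw [pj, finsum_eq_sum_of_fintype, LinearMap.smul_apply, LinearMap.sum_apply]
  exact Submodule.smul_mem _ _ h

theorem avg {M : Type*} [AddCommGroup M] [Module ℂ M] (H : Subgroup G) (T : End ℂ X →ₗ[ℂ] M) {c : M}
    (h : ∀ g ∈ H, T (ρ g) = c) : T (pj ρ H) = c := by
  have := Fintype.ofFinite H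
  rw [pj, finsum_eq_sum_of_fintype, map_smul, map_sum, Finset.sum_congr rfl fun (g : H) _ => h g g.2,
    Finset.sum_const, Finset.card_univ, ← Nat.cast_smul_eq_nsmul ℂ, smul_smul,
    Nat.card_eq_fintype_card, inv_mul_cancel₀ (Nat.cast_ne_zero.2 Fintype.card_ne_zero), one_smul]

theorem pj_id {H : Subgroup G} {v : X} (h : v ∈ fx ρ H) : pj ρ H v = v :=
  avg ρ H (LinearMap.applyₗ v) h

theorem map_mem {H : Subgroup G} {a : G} (ha : a ∈ Subgroup.normalizer (H : Set G)) {v : X}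
    (h : v ∈ fx ρ H) : ρ a v ∈ fx ρ H :=
  map_mem_fx (fun k hk => by simpa using (Subgroup.mem_normalizer_iff.1 (inv_mem ha) k).1 hk) h

theorem pj_comm {H : Subgroup G} {a : G} (ha : a ∈ Subgroup.normalizer (H : Set G)) :
    ρ a * pj ρ H = pj ρ H * ρ a := by
  have k : ∀ g ∈ H, pj ρ H * ρ g = pj ρ H := fun g hg => by
    have := Fintype.ofFinite H
    rw [pj, finsum_eq_sum_of_fintype, smul_mul_assoc, Finset.sum_mul]
    exact congrArg _ (Fintype.sum_equiv (Equiv.mulRight (⟨g, hg⟩ : H)) _ _ fun h => by simp)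
  have h1 : pj ρ H * (ρ a * pj ρ H) = pj ρ H * ρ a :=
    avg ρ H (LinearMap.mulLeft ℂ (pj ρ H) ∘ₗ LinearMap.mulLeft ℂ (ρ a)) fun g hg => by
      have := k _ ((Subgroup.mem_normalizer_iff.1 ha g).1 hg)
      change pj ρ H * (ρ a * ρ g) = _
      conv_rhs => rw [← this]
      simp only [mul_assoc, ← map_mul, inv_mul_cancel, mul_one]
  exact (LinearMap.ext fun v => (pj_id ρ (map_mem ρ ha (pj_mem ρ H v))).symm).trans h1

theorem trace_pj {H A : Subgroup G} (hA : A ≤ Subgroup.normalizer (H : Set G)) :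
    ∑ᶠ a : A, LinearMap.trace ℂ X (ρ a * pj ρ H) =
      Nat.card A * finrank ℂ ↥(fx ρ H ⊓ fx ρ A) := by
  have := Fintype.ofFinite A
  have h : LinearMap.IsProj (fx ρ H ⊓ fx ρ A) (pj ρ A * pj ρ H) := ⟨fun v => ⟨by
    rw [pj, finsum_eq_sum_of_fintype, End.mul_apply, LinearMap.smul_apply, LinearMap.sum_apply]
    exact Submodule.smul_mem _ _ (Submodule.sum_mem _ fun a _ => map_mem ρ (hA a.2) (pj_mem ρ H v)),
    pj_mem ρ A _⟩, fun v hv => by rw [End.mul_apply, pj_id ρ hv.1, pj_id ρ hv.2]⟩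
  rw [← h.trace, pj.eq_1 ρ A, smul_mul_assoc, map_smul, smul_eq_mul,
    mul_inv_cancel_left₀ (Nat.cast_ne_zero.2 Nat.card_pos.ne'), finsum_eq_sum_of_fintype,
    finsum_eq_sum_of_fintype, Finset.sum_mul, map_sum]

theorem trace_one (H : Subgroup G) : LinearMap.trace ℂ X (pj ρ H) = finrank ℂ (fx ρ H) :=
  (⟨pj_mem ρ H, fun _ => pj_id ρ⟩ : LinearMap.IsProj (fx ρ H) (pj ρ H)).trace

theorem key {N Q : Subgroup G} (hNQ : N ≤ Q) (hQ : Q ≤ Subgroup.normalizer (N : Set G)) {a : G}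
    (hA : a ∈ Subgroup.normalizer (N : Set G)) (hAQ : a ∈ Subgroup.normalizer (Q : Set G))
    (hf : ∀ x ∈ Q, x⁻¹ * a * x * a⁻¹ ∈ N → x ∈ N) :
    LinearMap.trace ℂ X (ρ a * pj ρ N) = LinearMap.trace ℂ X (ρ a * pj ρ Q) := by
  have cj : ∀ {H : Subgroup G} {g n : G}, g ∈ Subgroup.normalizer (H : Set G) → n ∈ H →
    g * n * g⁻¹ ∈ H := fun hg hn => (Subgroup.mem_normalizer_iff.1 hg _).1 hn
  have hc : ∀ x ∈ Q, x⁻¹ * a * x * a⁻¹ ∈ Q := fun x hx => by
    simpa [mul_assoc] using mul_mem (inv_mem hx) (cj hAQ hx)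
  choose r r1 r2 using fun s : (QuotientGroup.mk '' (Q : Set G) : Set (G ⧸ N)) => s.2
  have hs := Finite.injective_iff_surjective (f := fun s : (QuotientGroup.mk '' (Q : Set G) :
    Set (G ⧸ N)) => ⟨_, _, hc _ (r1 s), rfl⟩).1 fun s t e => Subtype.ext (by
      have h1 := cj (hQ (cj hAQ (r1 s))) (QuotientGroup.eq.1 (congrArg Subtype.val e))
      have h2 := cj (hQ (inv_mem (r1 s))) (hf _ (mul_mem (r1 t) (inv_mem (r1 s)))
        (by simpa [mul_assoc] using h1))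
      rw [← r2 s, ← r2 t, QuotientGroup.eq]
      simpa [mul_assoc] using h2)
  have h1 : pj ρ Q * (ρ a * pj ρ N) = ρ a * pj ρ Q := by
    rw [← mul_assoc, ← pj_comm ρ hAQ, mul_assoc]
    refine congrArg _ (avg ρ N (LinearMap.mulLeft ℂ _) fun g hg => ?_)
    exact (pj_comm ρ (Q.le_normalizer (hNQ hg))).symm.trans
      (LinearMap.ext fun v => pj_mem ρ Q v g (hNQ hg))
  rw [← h1]
  refine (avg ρ Q (LinearMap.trace ℂ X ∘ₗ LinearMap.mulRight ℂ _) fun y hy => ?_).symm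
  obtain ⟨s, e⟩ := hs ⟨_, y, hy, rfl⟩
  have h2 := cj (inv_mem hA) (QuotientGroup.eq.1 (congrArg Subtype.val e))
  have h3 : ρ y * (ρ a * pj ρ N) = ρ (r s)⁻¹ * (ρ a * pj ρ N * ρ (r s)) := by
    rw [mul_assoc, ← pj_comm ρ (hQ (r1 s)), ← show ρ _ * pj ρ N = pj ρ N from
      LinearMap.ext fun v => pj_mem ρ N v _ h2]
    conv_lhs => rw [show ρ _ * pj ρ N = pj ρ N from LinearMap.ext fun v => pj_mem ρ N v _ h2]
    simp only [← mul_assoc, ← map_mul]
    congr 2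
    group
  change LinearMap.trace ℂ X (_ * _) = _
  rw [h3, LinearMap.trace_mul_comm, mul_assoc, ← map_mul, mul_inv_cancel, map_one, mul_one]

end FO

open FO

theorem fo1 {N Q A : Subgroup G}
    (hNQ : N ≤ Q) (hQ : Q ≤ Subgroup.normalizer (N : Set G))
    (hA : A ≤ Subgroup.normalizer (N : Set G)) (hAQ : A ≤ Subgroup.normalizer (Q : Set G))
    (hf : ∀ a ∈ A, (∀ v ∈ fx ρ N, ρ a v = v) ∨ ∀ x ∈ Q, x⁻¹ * a * x * a⁻¹ ∈ N → x ∈ N)
    (h0 : fx ρ N ⊓ fx ρ A = ⊥) : fx ρ N ≤ fx ρ Q := by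
  classical
  have := Fintype.ofFinite A
  have h1 := trace_pj ρ hA
  have h2 := trace_pj ρ hAQ
  rw [h0] at h1
  rw [eq_bot_iff.2 ((inf_le_inf_right _ (fx_anti ρ hNQ)).trans h0.le), ← h1,
    finsum_eq_sum_of_fintype, finsum_eq_sum_of_fintype, ← sub_eq_zero, ← Finset.sum_sub_distrib,
    Finset.sum_congr rfl (g := fun a => if ∀ v ∈ fx ρ N, ρ a.1 v = v then
      (finrank ℂ (fx ρ Q) : ℂ) - finrank ℂ (fx ρ N) else 0) fun a _ => ?_, ← Finset.sum_filter,
    Finset.sum_const, nsmul_eq_mul, mul_eq_zero, Nat.cast_eq_zero, Finset.card_eq_zero,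
    or_iff_right (Finset.Nonempty.ne_empty ⟨1, by simp⟩), sub_eq_zero, Nat.cast_inj] at h2
  · exact (Submodule.eq_of_le_of_finrank_eq (fx_anti ρ hNQ) h2).ge
  split_ifs with k
  · rw [show ρ a * pj ρ N = pj ρ N from LinearMap.ext fun v => k _ (pj_mem ρ N v), trace_one,
      show ρ a * pj ρ Q = pj ρ Q from LinearMap.ext fun v => k _ (fx_anti ρ hNQ (pj_mem ρ Q v)),
      trace_one]
  · rw [key ρ hNQ hQ (hA a.2) (hAQ a.2) ((hf _ a.2).resolve_left k), sub_self]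

theorem fo2 {N Q A : Subgroup G}
    (hNQ : N ≤ Q) (hQ : Q ≤ Subgroup.normalizer (N : Set G))
    (hA : A ≤ Subgroup.normalizer (N : Set G)) (hAQ : A ≤ Subgroup.normalizer (Q : Set G))
    (hf : ∀ a ∈ A, a ≠ 1 → ∀ x ∈ Q, x⁻¹ * a * x * a⁻¹ ∈ N → x ∈ N) :
    ∃ k, finrank ℂ (fx ρ N) = finrank ℂ (fx ρ Q) + Nat.card A * k := by
  have := Fintype.ofFinite A
  obtain ⟨k, hk⟩ := Nat.exists_eq_add_of_le (Submodule.finrank_mono
    (inf_le_inf_right (fx ρ A) (fx_anti ρ hNQ)))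
  have h1 := trace_pj ρ hA
  rw [hk, Nat.cast_add, mul_add, ← trace_pj ρ hAQ, finsum_eq_sum_of_fintype,
    finsum_eq_sum_of_fintype, ← sub_eq_iff_eq_add', ← Finset.sum_sub_distrib,
    Finset.sum_eq_single 1 (fun a _ n => by
      rw [key ρ hNQ hQ (hA a.2) (hAQ a.2) (hf _ a.2 (by simpa using n)), sub_self]) (by simp),
    sub_eq_iff_eq_add'] at h1
  simp only [OneMemClass.coe_one, map_one, one_mul, trace_one] at h1
  exact ⟨k, by exact_mod_cast h1⟩

end CF.Wu
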