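import Cfsg.Agent.Wu.R
import Cfsg.Agent.Wu.FO

set_option autoImplicit false
set_option linter.unusedSectionVars false

open Module CF.Geom

namespace CF.Wu

variable {F V : Type*} [Field F] [Fintype F] [AddCommGroup V] [Module F V] [FiniteDimensional F V]
  [Finite V] {σ : F →+* F} {B : V →ₛₗ[σ] V →ₗ[F] F} {q : ℕ}
  {X : Type*} [AddCommGroup X] [Module ℂ X] [FiniteDimensional ℂ X]

namespace C

variable {e f : V}

theorem comm_lev (h : HS q B) (hp : Hp B e f) {x : UG B} (hx : x ∈ pt B (Pp B e f))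
    (a : UG (rs B (Pp B e f))) : Commute x (lev h hp a) := by
  refine Subtype.ext (LinearEquiv.ext fun v => ?_)
  obtain ⟨w, y, hy, rfl⟩ := h.decomp (h.disj hp) v
  show x.1 ((lev h hp a).1 _) = (lev h hp a).1 (x.1 _)
  rw [ext_add h _ a w hy, map_add, map_add, hx _ w.2, hx _ (a.1 w).2, ext_add h _ a w
    (map_perp_mem x (fun z hz => by rw [hx z hz]; exact hz) y hy)]

theorem pi_form (h : HS q B) (hp : Hp B e f) {x : UG B} (hx : x ∈ pt B (Pp B e f)) {v : V}
    (hv : v ∈ perp B (Pp B e f)) : x.1 v = B f (x.1 v) • e + B e (x.1 v) • f := by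
  have h1 := map_perp_mem x (fun z hz => by rw [hx z hz]; exact hz) v hv
  obtain ⟨w, e1, w1, w2⟩ := h.herm.hyp_decomp hp.he hp.hf hp.hef (x.1 v)
  have hw : w ∈ Pp B e f := mem_Pp.2 ⟨w1, w2⟩
  have : w = 0 := Submodule.disjoint_def.1 (h.disj hp) w hw (mem_perp.2 fun y hy => by
    have := mem_perp.1 h1 y hy
    rw [e1] at this
    simpa [h.herm.refl (mem_Pp.1 hy).1, h.herm.refl (mem_Pp.1 hy).2] using this)
  rwa [this, add_zero] at e1

theorem e_mem (h : HS q B) : e ∈ perp B (Pp B e f) :=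
  h.wp.le_perp_perp _ (Submodule.subset_span (by simp))

theorem f_mem (h : HS q B) : f ∈ perp B (Pp B e f) :=
  h.wp.le_perp_perp _ (Submodule.subset_span (by simp))

variable {S : Subgroup (UG (rs B (Pp B e f)))} {t : UG (rs B (Pp B e f))}

theorem split (h : HS q B) (hp : Hp B e f) (hS : Sing q S t) {x : UG B}
    (hx : x ∈ pt B (Pp B e f)) {a b : F}
    (h1 : x.1 (x.1 e) - (a + b) • x.1 e + (a * b) • e = 0)
    (h2 : x.1 (x.1 f) - (a + b) • x.1 f + (a * b) • f = 0)
    (ha : ∀ w, t.1 w = a • w → w = 0) (hb : ∀ w, t.1 w = b • w → w = 0) {y : UG B}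
    (hy : y ∈ Subgroup.centralizer {x * lev h hp t}) :
    ∃ s ∈ S, ∃ z ∈ pt B (Pp B e f), Commute z x ∧ y = z * lev h hp s := by
  have hy : Commute y (x * lev h hp t) := Subgroup.mem_centralizer_singleton_iff.1 hy
  set g := x * lev h hp t with hg
  let D : V →ₗ[F] V := (g.1 : V →ₗ[F] V) ∘ₗ g.1 - (a + b) • (g.1 : V →ₗ[F] V) + (a * b) • LinearMap.id
  have hD : ∀ v, D v = g.1 (g.1 v) - (a + b) • g.1 v + (a * b) • v := fun _ => rfl
  have g1 : ∀ v ∈ perp B (Pp B e f), g.1 v = x.1 v := fun v hv => by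
    show x.1 ((lev h hp t).1 v) = _
    rw [ext_perp h _ t hv]
  have g2 : ∀ w : Pp B e f, g.1 w = t.1 w := fun w => by
    show x.1 ((lev h hp t).1 w) = _
    rw [ext_mem, hx _ (t.1 w).2]
  have xp := map_perp_mem x (fun z hz => by rw [hx z hz]; exact hz)
  have d1 : ∀ v ∈ Submodule.span F {e, f}, D v = 0 := fun v hv => by
    obtain ⟨c, d, rfl⟩ := Submodule.mem_span_pair.1 hv
    rw [map_add, map_smul, map_smul, hD, hD, g1 e (e_mem h), g1 f (f_mem h), g1 _ (xp _ (e_mem h)),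
      g1 _ (xp _ (f_mem h)), h1, h2]
    simp
  have d2 : ∀ v ∈ Submodule.span F {e, f}, y.1 v ∈ Submodule.span F {e, f} := fun v hv => by
    have c1 : ∀ v, g.1 (y.1 v) = y.1 (g.1 v) := fun v =>
      congrArg (fun z : UG B => z.1 v) hy.eq.symm
    have k : D (y.1 v) = 0 := by
      have := congrArg y.1 (d1 v hv)
      rw [hD, map_add, map_sub, map_smul, map_smul, map_zero] at this
      rw [hD, c1, c1, this]
    obtain ⟨w, z, hz, e1⟩ := h.decomp (h.disj hp) (y.1 v)
    rw [h.wp.perp_perp] at hz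
    rw [e1, map_add, d1 z hz, add_zero, hD, g2, g2] at k
    have k2 : t.1 w - b • w = 0 := ha _ (Subtype.ext (by
      simp only [map_sub, map_smul, Submodule.coe_sub, Submodule.coe_smul]
      linear_combination (norm := module) k))
    rw [e1, hb w (sub_eq_zero.1 k2)]
    simpa using hz
  obtain ⟨s, hs⟩ := exists_res y (map_perp_mem y d2)
  have cs : Commute s t := Subtype.ext (LinearEquiv.ext fun w => Subtype.ext (by
    show (s.1 (t.1 w) : V) = t.1 (s.1 w)
    rw [hs, ← g2, ← g2, hs]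
    exact congrArg (fun z : UG B => z.1 w) hy.eq))
  have hz : y * (lev h hp s)⁻¹ ∈ pt B (Pp B e f) := fun w hw => by
    rw [← map_inv]
    show y.1 ((lev h hp s⁻¹).1 (⟨w, hw⟩ : Pp B e f)) = w
    rw [ext_mem, ← hs]
    exact congrArg Subtype.val (s.1.apply_symm_apply _)
  refine ⟨s, hS.cen (Subgroup.mem_centralizer_singleton_iff.2 cs), _, hz, ?_, by simp⟩
  have c2 : Commute (y * (lev h hp s)⁻¹) g :=
    hy.mul_left ((comm_lev h hp hx s).symm.mul_right (cs.map _)).inv_left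
  simpa [hg] using c2.mul_right (comm_lev h hp hz t).inv_right

theorem scal_fix (h : HS q B) (hp : Hp B e f) (hS : Sing q S t) {ρ : Representation ℂ (UG B) X}
    (hZ : ∀ z ∈ Zs B, ρ z = 1) {v : X} (hv : v ∈ fx ρ (S.map (lev h hp))) {y d : UG B}
    (hy : y ∈ pt B (Pp B e f)) (hd : d ∈ pt B (Pp B e f)) (hd' : ρ d v = v) {c : F}
    (h1 : y.1 e = c • d.1 e) (h2 : y.1 f = c • d.1 f) : ρ y v = v := by
  have hc : σ c * c = 1 := by
    have := UG_map y e f
    rw [h1, h2] at this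
    simpa [UG_map, hp.hef, mul_comm] using this
  let z : normOne σ := ⟨Units.mk0 c (right_ne_zero_of_mul_eq_one hc), hc⟩
  have hs : scal (rs B (Pp B e f)) z⁻¹ ∈ S := hS.cen (Subgroup.mem_centralizer_singleton_iff.2
    (commute_Zs ⟨_, fun _ => rfl⟩ t))
  have : y = d * (scal B z * lev h hp (scal _ z⁻¹)) := by
    refine h.herm.ext_hyp hp.he hp.hf hp.hef ?_ ?_ fun x x1 x2 => ?_
    · show _ = d.1 (c • (lev h hp _).1 e)
      rw [lev_e, map_smul, h1]
    · show _ = d.1 (c • (lev h hp _).1 f)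
      rw [lev_f, map_smul, h2]
    · have hx := mem_Pp.2 ⟨x1, x2⟩
      show _ = d.1 (c • (lev h hp _).1 (⟨x, hx⟩ : Pp B e f))
      rw [ext_mem, scal_apply, hy x hx, Submodule.coe_smul, smul_smul]
      simp [z, mul_inv_cancel₀ (right_ne_zero_of_mul_eq_one hc), hd x hx]
  rw [this, map_mul, map_mul, hZ (scal B z) ⟨_, fun _ => rfl⟩, one_mul, Module.End.mul_apply,
    hv _ ⟨_, hs, rfl⟩, hd']

theorem Rf_le (h : HS q B) {u : V} (hu : u ∈ perp B (Pp B e f)) : Rf B u ≤ pt B (Pp B e f) :=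
  fun _ hg w hw => mem_Rf.1 hg w (h.herm.refl (mem_perp.1 hu w hw))

theorem trans (h : HS q B) (hp : Hp B e f) (hS : Sing q S t) {ρ : Representation ℂ (UG B) X}
    (hZ : ∀ z ∈ Zs B, ρ z = 1) (hC : ∀ g : UG B, fx ρ (Subgroup.centralizer {g}) = ⊥) {e' f' : V}
    (hp' : Hp B e' f') (hP : Pp B e' f' = Pp B e f) :
    fx ρ (S.map (lev h hp)) ⊓ fx ρ (Rf B e') = ⊥ := by
  obtain ⟨s, s0, hs⟩ := exists_skew_ne_zero h.herm.ne_id h.herm.invol
  have he' : e' ∈ perp B (Pp B e f) := hP ▸ e_mem h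
  have hx := Rf_le h he' (uTrans_mem_Rf h.herm hp'.he hs)
  rw [eq_bot_iff, ← hC (uTrans h.herm hp'.he hs * lev h hp t)]
  rintro v ⟨v1, v2⟩ y hy
  have k : ∀ u, (uTrans h.herm hp'.he hs).1 ((uTrans h.herm hp'.he hs).1 u) -
      ((1 : F) + 1) • (uTrans h.herm hp'.he hs).1 u + ((1 : F) * 1) • u = 0 := fun u => by
    simp only [uTrans_apply, map_add, map_smul, hp'.he]; module
  have k1 : ∀ w, t.1 w = (1 : F) • w → w = 0 := fun w hw =>
    hS.free t hS.mem hS.ne w (by rw [hw, one_smul])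
  obtain ⟨s', hs', z, hz, c, rfl⟩ := split h hp hS hx (k e) (k f) k1 k1 hy
  rw [map_mul, Module.End.mul_apply, v1 _ ⟨_, hs', rfl⟩]
  have c1 := congrArg (fun g : UG B => g.1 (z.1 f'))
    ((conj_uTrans h.herm z hp'.he hs).symm.trans (mul_inv_eq_iff_eq_mul.2 c.eq))
  simp only [uTrans_apply, UG_map, hp'.hef, mul_one, add_right_inj] at c1
  obtain ⟨c, hc⟩ : ∃ c : F, z.1 e' = c • e' :=
    ⟨_, smul_right_injective V s0 (c1.trans (mul_smul _ _ _))⟩
  have c2 : c = B e' (z.1 f') := by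
    have := congrArg (B f') c1
    simp only [hc, map_smul, h.herm.flip_one hp'.hef, smul_eq_mul, mul_one] at this
    exact mul_left_cancel₀ s0 this
  have c3 : σ c * c = 1 := by
    have := UG_map z e' f'
    rw [hc, hp'.hef] at this
    simpa [← c2] using this
  have c0 := right_ne_zero_of_mul_eq_one c3
  let d := uDil h.herm hp'.he hp'.hf hp'.hef (Units.mk0 c c0)
  have d1 : d ∈ pt B (Pp B e f) := fun w hw =>
    uDil_of_perp _ _ _ _ _ (mem_Pp.1 (hP ▸ hw)).1 (mem_Pp.1 (hP ▸ hw)).2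
  have d2 : ∀ u ∈ perp B (Pp B e f), d.1 u = c • u := fun u hu => by
    have e1 := pi_form h hp' (one_mem _) (hP ▸ hu)
    replace e1 : u = B f' u • e' + B e' u • f' := e1
    rw [uDil_apply, Units.val_mk0, inv_eq_of_mul_eq_one_right c3]
    nth_rewrite 1 [e1]
    nth_rewrite 5 [e1]
    module
  have d3 : d⁻¹ * z ∈ Rf B e' := mem_Rf.2 fun u hu => by
    obtain ⟨w, e1, w1, w2⟩ := h.herm.hyp_decomp hp'.he hp'.hf hp'.hef u
    have hw : w ∈ Pp B e f := hP ▸ mem_Pp.2 ⟨w1, w2⟩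
    show d.1.symm (z.1 u) = u
    rw [LinearEquiv.symm_apply_eq, e1, hu]
    simp only [map_add, map_smul, hc, d2 _ he', hz w hw, d1 w hw, zero_smul, map_zero]
  rw [show z = d * (d⁻¹ * z) by simp, map_mul, Module.End.mul_apply, v2 _ d3]
  exact scal_fix h hp hS hZ v1 d1 (one_mem _) (by simp) (d2 _ (e_mem h)) (d2 _ (f_mem h))

theorem big (h : HS q B) (hp : Hp B e f) (hS : Sing q S t) (hq : q ≠ 2)
    {ρ : Representation ℂ (UG B) X} (hZ : ∀ z ∈ Zs B, ρ z = 1)
    (hC : ∀ g : UG B, fx ρ (Subgroup.centralizer {g}) = ⊥) : fx ρ (S.map (lev h hp)) = ⊥ := by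
  have hfe := h.herm.flip_one hp.hef
  obtain ⟨a, a1, a2, a3⟩ := exists_fixed_ne_zero_ne_one h.card hq
  obtain ⟨l, hl⟩ := exists_norm_eq h.herm.ne_id h.herm.invol (c := a) (by rw [h.frob, a1])
  have l0 : l ≠ 0 := by rintro rfl; exact a2 (by simpa using hl.symm)
  have l1 : σ l ≠ 0 := (map_ne_zero σ).2 l0
  have l2 : l - (σ l)⁻¹ ≠ 0 := fun k => a3 (by
    rw [← hl, sub_eq_zero.1 k, map_inv₀, h.herm.invol, ← sub_eq_zero.1 k, inv_mul_cancel₀ l0])
  set D := uDil h.herm hp.he hp.hf hp.hef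
  have d1 : ∀ m, D m ∈ pt B (Pp B e f) := fun m w hw =>
    uDil_of_perp _ _ _ _ _ (mem_Pp.1 hw).1 (mem_Pp.1 hw).2
  have ei : ∀ c, σ c * c ≠ 1 → ∀ w, t.1 w = c • w → w = 0 := fun c hc w hw => by
    by_contra h0
    have hs := (finrank_eq_one_iff_of_nonzero' w h0).1 (hS.eig w c h0 hw)
    have k := UG_map t w w
    rw [hw] at k
    refine h0 ((h.pp hp).nd.1 w fun y => ?_)
    obtain ⟨d, rfl⟩ := hs y
    simp only [LinearMap.map_smulₛₗ, LinearMap.smul_apply, smul_eq_mul, RingHom.id_apply] at k ⊢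
    exact mul_eq_zero_of_right _ ((mul_eq_zero.1 (show (σ c * c - 1) * rs B _ w w = 0 by
      linear_combination k)).resolve_left (sub_ne_zero.2 hc))
  have h0 : fx ρ (S.map (lev h hp)) ⊓ fx ρ D.range = ⊥ := by
    rw [eq_bot_iff, ← hC (D (Units.mk0 l l0) * lev h hp t)]
    rintro v ⟨v1, v2⟩ y hy
    obtain ⟨s', hs', z, hz, c, rfl⟩ := split h hp hS (d1 _) (a := l) (b := (σ l)⁻¹)
      (by simp only [D, uDil_left, map_smul, Units.val_mk0]; module)
      (by simp only [D, uDil_right, map_smul, Units.val_mk0]; module) (ei _ (hl ▸ a3))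
      (ei _ fun k => a3 (by
        rw [map_inv₀, h.herm.invol, ← mul_inv, inv_eq_one, mul_comm] at k; rw [← hl, k])) hy
    rw [map_mul, Module.End.mul_apply, v1 _ ⟨_, hs', rfl⟩]
    have c1 := congrArg (fun g : UG B => B e (g.1 e)) c.eq
    have c2 := congrArg (fun g : UG B => B f (g.1 f)) c.eq
    replace c1 : B e (z.1 ((D _).1 e)) = B e ((D _).1 (z.1 e)) := c1
    replace c2 : B f (z.1 ((D _).1 f)) = B f ((D _).1 (z.1 f)) := c2
    rw [uDil_left, uDil_apply] at c1
    rw [uDil_right, uDil_apply] at c2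
    simp only [map_add, map_smul, hp.he, hp.hf, hp.hef, hfe, smul_eq_mul, Units.val_mk0] at c1 c2
    have z1 := pi_form h hp hz (e_mem h)
    have z2 := pi_form h hp hz (f_mem h)
    rw [show B e (z.1 e) = 0 from (mul_eq_zero.1 (by linear_combination c1)).resolve_left l2,
      zero_smul, add_zero] at z1
    rw [show B f (z.1 f) = 0 from (mul_eq_zero.1 (by linear_combination -c2)).resolve_left l2,
      zero_smul, zero_add] at z2
    have z3 := UG_map z e f
    rw [z1, hp.hef] at z3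
    simp only [LinearMap.map_smulₛₗ, LinearMap.smul_apply, smul_eq_mul] at z3
    refine v2 _ ⟨Units.mk0 (B f (z.1 e)) fun k => by simp [k] at z3,
      h.herm.ext_hyp hp.he hp.hf hp.hef ?_ ?_ fun x x1 x2 => ?_⟩
    · rw [uDil_left, Units.val_mk0, ← z1]
    · rw [uDil_right, Units.val_mk0, inv_eq_of_mul_eq_one_right z3, ← z2]
    · rw [d1 _ x (mem_Pp.2 ⟨x1, x2⟩), hz x (mem_Pp.2 ⟨x1, x2⟩)]
  have nT : pt B (Pp B e f) ≤ Subgroup.normalizer (S.map (lev h hp) : Set (UG B)) := fun x hx =>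
    Subgroup.centralizer_le_normalizer _ (by
      rintro _ ⟨s, -, rfl⟩
      exact (comm_lev h hp hx s).eq.symm)
  have nA : D.range ≤ pt B (Pp B e f) := by rintro _ ⟨m, rfl⟩; exact d1 m
  have nR := (Rf_le (f := f) h (e_mem h)).trans nT
  rw [eq_bot_iff, ← trans h hp hS hZ hC hp rfl, ← fx_sup]
  refine fo1 ρ le_sup_left (sup_le Subgroup.le_normalizer nR) (nA.trans nT)
    ((le_inf (nA.trans nT) ?_).trans (Subgroup.normalizer_inf_normalizer_le_normalizer_sup _ _))
    ?_ h0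
  · rintro _ ⟨m, rfl⟩
    exact mem_normalizer_Rf (uDil_left _ _ _ _ m)
  rintro _ ⟨m, rfl⟩
  by_cases hm : σ m * m = 1
  · exact Or.inl fun v hv => scal_fix h hp hS hZ hv (d1 m) (one_mem _) (by simp)
      (uDil_left _ _ _ _ m) (by rw [uDil_right, inv_eq_of_mul_eq_one_right hm]; rfl)
  refine Or.inr fun x hx hx' => ?_
  rw [sup_comm, ← SetLike.mem_coe, Subgroup.coe_mul_of_left_le_normalizer_right _ _ nR] at hx
  obtain ⟨u, hu, _, ⟨s, hs, rfl⟩, rfl⟩ := hx
  have e0 : e ≠ 0 := by rintro rfl; simpa using hp.hef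
  obtain ⟨c, hc, rfl⟩ := (mem_Rf_iso h hp.he e0).1 hu
  have k2 := (comm_lev h hp (d1 m) s).inv_left.symm.mul_inv_cancel
  obtain ⟨s', -, k3⟩ := hx'
  have k4 : D m * uTrans h.herm hp.he hc * (D m)⁻¹ =
      uTrans h.herm hp.he hc * lev h hp (s * s' * s⁻¹) := by
    simp only [map_mul, map_inv, k3]
    conv_lhs => rw [← k2]
    group
  rw [conj_uTrans] at k4
  have k5 := congrArg (fun g : UG B => B f (g.1 f)) k4
  replace k5 : B f ((uTrans _ _ hc).1 f) =
    B f ((uTrans h.herm hp.he hc).1 ((lev h hp _).1 f)) := k5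
  simp only [lev_f, uTrans_apply, D, uDil_left, map_add, LinearMap.map_smulₛₗ, LinearMap.smul_apply,
    hp.hef, hfe, smul_eq_mul, RingHom.id_apply] at k5
  have c0 : c = 0 := (mul_eq_zero.1 (show c * (σ m * m - 1) = 0 by
    linear_combination k5)).resolve_right (sub_ne_zero.2 hm)
  refine mul_mem ?_ ⟨s, hs, rfl⟩
  rw [show uTrans h.herm hp.he hc = 1 by ext x; simp [uTrans_apply, c0]]
  exact one_mem _

theorem small (h : HS q B) (hp : Hp B e f) (hS : Sing q S t) (hq : q = 2)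
    (h3 : finrank F V ≠ 3) {ρ : Representation ℂ (UG B) X} (hZ : ∀ z ∈ Zs B, ρ z = 1)
    (hC : ∀ g : UG B, fx ρ (Subgroup.centralizer {g}) = ⊥) : fx ρ (S.map (lev h hp)) = ⊥ := by
  have hfe := h.herm.flip_one hp.hef
  have h4 : ∀ a : F, a ^ 4 = a := fun a => by
    have := FiniteField.pow_card a
    rwa [h.card, hq] at this
  have hσ : ∀ a, σ a = a ^ 2 := fun a => by rw [h.frob, hq]
  have two : (2 : F) = 0 := by linear_combination h4 (-1)
  have two' : ∀ v : V, v + v = 0 := fun v => by rw [← two_smul F, two, zero_smul]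
  have s1 : σ 1 = -1 := by rw [map_one]; linear_combination two
  have neg : ∀ {e' f' : V} (hp' : Hp B e' f'), Pp B e' f' = Pp B e f →
      ∀ v ∈ fx ρ (S.map (lev h hp)), ρ (uTrans h.herm hp'.he s1) v = -v := by
    intro e' f' hp' hP v hv
    have hx := Rf_le h (hP ▸ e_mem h) (uTrans_mem_Rf h.herm hp'.he s1)
    rw [eq_neg_iff_add_eq_zero, ← Submodule.mem_bot ℂ, ← trans h hp hS hZ hC hp' hP]
    refine ⟨add_mem (map_mem_fx ?_ hv) hv, fun g hg => ?_⟩
    · rintro _ ⟨s, hs, rfl⟩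
      rw [mul_assoc, ← (comm_lev h hp hx s).eq, inv_mul_cancel_left]
      exact ⟨s, hs, rfl⟩
    obtain ⟨c, hc, rfl⟩ := (mem_Rf_iso h hp'.he (by rintro rfl; simpa using hp'.hef)).1 hg
    rcases mul_eq_zero.1 (show c * (c - 1) = 0 by
      linear_combination hc - hσ c - c * two) with c0 | c1
    · rw [show uTrans h.herm hp'.he hc = 1 by ext x; simp [uTrans_apply, c0]]; simp
    · obtain rfl := sub_eq_zero.1 c1
      rw [map_add, ← Module.End.mul_apply, ← map_mul, add_comm,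
        show uTrans h.herm hp'.he hc * uTrans h.herm hp'.he s1 = 1 by
          ext x
          show (uTrans h.herm hp'.he hc).1 ((uTrans h.herm hp'.he s1).1 x) = x
          simp [uTrans_apply, hp'.he, add_assoc, two']]
      simp
  have pf : Pp B f e = Pp B e f := by rw [Pp, Set.pair_comm]
  set c := uTrans h.herm hp.he s1 * uTrans h.herm hp.hf s1 with hc
  have c0 : c ∈ pt B (Pp B e f) := mul_mem (Rf_le h (e_mem h) (uTrans_mem_Rf _ _ _))
    (Rf_le h (f_mem h) (uTrans_mem_Rf _ _ _))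
  have c1 : c.1 e = f := by
    show (uTrans h.herm hp.he s1).1 ((uTrans h.herm hp.hf s1).1 e) = f
    simp only [uTrans_apply, map_add, map_smul, hp.he, hp.hef, hfe]
    linear_combination (norm := module) two' e
  have c2 : c.1 f = e + f := by
    show (uTrans h.herm hp.he s1).1 ((uTrans h.herm hp.hf s1).1 f) = _
    simp [uTrans_apply, hp.hf, hp.hef, add_comm]
  obtain ⟨a, ha⟩ : ∃ a : F, σ a ≠ a := by
    by_contra hc; push Not at hc; exact h.herm.ne_id (RingHom.ext hc)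
  have a1 : a ^ 2 + a + 1 = 0 := (mul_eq_zero.1 (show (a ^ 2 - a) * (a ^ 2 + a + 1) = 0 by
    linear_combination h4 a)).resolve_left (by rw [← hσ]; exact sub_ne_zero.2 ha)
  have ei : ∀ c : F, ∀ w, t.1 w = c • w → w = 0 := fun c w hw => by
    by_contra h0
    have := hS.eig w c h0 hw
    have := finrank_Pp h hp
    omega
  rw [eq_bot_iff, ← hC (c * lev h hp t)]
  intro v hv y hy
  have a2 : a + a ^ 2 = 1 := by linear_combination a1 - two
  have a3 : a * a ^ 2 = 1 := by linear_combination (a - 1) * a1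
  obtain ⟨s', hs', z, hz, k, rfl⟩ := split h hp hS c0 (a := a) (b := a ^ 2)
    (by rw [a2, a3, c1, c2]; linear_combination (norm := module) two' e)
    (by rw [a2, a3, c2, map_add, c1, c2]; linear_combination (norm := module) two' f)
    (ei _) (ei _) hy
  rw [map_mul, Module.End.mul_apply, hv _ ⟨_, hs', rfl⟩]
  have cv : ρ c v = v := by
    rw [hc, map_mul, Module.End.mul_apply, neg (hp.symm h) pf v hv, map_neg, neg hp rfl v hv,
      neg_neg]
  have z1 := pi_form h hp hz (e_mem h)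
  set α := B f (z.1 e)
  set β := B e (z.1 e)
  have z2 : z.1 f = α • f + β • (e + f) := by
    have := congrArg (fun g : UG B => g.1 e) k.eq
    replace this : z.1 (c.1 e) = c.1 (z.1 e) := this
    rwa [c1, z1, map_add, map_smul, map_smul, c1, c2] at this
  have z3 := UG_map z e e
  rw [z1] at z3
  simp only [map_add, LinearMap.add_apply, LinearMap.map_smulₛₗ, LinearMap.smul_apply, smul_eq_mul,
    RingHom.id_apply, hp.he, hp.hf, hp.hef, hfe, hσ] at z3
  rcases mul_eq_zero.1 (show α * β * (α + β) = 0 by linear_combination z3) with k1 | k1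
  · rcases mul_eq_zero.1 k1 with k1 | k1
    · exact scal_fix h hp hS hZ hv hz c0 cv (c := β) (by rw [z1, k1, c1]; simp)
        (by rw [z2, k1, c2]; simp)
    · exact scal_fix h hp hS hZ hv hz (one_mem _) (by simp) (c := α) (by rw [z1, k1]; simp)
        (by rw [z2, k1]; simp)
  · have k2 : β = α := by linear_combination k1 - α * two
    refine scal_fix h hp hS hZ hv hz (mul_mem c0 c0)
      (by rw [map_mul, Module.End.mul_apply, cv, cv]) (c := α) ?_ ?_
    · show _ = α • c.1 (c.1 e)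
      rw [z1, k2, c1, c2, smul_add]
    · show _ = α • c.1 (c.1 f)
      rw [z2, k2, c2, map_add, c1, c2, smul_add α f]

end C

theorem fx_sing (h : HS q B) {e f : V} (hp : Hp B e f) {S : Subgroup (UG (rs B (Pp B e f)))}
    {t : UG (rs B (Pp B e f))} (hS : Sing q S t) (hex : ¬ (finrank F V = 3 ∧ q = 2))
    (ρ : Representation ℂ (UG B) X) (hZ : ∀ z ∈ Zs B, ρ z = 1)
    (hC : ∀ g : UG B, fx ρ (Subgroup.centralizer {g}) = ⊥) : fx ρ (S.map (lev h hp)) = ⊥ := by
  by_cases hq : q = 2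
  · exact C.small h hp hS hq (fun k => hex ⟨k, hq⟩) hZ hC
  · exact C.big h hp hS hq hZ hC

end CF.Wu
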