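import Cfsg.Agent.Wu.R

set_option autoImplicit false
set_option linter.unusedSectionVars false

open Module CF.Geom

namespace CF.Wu

variable {F V : Type*} [Field F] [Fintype F] [AddCommGroup V] [Module F V] [FiniteDimensional F V]
  [Finite V] {σ : F →+* F} {B : V →ₛₗ[σ] V →ₗ[F] F} {q : ℕ}
  {X : Type*} [AddCommGroup X] [Module ℂ X] [FiniteDimensional ℂ X]

/-- The orbits of the unitary group on the vectors. -/
theorem M1.card_orbits (h : HS q B) (h2 : 2 ≤ finrank F V) :
    Nat.card (Quotient (MulAction.orbitRel (UG B) V)) = q + 1 := by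
  classical
  let f : V → Option {x : F // x ^ q = x} := fun v =>
    if v = 0 then none else some ⟨B v v, by rw [← h.frob, h.herm.eq]⟩
  have k : MulAction.orbitRel (UG B) V = Setoid.ker f := Setoid.ext fun v w => by
    rw [MulAction.orbitRel_apply, Setoid.ker_def]
    constructor
    · rintro ⟨g, rfl⟩
      have e : g • w = g.1 w := rfl
      simp only [f, e, map_eq_zero_iff _ g.1.injective, UG_map]
    · intro e
      by_cases hv : v = 0 <;> by_cases hw : w = 0 <;> simp only [f, hv, hw, if_true, if_false, reduceCtorEq] at e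
      · exact ⟨1, by simp [hv, hw]⟩
      · exact trans_vec h hw hv (congrArg Subtype.val (Option.some_injective _ e)).symm
  have s : Function.Surjective f := by
    rintro (_ | ⟨a, ha⟩)
    · exact ⟨0, if_pos rfl⟩
    obtain ⟨e, e', hp⟩ := exists_Hp' h h2
    obtain ⟨t, ht⟩ := exists_trace_eq σ (.inl h.herm.ne_id) h.herm.invol a ((h.frob a).trans ha)
    have h1 : B e' e = 1 := by rw [← h.herm.eq, hp.hef, map_one]
    refine ⟨e + t • e', (if_neg fun z => ?_).trans (congrArg some (Subtype.ext ?_))⟩
    · have := congrArg (B e') z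
      simp [h1, hp.hf] at this
    · simp [h1, hp.he, hp.hf, hp.hef, ← ht]
  rw [k, Nat.card_congr (Setoid.quotientKerEquivOfSurjective f s), Finite.card_option, card_fixed_eq h.card]

theorem M1.om_mul_self (h : HS q B) (g : UG B) : om q g * om q g = Nat.card (MulAction.fixedBy V g) := by
  rw [Nat.card_congr (Equiv.subtypeEquivRight fun v => (mem_fixS (g := g) (v := v)).symm :
    MulAction.fixedBy V g ≃ fixS g), Module.natCard_eq_pow_finrank (K := F), Nat.card_eq_fintype_card, h.card, om,
    mul_mul_mul_comm, ← mul_pow, ← mul_pow]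
  simp [sq]

theorem sum_om_sq (h : HS q B) (h2 : 2 ≤ finrank F V) :
    ∑ᶠ g : UG B, om q g * om q g = Nat.card (UG B) * ((q : ℂ) + 1) := by
  classical
  have := Fintype.ofFinite (UG B)
  have := fun g : UG B => Fintype.ofFinite (MulAction.fixedBy V g)
  have := Fintype.ofFinite (Quotient (MulAction.orbitRel (UG B) V))
  have k := MulAction.sum_card_fixedBy_eq_card_orbits_mul_card_group (UG B) V
  simp only [← Nat.card_eq_fintype_card, M1.card_orbits h h2] at k
  rw [finsum_eq_sum_of_fintype, Finset.sum_congr rfl fun g _ => M1.om_mul_self h g, ← Nat.cast_sum, k]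
  push_cast; ring

end CF.Wu
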