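import Cfsg.Agent.Wu.R
import Cfsg.Agent.Wu.M1

set_option autoImplicit false
set_option linter.unusedSectionVars false

open Module CF.Geom

namespace CF.Wu

variable {F V : Type*} [Field F] [Fintype F] [AddCommGroup V] [Module F V] [FiniteDimensional F V]
  [Finite V] {σ : F →+* F} {B : V →ₛₗ[σ] V →ₗ[F] F} {q : ℕ}
  {X : Type*} [AddCommGroup X] [Module ℂ X] [FiniteDimensional ℂ X]

open CF.Char Cfsg
open scoped ComplexConjugate

namespace M2

theorem q1 : (q : ℂ) + 1 ≠ 0 := Nat.cast_add_one_ne_zero q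

theorem card (h : HS q B) [Fintype (normOne σ)] : (Fintype.card (normOne σ) : ℂ) = q + 1 := by
  rw [← Nat.card_eq_fintype_card, card_normOne h.card h.frob]; push_cast; rfl

theorem mul_omc [Fintype (normOne σ)] (θ : normOne σ →* ℂˣ) (g : UG B) :
    ((q : ℂ) + 1) * omc q θ g = ∑ z, (((θ z)⁻¹ : ℂˣ) : ℂ) * om q (scal B z * g) := by
  rw [omc, mul_inv_cancel_left₀ q1, finsum_eq_sum_of_fintype]

/-- The values on elements all of whose eigenvalues are one. -/
theorem val (hodd : Odd (finrank F V)) [Fintype (normOne σ)] (θ : normOne σ →* ℂˣ) {g : UG B}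
    (hg : ∀ (c : F) v, c • g.1 v = v → g.1 v = v) :
    ((q : ℂ) + 1) * omc q θ g = om q g + 1 - ∑ z, (((θ z)⁻¹ : ℂˣ) : ℂ) := by
  classical
  have k : ∀ z : normOne σ, z ≠ 1 → om q (scal B z * g) = -1 := fun z hz => by
    have : fixS (scal B z * g) = ⊥ := eq_bot_iff.2 fun v hv => by
      have e : ((z : Fˣ) : F) • g.1 v = v := mem_fixS.1 hv
      rw [hg _ v e, ← sub_eq_zero] at e
      nth_rw 2 [← one_smul F v] at e
      rw [← sub_smul, smul_eq_zero, sub_eq_zero] at e
      exact e.resolve_left fun e => hz (Subtype.ext (Units.ext e))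
    rw [om, this, finrank_bot, hodd.neg_one_pow]; simp
  rw [mul_omc, ← Finset.add_sum_erase _ _ (Finset.mem_univ 1), ← Finset.add_sum_erase _ _ (Finset.mem_univ 1),
    Finset.sum_congr rfl fun z hz => by rw [k z (Finset.ne_of_mem_erase hz), mul_neg_one], Finset.sum_neg_distrib]
  simp only [map_one, inv_one, Units.val_one, one_mul]; ring

theorem sum_ne [Fintype (normOne σ)] {θ : normOne σ →* ℂˣ} (hθ : θ ≠ 1) : ∑ z, (((θ z)⁻¹ : ℂˣ) : ℂ) = 0 :=
  sum_hom_units_eq_zero ((Units.coeHom ℂ).comp θ⁻¹) fun e => hθ (MonoidHom.ext fun z =>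
    inv_eq_one.1 (Units.ext (DFunLike.congr_fun e z)))

instance : Finite (normOne σ →* ℂˣ) := Nat.finite_of_card_ne_zero (by
  rw [CommGroup.card_monoidHom_of_hasEnoughRootsOfUnity]; exact Nat.card_pos.ne')

theorem card' (h : HS q B) [Fintype (normOne σ →* ℂˣ)] : Fintype.card (normOne σ →* ℂˣ) = q + 1 := by
  rw [← Nat.card_eq_fintype_card, CommGroup.card_monoidHom_of_hasEnoughRootsOfUnity, card_normOne h.card h.frob]

theorem sum_omc (h : HS q B) [Fintype (normOne σ →* ℂˣ)] : ∑ θ : normOne σ →* ℂˣ, omc q θ = om (B := B) q := by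
  classical
  have := Fintype.ofFinite (normOne σ)
  ext g
  refine mul_left_cancel₀ (q1 (q := q)) ?_
  rw [Finset.sum_apply, Finset.mul_sum, Finset.sum_congr rfl fun θ _ => mul_omc θ g, Finset.sum_comm,
    Finset.sum_eq_single 1 (fun z _ hz => ?_) (by simp)]
  · simp [card' h]
  · obtain ⟨φ, hφ⟩ := CommGroup.exists_apply_ne_one_of_hasEnoughRootsOfUnity (normOne σ) ℂ (inv_ne_one.2 hz)
    have := sum_hom_units_eq_zero ((Units.coeHom ℂ).comp (MonoidHom.eval z⁻¹ : (normOne σ →* ℂˣ) →* ℂˣ))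
      fun e => hφ (Units.ext (DFunLike.congr_fun e φ))
    rw [← Finset.sum_mul, show ∑ θ : normOne σ →* ℂˣ, (((θ z)⁻¹ : ℂˣ) : ℂ) = 0 by simpa using this, zero_mul]

end M2
open M2

theorem omc_rep (h : HS q B) {W : Representation ℂ (UG B) X} (hW : W.character = om q)
    (θ : normOne σ →* ℂˣ) : ∃ (Y : Submodule ℂ X) (hY : ∀ g, ∀ v ∈ Y, W (MonoidHom.id _ g) v ∈ Y),
      (sub W (MonoidHom.id _) Y hY).character = omc q θ := by
  have := Fintype.ofFinite (normOne σ)
  have cm : ∀ z g, scal B z * g = g * scal B z := fun z g => (commute_Zs ⟨_, scal_apply z⟩ g).eq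
  let Y : Submodule ℂ X :=
    { carrier := {v | ∀ z, W (scal B z) v = (θ z : ℂ) • v}
      add_mem' := fun {a b} ha hb z => by rw [map_add, ha z, hb z, smul_add]
      zero_mem' := fun z => by simp
      smul_mem' := fun c a ha z => by rw [map_smul, ha z, smul_comm] }
  have hY : ∀ g, ∀ v ∈ Y, W (MonoidHom.id _ g) v ∈ Y := fun g v hv z => by
    rw [← Module.End.mul_apply, ← map_mul, cm, map_mul, Module.End.mul_apply, hv z, map_smul]
  let P : X →ₗ[ℂ] X := ((q : ℂ) + 1)⁻¹ • ∑ z, (((θ z)⁻¹ : ℂˣ) : ℂ) • W (scal B z)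
  have P1 : ∀ v, P v ∈ Y := fun v z => by
    simp only [P, LinearMap.smul_apply, LinearMap.sum_apply, map_smul, map_sum]
    rw [smul_comm (θ z : ℂ), Finset.smul_sum (r := (θ z : ℂ))]
    congr 1
    refine Fintype.sum_equiv (Equiv.mulLeft z) _ _ fun w => ?_
    rw [← Module.End.mul_apply, ← map_mul, ← map_mul, smul_smul, Equiv.coe_mulLeft, map_mul θ,
      mul_inv, Units.val_mul, Units.mul_inv_cancel_left]
  have P2 : ∀ v ∈ Y, P v = v := fun v hv => by
    simp only [P, LinearMap.smul_apply, LinearMap.sum_apply]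
    rw [Finset.sum_congr rfl fun z _ => by rw [hv z, smul_smul, Units.inv_mul, one_smul], Finset.sum_const,
      Finset.card_univ, ← Nat.cast_smul_eq_nsmul ℂ, M2.card h, smul_smul, inv_mul_cancel₀ q1, one_smul]
  refine ⟨Y, hY, funext fun g => ?_⟩
  have e : sub W (MonoidHom.id _) Y hY g = P.codRestrict Y P1 ∘ₗ (W g ∘ₗ Y.subtype) :=
    LinearMap.ext fun v => Subtype.ext (P2 _ (hY g v v.2)).symm
  rw [Representation.character, e, LinearMap.trace_comp_comm', LinearMap.comp_assoc, LinearMap.subtype_comp_codRestrict,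
    omc, finsum_eq_sum_of_fintype, ← hW]
  simp only [P, LinearMap.comp_smul, map_smul, ← Module.End.mul_eq_comp, Finset.mul_sum, map_sum, mul_smul_comm,
    smul_eq_mul, ← map_mul, Representation.character, cm]

theorem omc_scal (θ : normOne σ →* ℂˣ) (z : normOne σ) (g : UG B) :
    omc q θ (scal B z * g) = θ z * omc q θ g := by
  have := Fintype.ofFinite (normOne σ)
  refine mul_left_cancel₀ (q1 (q := q)) ?_
  rw [mul_left_comm, mul_omc, mul_omc, Finset.mul_sum]
  refine Fintype.sum_equiv (Equiv.mulRight z) _ _ fun w => ?_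
  rw [← mul_assoc, ← map_mul, Equiv.coe_mulRight, map_mul θ, ← mul_assoc]
  simp

theorem omc_one_one (h : HS q B) (hodd : Odd (finrank F V)) :
    ((q : ℂ) + 1) * omc q 1 (1 : UG B) = (q : ℂ) ^ finrank F V - q := by
  have := Fintype.ofFinite (normOne σ)
  rw [val hodd 1 fun _ _ _ => rfl, om_one]
  simp [M2.card h]

theorem omc_ne_one (_h : HS q B) (hodd : Odd (finrank F V)) {θ : normOne σ →* ℂˣ} (hθ : θ ≠ 1) :
    ((q : ℂ) + 1) * omc q θ (1 : UG B) = (q : ℂ) ^ finrank F V + 1 := by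
  have := Fintype.ofFinite (normOne σ)
  rw [val hodd θ fun _ _ _ => rfl, om_one, sum_ne hθ, sub_zero]

theorem omc_one_Rf (h : HS q B) (hodd : Odd (finrank F V)) {e : V} (he : B e e = 0) {g : UG B}
    (hg : g ∈ Rf B e) (h1 : g ≠ 1) :
    (q : ℂ) * (((q : ℂ) + 1) * omc q 1 g) = -(q : ℂ) ^ finrank F V - (q : ℂ) ^ 2 := by
  have := Fintype.ofFinite (normOne σ)
  rw [val hodd 1 fun c v hv => ?_, ← om_Rf h hg h1]
  · simp [M2.card h]; ring
  obtain ⟨a, ha⟩ := Submodule.mem_span_singleton.1 (sub_mem_span_of_Rf h hg v)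
  by_cases hc : c = 1
  · rwa [hc, one_smul] at hv
  refine mem_Rf.1 hg v ?_
  have := congrArg (B e) hv
  rw [eq_add_of_sub_eq ha.symm] at this
  simp only [map_smul, map_add, he, smul_eq_mul, mul_zero, zero_add] at this
  exact (mul_left_eq_self₀.1 this).resolve_left hc

theorem M2.char (h : HS q B) (hc : Cfsg.IsCharacter (UG B) (om q)) (θ : normOne σ →* ℂˣ) :
    Cfsg.IsCharacter (UG B) (omc q θ) := by
  obtain ⟨n, W, hW⟩ := hc
  obtain ⟨Y, hY, e⟩ := omc_rep h hW θ
  exact e ▸ isCharacter_character _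

theorem M2.orth [Fintype (UG B)] {θ θ' : normOne σ →* ℂˣ} (ne : θ ≠ θ') :
    classInner (omc (B := B) q θ) (omc q θ') = 0 := by
  obtain ⟨z, hz⟩ := DFunLike.ne_iff.1 ne
  have e := inner_comp_equiv (Equiv.mulLeft (scal B z)) (omc (B := B) q θ) (omc q θ')
  have k := inv_eq_conj_of_pow_eq_one (z := (θ' z : ℂ)) (Nat.card_pos (α := normOne σ)).ne' (by
    rw [← Units.val_pow_eq_pow_val, ← map_pow, pow_card_eq_one', map_one, Units.val_one])
  simp only [Equiv.coe_mulLeft, omc_scal] at e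
  erw [Char.inner_smul_left, Char.inner_smul_right] at e
  rw [← k, ← mul_assoc] at e
  exact (mul_left_eq_self₀.1 e).resolve_left fun e => hz (Units.ext ((mul_inv_eq_one₀ (θ' z).ne_zero).1 e))

theorem M2.conj_om (g : UG B) : conj (om q g) = om q g := by simp [om]

theorem omc_irr (h : HS q B) (hodd : Odd (finrank F V)) (h3 : 3 ≤ finrank F V)
    (hc : Cfsg.IsCharacter (UG B) (om q)) (θ : normOne σ →* ℂˣ) :
    Cfsg.IsIrrCharacter (UG B) (omc q θ) := by
  classical
  have := Fintype.ofFinite (UG B)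
  have := Fintype.ofFinite (normOne σ →* ℂˣ)
  choose n hn using fun θ => inner_char_eq_nat (M2.char h hc θ) (M2.char h hc θ)
  have pos : ∀ θ, 1 ≤ n θ := fun θ => Nat.pos_of_ne_zero fun e => by
    have z : omc (B := B) q θ 1 = 0 := by rw [inner_self_eq_zero.1 ((hn θ).trans (by rw [e, Nat.cast_zero]))]; rfl
    by_cases t : θ = 1
    · have k := omc_one_one h hodd
      rw [← t, z, mul_zero, eq_comm, sub_eq_zero] at k
      have k' : q ^ finrank F V = q ^ 1 := by rw [pow_one]; exact_mod_cast k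
      have := Nat.pow_right_injective h.two_le k'
      omega
    · have k := omc_ne_one h hodd t
      rw [z, mul_zero] at k
      exact Nat.cast_add_one_ne_zero (R := ℂ) (q ^ finrank F V) (by push_cast; exact k.symm)
  have s : ∑ θ, n θ = ∑ _θ : normOne σ →* ℂˣ, 1 := by
    have k : classInner (om (B := B) q) (om q) = q + 1 := by
      rw [inner_def, Finset.sum_congr rfl fun g _ => by rw [M2.conj_om], ← finsum_eq_sum_of_fintype,
        sum_om_sq h (by omega), inv_mul_cancel_left₀ card_ne_zero_complex]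
    rw [← sum_omc h, inner_sum_left, Finset.sum_congr rfl fun θ _ => by
      rw [inner_sum_right, Finset.sum_eq_single θ (fun _ _ ne => M2.orth ne.symm) (by simp), hn]] at k
    rw [Finset.sum_const, Finset.card_univ, card' h, smul_eq_mul, mul_one]
    exact_mod_cast k
  rw [irr_iff_inner_self (M2.char h hc θ), hn,
    ← (Finset.sum_eq_sum_iff_of_le fun θ _ => pos θ).1 s.symm θ (Finset.mem_univ θ), Nat.cast_one]

theorem eq_omc (h : HS q B) (hodd : Odd (finrank F V)) (h3 : 3 ≤ finrank F V)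
    (hc : Cfsg.IsCharacter (UG B) (om q)) {χ : UG B → ℂ} (hχ : Cfsg.IsIrrCharacter (UG B) χ)
    (h0 : ∑ᶠ g, om q g * χ g ≠ 0) : ∃ θ : normOne σ →* ℂˣ, χ = omc q θ := by
  have := Fintype.ofFinite (UG B)
  have := Fintype.ofFinite (normOne σ →* ℂˣ)
  have k : classInner χ (om q) ≠ 0 := fun e => h0 (by
    rw [finsum_eq_sum_of_fintype, ← mul_zero (Nat.card (UG B) : ℂ), ← e, card_mul_inner]
    exact Finset.sum_congr rfl fun g _ => by rw [M2.conj_om, mul_comm])
  rw [← sum_omc h, inner_sum_right] at k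
  obtain ⟨θ, -, e⟩ := Finset.exists_ne_zero_of_sum_ne_zero k
  exact ⟨θ, irr_eq_of_inner_ne_zero hχ (omc_irr h hodd h3 hc θ) e⟩

end CF.Wu
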