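/-
Definitions for the Weil character of the unitary group `UG B` (S4793).
-/
import Cfsg.Agent.Geom.Perfect
import Cfsg.Agent.Char.Orth

set_option autoImplicit false
set_option linter.unusedSectionVars false

open Module CF.Geom

namespace CF.Wu

section rep

variable {G X : Type*} [Group G] [AddCommGroup X] [Module ℂ X]

/-- The vectors fixed by a subgroup. -/
def fx (ρ : Representation ℂ G X) (H : Subgroup G) : Submodule ℂ X where
  carrier := {v | ∀ g ∈ H, ρ g v = v}
  add_mem' := fun {a b} ha hb g hg => by rw [map_add, ha g hg, hb g hg]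
  zero_mem' := fun g _ => map_zero _
  smul_mem' := fun c a ha g hg => by rw [map_smul, ha g hg]

theorem mem_fx {ρ : Representation ℂ G X} {H : Subgroup G} {v : X} :
    v ∈ fx ρ H ↔ ∀ g ∈ H, ρ g v = v := Iff.rfl

theorem fx_anti (ρ : Representation ℂ G X) {H K : Subgroup G} (h : H ≤ K) : fx ρ K ≤ fx ρ H :=
  fun _ hv g hg => hv g (h hg)

theorem fx_sup (ρ : Representation ℂ G X) (H K : Subgroup G) :
    fx ρ (H ⊔ K) = fx ρ H ⊓ fx ρ K := by
  refine le_antisymm (le_inf (fx_anti ρ le_sup_left) (fx_anti ρ le_sup_right)) ?_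
  rintro v ⟨h1, h2⟩
  let S : Subgroup G :=
    { carrier := {g | ρ g v = v}
      mul_mem' := fun {a b} (ha : ρ a v = v) (hb : ρ b v = v) => by
        show ρ (a * b) v = v
        rw [map_mul, Module.End.mul_apply, hb, ha]
      one_mem' := by show ρ 1 v = v; simp
      inv_mem' := fun {a} (ha : ρ a v = v) => by
        show ρ a⁻¹ v = v
        conv_lhs => rw [← ha]
        rw [← Module.End.mul_apply, ← map_mul]; simp }
  exact fun g hg => (sup_le (show H ≤ S from h1) (show K ≤ S from h2)) hg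

theorem fx_map {H : Type*} [Group H] (ρ : Representation ℂ G X) (f : H →* G) (K : Subgroup H) :
    fx ρ (K.map f) = fx (ρ.comp f) K := by
  ext v
  exact ⟨fun h g hg => h _ ⟨g, hg, rfl⟩, fun h => by rintro _ ⟨g, hg, rfl⟩; exact h g hg⟩

/-- `ρ g` maps the fixed vectors of `H` to those of `K` when `g⁻¹ K g ≤ H`. -/
theorem map_mem_fx {ρ : Representation ℂ G X} {H K : Subgroup G} {g : G}
    (h : ∀ k ∈ K, g⁻¹ * k * g ∈ H) {v : X} (hv : v ∈ fx ρ H) : ρ g v ∈ fx ρ K := by
  intro k hk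
  have := hv _ (h k hk)
  conv_rhs => rw [← this]
  simp only [← Module.End.mul_apply, ← map_mul]
  congr 2; group

theorem card_mul_finrank_fx [Finite G] [FiniteDimensional ℂ X] (ρ : Representation ℂ G X)
    (H : Subgroup G) : (Nat.card H : ℂ) * finrank ℂ (fx ρ H) = ∑ᶠ h : H, ρ.character h := by
  have := Fintype.ofFinite H
  have h0 : (Nat.card H : ℂ) ≠ 0 := Nat.cast_ne_zero.2 Nat.card_pos.ne'
  have : Invertible (Nat.card H : ℂ) := invertibleOfNonzero h0
  have h1 := Representation.card_inv_mul_sum_char_eq_finrank (ρ.comp H.subtype : Representation ℂ H X)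
  have h2 : Representation.invariants (ρ.comp H.subtype : Representation ℂ H X) = fx ρ H := by
    ext v; exact ⟨fun h g hg => h ⟨g, hg⟩, fun h g => h g.1 g.2⟩
  rw [h2] at h1
  rw [finsum_eq_sum_of_fintype, ← h1, ← mul_assoc, mul_inv_cancel₀ h0, one_mul]
  rfl

theorem fx_eq_bot_iff_char [Finite G] [FiniteDimensional ℂ X] (ρ : Representation ℂ G X)
    (H : Subgroup G) : fx ρ H = ⊥ ↔ ∑ᶠ h : H, ρ.character h = 0 := by
  rw [← card_mul_finrank_fx, mul_eq_zero, or_iff_right (Nat.cast_ne_zero.2 Nat.card_pos.ne'),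
    Nat.cast_eq_zero, Submodule.finrank_eq_zero]

theorem sum_mem_fx [Finite G] (ρ : Representation ℂ G X) (H : Subgroup G) (v : X) :
    ∑ᶠ h : H, ρ h v ∈ fx ρ H := by
  have := Fintype.ofFinite H
  intro g hg
  rw [finsum_eq_sum_of_fintype, map_sum]
  exact Fintype.sum_equiv (Equiv.mulLeft (⟨g, hg⟩ : H)) _ _ fun h => by simp

theorem fx_eq_bot_iff_sum [Finite G] (ρ : Representation ℂ G X) (H : Subgroup G) :
    fx ρ H = ⊥ ↔ ∑ᶠ h : H, ρ h = 0 := by
  have := Fintype.ofFinite H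
  constructor
  · intro h
    ext v
    have := sum_mem_fx ρ H v
    rw [h, finsum_eq_sum_of_fintype] at this
    rw [finsum_eq_sum_of_fintype, LinearMap.sum_apply]; exact this
  · intro h
    rw [eq_bot_iff]
    intro v hv
    have := LinearMap.congr_fun h v
    rw [finsum_eq_sum_of_fintype, LinearMap.sum_apply,
      Finset.sum_congr rfl fun (g : H) _ => hv g.1 g.2] at this
    simp only [Finset.sum_const, LinearMap.zero_apply, ← Nat.cast_smul_eq_nsmul ℂ] at this
    exact (smul_eq_zero.1 this).resolve_left (Nat.cast_ne_zero.2 (Finset.card_pos.2 Finset.univ_nonempty).ne')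

/-- The twist of a representation by a linear character. -/
noncomputable def tw (ρ : Representation ℂ G X) (η : G →* ℂˣ) : Representation ℂ G X where
  toFun g := (η g : ℂ) • ρ g
  map_one' := by simp
  map_mul' a b := by simp [smul_smul, mul_comm]

@[simp] theorem tw_apply (ρ : Representation ℂ G X) (η : G →* ℂˣ) (g : G) (v : X) :
    tw ρ η g v = (η g : ℂ) • ρ g v := rfl

/-- Restriction of `ρ ∘ f` to an invariant subspace. -/
def sub {H : Type*} [Group H] (ρ : Representation ℂ G X) (f : H →* G) (Y : Submodule ℂ X)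
    (hY : ∀ h, ∀ v ∈ Y, ρ (f h) v ∈ Y) : Representation ℂ H Y where
  toFun h := (ρ (f h)).restrict (hY h)
  map_one' := by ext; simp
  map_mul' a b := by ext; simp

@[simp] theorem sub_apply {H : Type*} [Group H] (ρ : Representation ℂ G X) (f : H →* G)
    (Y : Submodule ℂ X) (hY : ∀ h, ∀ v ∈ Y, ρ (f h) v ∈ Y) (h : H) (v : Y) :
    (sub ρ f Y hY h v : X) = ρ (f h) v := rfl

end rep

variable {F V : Type*} [Field F] [AddCommGroup V] [Module F V] {σ : F →+* F}
  {B : V →ₛₗ[σ] V →ₗ[F] F}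

/-- Standing hypotheses: a non-degenerate Hermitian form over the field with `q ^ 2` elements. -/
structure HS [Fintype F] (q : ℕ) (B : V →ₛₗ[σ] V →ₗ[F] F) : Prop where
  herm : IsHerm B
  nd : B.Nondegenerate
  card : Fintype.card F = q ^ 2
  frob : ∀ x, σ x = x ^ q

instance finite_UG [Finite V] : Finite (UG B) :=
  Finite.of_injective (fun g : UG B => (g.1 : V → V)) fun _ _ h =>
    Subtype.ext (DFunLike.coe_injective h)

/-- The restricted form. -/
abbrev rs (B : V →ₛₗ[σ] V →ₗ[F] F) (U : Submodule F V) : U →ₛₗ[σ] U →ₗ[F] F := B.domRestrict₁₂ U U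

/-- The pointwise stabiliser of `W`. -/
def pt (B : V →ₛₗ[σ] V →ₗ[F] F) (W : Submodule F V) : Subgroup (UG B) where
  carrier := {g | ∀ w ∈ W, g.1 w = w}
  mul_mem' {a b} ha hb w hw := by
    show a.1 (b.1 w) = w
    rw [hb w hw, ha w hw]
  one_mem' _ _ := rfl
  inv_mem' {a} ha w hw := by
    show a.1.symm w = w
    rw [LinearEquiv.symm_apply_eq, ha w hw]

theorem mem_pt {W : Submodule F V} {g : UG B} : g ∈ pt B W ↔ ∀ w ∈ W, g.1 w = w := Iff.rfl

/-- The maps fixing `u^⊥` pointwise: the quasi-reflections along `u` if `B u u ≠ 0`, the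
transvections along `u` if `u ≠ 0` is isotropic. -/
abbrev Rf (B : V →ₛₗ[σ] V →ₗ[F] F) (u : V) : Subgroup (UG B) := pt B (perp B (F ∙ u))

theorem mem_Rf {u : V} {g : UG B} : g ∈ Rf B u ↔ ∀ x, B u x = 0 → g.1 x = x :=
  ⟨fun h x hx => h x (mem_perp_singleton.2 hx), fun h x hx => h x (mem_perp_singleton.1 hx)⟩

/-- The unipotent radical of the stabiliser of the isotropic point `⟨e⟩`. -/
def Qs (B : V →ₛₗ[σ] V →ₗ[F] F) (e : V) : Subgroup (UG B) where
  carrier := {g | g.1 e = e ∧ ∀ x, B e x = 0 → ∃ c : F, g.1 x = x + c • e}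
  mul_mem' {a b} ha hb := ⟨by show a.1 (b.1 e) = e; rw [hb.1, ha.1], fun x hx => by
    obtain ⟨c, hc⟩ := ha.2 x hx
    obtain ⟨d, hd⟩ := hb.2 x hx
    refine ⟨c + d, ?_⟩
    show a.1 (b.1 x) = _
    rw [hd, map_add, map_smul, hc, ha.1]; module⟩
  one_mem' := ⟨rfl, fun x _ => ⟨0, by simp⟩⟩
  inv_mem' {a} ha := ⟨by show a.1.symm e = e; rw [LinearEquiv.symm_apply_eq, ha.1], fun x hx => by
    obtain ⟨c, hc⟩ := ha.2 x hx
    refine ⟨-c, ?_⟩
    show a.1.symm x = _
    rw [LinearEquiv.symm_apply_eq, map_add, map_smul, hc, ha.1]; module⟩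

theorem mem_Qs {e : V} {g : UG B} :
    g ∈ Qs B e ↔ g.1 e = e ∧ ∀ x, B e x = 0 → ∃ c : F, g.1 x = x + c • e := Iff.rfl

/-- The scalar maps. -/
def Zs (B : V →ₛₗ[σ] V →ₗ[F] F) : Subgroup (UG B) where
  carrier := {g | ∃ c : F, ∀ v, g.1 v = c • v}
  mul_mem' := by
    rintro a b ⟨c, hc⟩ ⟨d, hd⟩
    refine ⟨c * d, fun v => ?_⟩
    show a.1 (b.1 v) = _
    rw [hd, hc, smul_smul]
  one_mem' := ⟨1, fun v => by simp⟩
  inv_mem' := by
    rintro a ⟨c, hc⟩
    by_cases h : c = 0
    · refine ⟨0, fun v => ?_⟩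
      show a.1.symm v = _
      rw [zero_smul]
      apply a.1.injective
      rw [hc, hc, h, zero_smul, zero_smul]
    · refine ⟨c⁻¹, fun v => ?_⟩
      show a.1.symm v = _
      rw [LinearEquiv.symm_apply_eq, hc, smul_smul, mul_inv_cancel₀ h, one_smul]

theorem mem_Zs {g : UG B} : g ∈ Zs B ↔ ∃ c : F, ∀ v, g.1 v = c • v := Iff.rfl

/-- The scalars of norm one as unitary maps. -/
def scal (B : V →ₛₗ[σ] V →ₗ[F] F) : normOne σ →* UG B where
  toFun c := uScal B (c := ((c : Fˣ) : F)) (mem_normOne.1 c.2)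
  map_one' := by ext; simp
  map_mul' a b := by ext; simp [smul_smul, mul_comm]

@[simp] theorem scal_apply (c : normOne σ) (v : V) : (scal B c).1 v = ((c : Fˣ) : F) • v := rfl

/-- The fixed space of `g`. -/
def fixS (g : UG B) : Submodule F V := LinearMap.ker ((g.1 : V →ₗ[F] V) - LinearMap.id)

theorem mem_fixS {g : UG B} {v : V} : v ∈ fixS g ↔ g.1 v = v := by
  simp [fixS, sub_eq_zero]

/-- The (total) Weil character `(-1)^n (-q)^{dim ker (g - 1)}`. -/
noncomputable def om (q : ℕ) (g : UG B) : ℂ :=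
  (-1) ^ finrank F V * (-(q : ℂ)) ^ finrank F (fixS g)

/-- No quasi-reflection group has a non-zero fixed vector. -/
def NoR {X : Type*} [AddCommGroup X] [Module ℂ X] (ρ : Representation ℂ (UG B) X) : Prop :=
  ∀ u, B u u ≠ 0 → fx ρ (Rf B u) = ⊥

/-- The vectors fixed by a long root subgroup are fixed by the unipotent radical. -/
def ZQ {X : Type*} [AddCommGroup X] [Module ℂ X] (ρ : Representation ℂ (UG B) X) (e : V) : Prop :=
  fx ρ (Rf B e) ≤ fx ρ (Qs B e)

/-- `ψ` is non-trivial on the skew elements. -/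
def Nt (σ : F →+* F) (ψ : AddChar F ℂ) : Prop := ∃ s, σ s = -s ∧ ψ s ≠ 1

/-! ### The Heisenberg group -/

/-- The Heisenberg group of `B`: pairs `(w, c)` with `c + σ c = B w w`. -/
@[ext] structure Hs (hH : IsHerm B) where
  w : V
  c : F
  h : c + σ c = B w w

instance (hH : IsHerm B) : Group (Hs hH) where
  mul x y := ⟨x.w + y.w, x.c + y.c + B x.w y.w, uEich_add_cond hH x.h y.h⟩
  one := ⟨0, 0, by simp⟩
  inv x := ⟨-x.w, σ x.c, by simp [hH.invol, add_comm, x.h]⟩
  mul_assoc x y z := Hs.ext (add_assoc _ _ _) (by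
    show x.c + y.c + B x.w y.w + z.c + B (x.w + y.w) z.w =
      x.c + (y.c + z.c + B y.w z.w) + B x.w (y.w + z.w)
    simp only [map_add, LinearMap.add_apply]; ring)
  one_mul x := Hs.ext (zero_add _) (by show 0 + x.c + B 0 x.w = x.c; simp)
  mul_one x := Hs.ext (add_zero _) (by show x.c + 0 + B x.w 0 = x.c; simp)
  inv_mul_cancel x := Hs.ext (neg_add_cancel _) (by
    show σ x.c + x.c + B (-x.w) x.w = 0
    rw [map_neg, LinearMap.neg_apply, ← x.h]; ring)

section Hs
variable {hH : IsHerm B}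
@[simp] theorem Hs.mul_w (x y : Hs hH) : (x * y).w = x.w + y.w := rfl
@[simp] theorem Hs.mul_c (x y : Hs hH) : (x * y).c = x.c + y.c + B x.w y.w := rfl
@[simp] theorem Hs.one_w : (1 : Hs hH).w = 0 := rfl
@[simp] theorem Hs.one_c : (1 : Hs hH).c = 0 := rfl
@[simp] theorem Hs.inv_w (x : Hs hH) : x⁻¹.w = -x.w := rfl
@[simp] theorem Hs.inv_c (x : Hs hH) : x⁻¹.c = σ x.c := rfl

instance [Finite F] [Finite V] : Finite (Hs hH) :=
  Finite.of_injective (fun x : Hs hH => (x.w, x.c)) fun _ _ h =>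
    Hs.ext (congrArg Prod.fst h) (congrArg Prod.snd h)

/-- The action of the unitary group on the Heisenberg group. -/
def act (hH : IsHerm B) : UG B →* MulAut (Hs hH) where
  toFun g :=
    { toFun x := ⟨g.1 x.w, x.c, by rw [UG_map, x.h]⟩
      invFun x := ⟨g⁻¹.1 x.w, x.c, by rw [UG_map, x.h]⟩
      left_inv x := Hs.ext (g.1.symm_apply_apply _) rfl
      right_inv x := Hs.ext (g.1.apply_symm_apply _) rfl
      map_mul' x y := Hs.ext (map_add _ _ _) (by simp [UG_map]) }
  map_one' := by ext <;> rfl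
  map_mul' a b := by ext <;> rfl

@[simp] theorem act_w (g : UG B) (x : Hs hH) : (act hH g x).w = g.1 x.w := rfl
@[simp] theorem act_c (g : UG B) (x : Hs hH) : (act hH g x).c = x.c := rfl

variable {A : Type*} [Ring A] [Algebra ℂ A]

/-- `T` has central character `ψ`. -/
def Cen (T : Hs hH →* A) (ψ : AddChar F ℂ) : Prop := ∀ x : Hs hH, x.w = 0 → T x = ψ x.c • 1

/-- `W` are the Weil operators attached to `T`. -/
structure IsW (q : ℕ) (T : Hs hH →* A) (W : UG B →* A) : Prop where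
  int : ∀ g x, W g * T x = T (act hH g x) * W g
  comm : ∀ g C, (∀ x, Commute C (T x)) → Commute C (W g)
  avg : ∀ g, ∑ᶠ x, T x * W g * T x⁻¹ = ((q : ℂ) ^ (finrank F V + 1) * om q g) • 1

open Classical in
/-- The normalised trace on the Heisenberg group. -/
noncomputable def t0 (ψ : AddChar F ℂ) (x : Hs hH) : ℂ := if x.w = 0 then ψ x.c else 0

/-- The Gauss sum behind the product of two Weil operators. -/
noncomputable def Sg (hH : IsHerm B) (ψ : AddChar F ℂ) (g g' : UG B) : ℂ :=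
  ∑ᶠ p : Hs hH × Hs hH, t0 ψ (act hH g p.1 * p.1⁻¹ * (act hH g' p.2 * p.2⁻¹))

end Hs

/-- The component of the Weil character with central character `θ`. -/
noncomputable def omc (q : ℕ) (θ : normOne σ →* ℂˣ) (g : UG B) : ℂ :=
  ((q : ℂ) + 1)⁻¹ * ∑ᶠ z : normOne σ, (((θ z)⁻¹ : ℂˣ) : ℂ) * om q (scal B z * g)

/-- `g` is orthogonally indecomposable. -/
def Indec (g : UG B) : Prop :=
  ∀ U : Submodule F V, (∀ x ∈ U, g.1 x ∈ U) → Disjoint U (perp B U) → U = ⊥ ∨ U = ⊤

/-! ### Non-degenerate subspaces and hyperbolic pairs -/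

section ext
variable [Fintype F] [FiniteDimensional F V] {q : ℕ}

theorem HS.wp (h : HS q B) : IsWittPair σ B (fun x => B x x) := h.herm.wittPair h.nd

theorem HS.two_le (h : HS q B) : 2 ≤ q := two_le_of_card_eq_sq h.card

theorem HS.res (h : HS q B) {U : Submodule F V} (hU : Disjoint U (perp B U)) : HS q (rs B U) where
  herm := h.herm.restrict U
  nd := by
    have k : ∀ x : U, (∀ y : U, B x y = 0) → x = 0 := fun x hx =>
      Subtype.ext (Submodule.disjoint_def.1 hU x x.2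
        (mem_perp.2 fun y hy => h.herm.refl (hx ⟨y, hy⟩)))
    exact ⟨k, fun y hy => k y fun x => h.herm.refl (hy x)⟩
  card := h.card
  frob := h.frob

/-- Extension of an isometry of `U` by the identity of `U^⊥`. -/
noncomputable def ext (h : HS q B) {U : Submodule F V} (hU : Disjoint U (perp B U)) :
    UG (rs B U) →* UG B :=
  (h.wp.orthDecomp hU).hom.comp (MonoidHom.inl _ _)

theorem ext_add (h : HS q B) {U : Submodule F V} (hU : Disjoint U (perp B U)) (a : UG (rs B U))
    (x : U) {y : V} (hy : y ∈ perp B U) : (ext h hU a).1 (x + y) = a.1 x + y :=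
  (h.wp.orthDecomp hU).hom_apply (a, 1) x ⟨y, hy⟩

theorem ext_mem (h : HS q B) {U : Submodule F V} (hU : Disjoint U (perp B U)) (a : UG (rs B U))
    (x : U) : (ext h hU a).1 x = a.1 x := by
  simpa using ext_add h hU a x (zero_mem _)

theorem ext_perp (h : HS q B) {U : Submodule F V} (hU : Disjoint U (perp B U)) (a : UG (rs B U))
    {y : V} (hy : y ∈ perp B U) : (ext h hU a).1 y = y := by
  simpa using ext_add h hU a 0 hy

theorem ext_injective (h : HS q B) {U : Submodule F V} (hU : Disjoint U (perp B U)) :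
    Function.Injective (ext h hU) := fun a b e => by
  ext x
  rw [← ext_mem h hU, ← ext_mem h hU, e]

theorem HS.decomp (h : HS q B) {U : Submodule F V} (hU : Disjoint U (perp B U)) (v : V) :
    ∃ (x : U) (y : V), y ∈ perp B U ∧ v = x + y := by
  obtain ⟨x, hx, y, hy, e⟩ := Submodule.mem_sup.1
    ((h.wp.isCompl_perp hU).sup_eq_top ▸ Submodule.mem_top (x := v))
  exact ⟨⟨x, hx⟩, y, hy, e.symm⟩

/-- An isometry mapping `U` into `U` restricts to `U`. -/
theorem exists_res {U : Submodule F V} (g : UG B) (hg : ∀ x ∈ U, g.1 x ∈ U) :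
    ∃ a : UG (rs B U), ∀ x : U, (a.1 x : V) = g.1 x := by
  let f : U →ₗ[F] U := (g.1 : V →ₗ[F] V).restrict hg
  have hf : Function.Injective f := fun x y e =>
    Subtype.ext (g.1.injective (congrArg Subtype.val e))
  exact ⟨⟨LinearEquiv.ofInjectiveEndo f hf, mem_UG.2 fun u v => UG_map g u v⟩, fun _ => rfl⟩

theorem map_perp_mem (g : UG B) {U : Submodule F V} (hg : ∀ x ∈ U, g.1 x ∈ U) :
    ∀ y ∈ perp B U, g.1 y ∈ perp B U := fun y hy =>
  ((mem_stabSet_perp (mem_stabSet_iff_le.2 hg)) y).1 hy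

theorem range_ext (h : HS q B) {U : Submodule F V} (hU : Disjoint U (perp B U)) :
    (ext h hU).range = pt B (perp B U) := by
  ext g
  constructor
  · rintro ⟨a, rfl⟩ y hy
    exact ext_perp h hU a hy
  · intro hg
    have h1 : ∀ x ∈ U, g.1 x ∈ U := by
      have := map_perp_mem g (U := perp B U) fun y hy => by rw [hg y hy]; exact hy
      rwa [h.wp.perp_perp] at this
    obtain ⟨a, ha⟩ := exists_res g h1
    refine ⟨a, Subtype.ext (LinearEquiv.ext fun v => ?_)⟩
    obtain ⟨x, y, hy, rfl⟩ := h.decomp hU v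
    rw [ext_add h hU a x hy, map_add, ha, hg y hy]

end ext

/-- A hyperbolic pair. -/
structure Hp (B : V →ₛₗ[σ] V →ₗ[F] F) (e f : V) : Prop where
  he : B e e = 0
  hf : B f f = 0
  hef : B e f = 1

/-- The complement of a hyperbolic pair. -/
abbrev Pp (B : V →ₛₗ[σ] V →ₗ[F] F) (e f : V) : Submodule F V := perp B (Submodule.span F {e, f})

theorem mem_Pp {e f y : V} : y ∈ Pp B e f ↔ B e y = 0 ∧ B f y = 0 := mem_perp_pair

/-- The Heisenberg group of the complement as the group of Eichler maps along `e`. -/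
def iota (hH : IsHerm B) {e f : V} (hp : Hp B e f) : Hs (hH.restrict (Pp B e f)) →* UG B :=
  MonoidHom.mk' (fun x => uEich hH hp.he (w := x.w) (mem_Pp.1 x.w.2).1 (c := x.c) x.h)
    fun _ _ => (uEich_mul hH hp.he _ _ _ _ _ _ rfl rfl).symm

theorem iota_apply (hH : IsHerm B) {e f : V} (hp : Hp B e f) (x : Hs (hH.restrict (Pp B e f)))
    (v : V) : (iota hH hp x).1 v = v + B e v • (x.w : V) - B x.w v • e - (x.c * B e v) • e :=
  uEich_apply hH hp.he (mem_Pp.1 x.w.2).1 x.h v

section hyp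
variable [Fintype F] [FiniteDimensional F V] {q : ℕ} {e f : V}

theorem HS.disj (h : HS q B) (hp : Hp B e f) : Disjoint (Pp B e f) (perp B (Pp B e f)) :=
  h.wp.disjoint_perp_perp (h.wp.disjoint_hyperbolic hp.he hp.hf (by rw [hp.hef]; exact one_ne_zero))

theorem HS.pp (h : HS q B) (hp : Hp B e f) : HS q (rs B (Pp B e f)) := h.res (h.disj hp)

/-- The unitary group of the complement, fixing `e` and `f`. -/
noncomputable abbrev lev (h : HS q B) (hp : Hp B e f) : UG (rs B (Pp B e f)) →* UG B :=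
  ext h (h.disj hp)

theorem lev_e (h : HS q B) (hp : Hp B e f) (a : UG (rs B (Pp B e f))) : (lev h hp a).1 e = e :=
  ext_perp h _ a (h.wp.le_perp_perp _ (Submodule.subset_span (by simp)))

theorem lev_f (h : HS q B) (hp : Hp B e f) (a : UG (rs B (Pp B e f))) : (lev h hp a).1 f = f :=
  ext_perp h _ a (h.wp.le_perp_perp _ (Submodule.subset_span (by simp)))

theorem lev_mul_iota (h : HS q B) (hp : Hp B e f) (a : UG (rs B (Pp B e f)))
    (x : Hs (h.herm.restrict (Pp B e f))) :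
    lev h hp a * iota h.herm hp x = iota h.herm hp (act _ a x) * lev h hp a := by
  rw [← mul_inv_eq_iff_eq_mul]
  refine (conj_uEich h.herm _ hp.he (mem_Pp.1 x.w.2).1 x.h).trans ?_
  ext v
  simp only [uEich_apply, iota_apply, lev_e, act_w, act_c, ext_mem]

variable {X : Type*} [AddCommGroup X] [Module ℂ X]

/-- The `ψ`-eigenspace of the long root subgroup along `e`. -/
def Xp (hH : IsHerm B) (hp : Hp B e f) (ρ : Representation ℂ (UG B) X) (ψ : AddChar F ℂ) :
    Submodule ℂ X where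
  carrier := {v | ∀ x, x.w = 0 → ρ (iota hH hp x) v = ψ x.c • v}
  add_mem' := fun {a b} ha hb x hx => by rw [map_add, ha x hx, hb x hx, smul_add]
  zero_mem' := fun x _ => by simp
  smul_mem' := fun c a ha x hx => by rw [map_smul, ha x hx, smul_comm]

theorem mem_Xp {hH : IsHerm B} {hp : Hp B e f} {ρ : Representation ℂ (UG B) X} {ψ : AddChar F ℂ}
    {v : X} : v ∈ Xp hH hp ρ ψ ↔ ∀ x, x.w = 0 → ρ (iota hH hp x) v = ψ x.c • v := Iff.rfl

theorem map_mem_Xp {hH : IsHerm B} {hp : Hp B e f} {ρ : Representation ℂ (UG B) X}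
    {ψ : AddChar F ℂ} {g : UG B} (hg : ∀ x, x.w = 0 → Commute g (iota hH hp x)) :
    ∀ v ∈ Xp hH hp ρ ψ, ρ g v ∈ Xp hH hp ρ ψ := fun v hv x hx => by
  rw [← Module.End.mul_apply, ← map_mul, ← (hg x hx).eq, map_mul, Module.End.mul_apply, hv x hx,
    map_smul]

/-- The Heisenberg group on the `ψ`-eigenspace. -/
def Tp (hH : IsHerm B) (hp : Hp B e f) (ρ : Representation ℂ (UG B) X) (ψ : AddChar F ℂ) :
    Representation ℂ (Hs (hH.restrict (Pp B e f))) (Xp hH hp ρ ψ) :=
  sub ρ (iota hH hp) _ fun y => map_mem_Xp fun x hx =>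
    Commute.map (show y * x = x * y from Hs.ext (add_comm _ _) (by simp [hx, add_comm])) _

/-- The Levi factor on the `ψ`-eigenspace. -/
noncomputable def ap (h : HS q B) (hp : Hp B e f) (ρ : Representation ℂ (UG B) X)
    (ψ : AddChar F ℂ) : Representation ℂ (UG (rs B (Pp B e f))) (Xp h.herm hp ρ ψ) :=
  sub ρ (lev h hp) _ fun a => map_mem_Xp fun x hx => by
    have : act _ a x = x := Hs.ext (by simp [hx]) rfl
    have h1 := lev_mul_iota h hp a x
    rwa [this] at h1

theorem cen_Tp (hH : IsHerm B) (hp : Hp B e f) (ρ : Representation ℂ (UG B) X)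
    (ψ : AddChar F ℂ) : Cen (Tp hH hp ρ ψ) ψ := fun x hx => by
  ext v
  exact v.2 x hx

theorem ap_mul_Tp (h : HS q B) (hp : Hp B e f) (ρ : Representation ℂ (UG B) X) (ψ : AddChar F ℂ)
    (a : UG (rs B (Pp B e f))) (x : Hs (h.herm.restrict (Pp B e f))) :
    ap h hp ρ ψ a * Tp h.herm hp ρ ψ x = Tp h.herm hp ρ ψ (act _ a x) * ap h hp ρ ψ a := by
  ext v
  show ρ _ (ρ _ _) = ρ _ (ρ _ _)
  rw [← Module.End.mul_apply, ← map_mul, lev_mul_iota, map_mul, Module.End.mul_apply]

end hyp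

/-- A Coxeter torus (Singer cycle) `S` with a regular element `t`. -/
structure Sing (q : ℕ) (S : Subgroup (UG B)) (t : UG B) : Prop where
  card : Nat.card S = q ^ finrank F V + 1
  free : ∀ s ∈ S, s ≠ 1 → ∀ v, s.1 v = v → v = 0
  mem : t ∈ S
  ne : t ≠ 1
  cen : Subgroup.centralizer {t} ≤ S
  eig : ∀ (v : V) (c : F), v ≠ 0 → t.1 v = c • v → finrank F V = 1
  nc : ∀ u, B u u ≠ 0 → Rf B u ≤ Subgroup.normalClosure (S : Set (UG B))

/-- The properties of the Weil character `φ` of degree `(q ^ n - q) / (q + 1)`. -/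
structure Good (q : ℕ) (φ : UG B → ℂ) : Prop where
  irr : Cfsg.IsIrrCharacter (UG B) φ
  cen : ∀ z ∈ Zs B, φ z = φ 1
  deg : φ 1 = ((q ^ finrank F V - q) / (q + 1) : ℕ)
  miss : ∀ g : UG B, ∑ᶠ c : Subgroup.centralizer ({g} : Set (UG B)), φ c = 0
  ua : ∀ χ, Cfsg.IsIrrCharacter (UG B) χ → (∀ z ∈ Zs B, χ z = χ 1) →
    (∀ g : UG B, ∑ᶠ c : Subgroup.centralizer ({g} : Set (UG B)), χ c = 0) → χ = φ
  uc : ∀ χ, Cfsg.IsIrrCharacter (UG B) χ → (∀ z ∈ Zs B, χ z = χ 1) → χ 1 = φ 1 → χ = φ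

end CF.Wu
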