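/-
A Hermitian pairing without isotropic vectors outside the radical has rank one.
-/
import Cfsg.Agent.Wu.D

set_option autoImplicit false
set_option linter.unusedSectionVars false

open Module CF.Geom

namespace CF.Wu

variable {F : Type*} [Field F] [Fintype F] {σ : F →+* F} {q : ℕ}

namespace U1

theorem shift {χ : AddChar F ℂ} (h : χ ≠ 1) (ψ : AddChar F ℂ) : ∃ a, ∀ c, ψ c = χ (a * c) := by
  classical
  have i := AddChar.to_mulShift_inj_of_isPrimitive (AddChar.IsPrimitive.of_ne_one h)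
  obtain ⟨a, e⟩ := ((Fintype.bijective_iff_injective_and_card _).2 ⟨i, AddChar.card_eq.symm⟩).2 ψ
  exact ⟨a, fun c => by rw [← e, AddChar.mulShift_apply]⟩

theorem uniq {χ : AddChar F ℂ} (h : χ ≠ 1) {a b : F} (e : ∀ c, χ (a * c) = χ (b * c)) : a = b :=
  AddChar.to_mulShift_inj_of_isPrimitive (AddChar.IsPrimitive.of_ne_one h) (AddChar.ext _ _ e)

end U1

theorem rank1 {R : Type*} [AddCommGroup R] [Module F R] [FiniteDimensional F R]
    (hF : Fintype.card F = q ^ 2) (hσ : ∀ x, σ x = x ^ q) (β : R → R → ℂ)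
    (add : ∀ v w w', β v (w + w') = β v w * β v w') (zero : ∀ v, β v 0 = 1)
    (smul : ∀ (a : F) v w, β (a • v) w = β v (σ a • w)) (swap : ∀ v w, β v w * β w v = 1)
    (iso : ∀ v, (∀ c : F, β v (c • v) = 1) → ∀ w, β v w = 1) (hne : ∃ v w, β v w ≠ 1) :
    Nat.card {v : R // ∀ c : F, β v (c • v) = 1} * q ^ 2 = Nat.card R := by
  obtain ⟨τ, t1, t2, t3⟩ := exists_conj hF
  obtain rfl : τ = σ := RingHom.ext fun a => by rw [t1, hσ]
  obtain ⟨v₀, w₀, h0⟩ := hne
  let ch : R → R → AddChar F ℂ := fun v w =>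
    { toFun c := β v (c • w), map_zero_eq_one' := by rw [zero_smul, zero], map_add_eq_mul' a b := by rw [add_smul, add] }
  have n1 : ch v₀ v₀ ≠ 1 := fun e => h0 (iso v₀ (fun c => DFunLike.congr_fun e c) w₀)
  set χ := ch v₀ v₀ with hχ
  choose S hS using fun v w => U1.shift n1 (ch v w)
  replace hS : ∀ v w c, β v (c • w) = χ (S v w * c) := hS
  have sa : ∀ v w w', S v (w + w') = S v w + S v w' := fun v w w' => U1.uniq n1 fun c => by
    rw [← hS, smul_add, add, hS, hS, add_mul, AddChar.map_add_eq_mul]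
  have ss : ∀ v (a : F) w, S v (a • w) = a * S v w := fun v a w => U1.uniq n1 fun c => by
    rw [← hS, smul_smul, hS]; congr 1; ring
  have s1 : S v₀ v₀ = 1 := U1.uniq n1 fun c => by rw [← hS, one_mul]; rfl
  have sw : ∀ v w c, χ (S v w * τ c) * χ (S w v * c) = 1 := fun v w c => by rw [← hS, ← hS, ← smul, swap]
  have he : ∀ v w, S w v = τ (S v w) := fun v w => U1.uniq n1 fun c => by
    have a := sw v w c
    have b := sw v₀ v₀ (τ (S v w) * c)
    rw [s1, one_mul, one_mul, map_mul, t3] at b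
    exact mul_left_cancel₀ (left_ne_zero_of_mul_eq_one a) (a.trans b.symm)
  let l : R →ₗ[F] F := { toFun := S v₀, map_add' := sa v₀, map_smul' := ss v₀ }
  have k : ∀ u, S u u = 0 → S v₀ u = 0 := fun u e => by
    have := iso u fun c => by rw [hS, e, zero_mul, AddChar.map_zero_eq_one]
    rw [he, U1.uniq n1 (a := S u v₀) (b := 0) fun c => by rw [← hS, this, zero_mul, AddChar.map_zero_eq_one], map_zero]
  have e : ∀ v, (∀ c : F, β v (c • v) = 1) ↔ v ∈ LinearMap.ker l := fun v => by
    refine ⟨fun h => k v (U1.uniq n1 fun c => by rw [← hS, h, zero_mul, AddChar.map_zero_eq_one]), fun h c => ?_⟩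
    replace h : S v₀ v = 0 := h
    obtain ⟨a, ha⟩ := exists_norm_eq t2 t3 (c := -S v v) (by rw [map_neg, ← he])
    have z : S v v₀ = 0 := by rw [he, h, map_zero]
    have := k (v + a • v₀) (by
      rw [sa, ss, he v (_ + _), he v₀ (_ + _), sa, sa, ss, ss, h, z, s1, mul_zero, add_zero, zero_add, mul_one, ← he,
        mul_comm, ha, add_neg_cancel])
    rw [sa, ss, h, s1, zero_add, mul_one] at this
    rw [this, mul_zero, eq_comm, neg_eq_zero] at ha
    rw [hS, ha, zero_mul, AddChar.map_zero_eq_one]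
  have su : Function.Surjective l := fun c => ⟨c • v₀, (ss v₀ c v₀).trans (by rw [s1, mul_one])⟩
  rw [(LinearMap.ker l).card_eq_card_quotient_mul_card, Nat.card_congr (l.quotKerEquivOfSurjective su).toEquiv,
    Nat.card_eq_fintype_card (α := F), hF, Nat.card_congr (Equiv.subtypeEquivRight e)]

end CF.Wu
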