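import Cfsg.Agent.Wu.R
import Cfsg.Agent.Wu.U1
import Cfsg.Agent.Classical.Weil
import Cfsg.Agent.Classical.MinDegSU

/-! Fixed vectors of the pointwise stabiliser of the perp of a totally isotropic subspace. -/

set_option autoImplicit false
set_option linter.unusedSectionVars false

open Module CF.Geom CF.Classical

namespace CF.Wu

variable {F V : Type*} [Field F] [Fintype F] [AddCommGroup V] [Module F V] [FiniteDimensional F V]
  [Finite V] {σ : F →+* F} {B : V →ₛₗ[σ] V →ₗ[F] F} {q : ℕ}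
  {X : Type*} [AddCommGroup X] [Module ℂ X] [FiniteDimensional ℂ X]

namespace U2

section
variable {G : Type*} [Group G] [Finite G] (ρ : Representation ℂ G X) (H : Subgroup G)

/-- The projection onto the fixed vectors of `H`. -/
noncomputable def pj : End ℂ X := (Nat.card H : ℂ)⁻¹ • ∑ᶠ h : H, ρ h

theorem trace_pj : LinearMap.trace ℂ X (pj ρ H) = finrank ℂ (fx ρ H) := by
  have := Fintype.ofFinite H
  have h := card_mul_finrank_fx ρ H
  rw [finsum_eq_sum_of_fintype] at h
  rw [pj, map_smul, finsum_eq_sum_of_fintype, map_sum, smul_eq_mul,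
    inv_mul_eq_iff_eq_mul₀ (Nat.cast_ne_zero.2 Nat.card_pos.ne'), h]
  rfl

open scoped _root_.Classical in
theorem pj_apply {u : X} (hu : ∀ g ∈ H, ρ g u ∈ ℂ ∙ u) :
    pj ρ H u = (if u ∈ fx ρ H then 1 else 0 : ℂ) • u := by
  have := Fintype.ofFinite H
  have h1 := sum_mem_fx ρ H u
  rw [finsum_eq_sum_of_fintype] at h1
  rw [pj, finsum_eq_sum_of_fintype, LinearMap.smul_apply, LinearMap.sum_apply]
  split_ifs with k
  · rw [Finset.sum_congr rfl fun (g : H) _ => k g.1 g.2, Finset.sum_const, Finset.card_univ,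
      ← Nat.cast_smul_eq_nsmul ℂ, smul_smul, Nat.card_eq_fintype_card,
      inv_mul_cancel₀ (Nat.cast_ne_zero.2 Fintype.card_ne_zero)]
  · obtain ⟨c, hc⟩ := Submodule.mem_span_singleton.1
      (Submodule.sum_mem _ fun (g : H) (_ : g ∈ Finset.univ) => hu g.1 g.2)
    rw [← hc] at h1 ⊢
    obtain rfl : c = 0 := by_contra fun n => k ((Submodule.smul_mem_iff _ n).1 h1)
    simp

end

variable (h : HS q B) {R : Submodule F V} (hR : R ≤ perp B R)
include h hR

omit hR in
theorem sub_mem {g : UG B} (hg : g ∈ pt B (perp B R)) (x : V) : g.1 x - x ∈ R := by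
  rw [← h.wp.perp_perp R]
  intro y hy
  rw [map_sub, ← UG_map g y x, hg y hy, sub_self]

theorem comm (a b : pt B (perp B R)) : a * b = b * a := by
  have k : ∀ a b : pt B (perp B R), ∀ x, a.1.1 (b.1.1 x) = a.1.1 x + b.1.1 x - x := fun a b x => by
    have := a.2 _ (hR (sub_mem h b.2 x))
    rw [map_sub, sub_eq_iff_eq_add] at this
    rw [this]; abel
  ext x
  show a.1.1 (b.1.1 x) = b.1.1 (a.1.1 x)
  rw [k, k, add_comm]

theorem gen {S : Subgroup (UG B)}
    (hS : ∀ p, (suU h.herm (fun x hx _ hy => hR hy x hx) p).1 ∈ S) : pt B (perp B R) ≤ S := by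
  classical
  intro g hg
  have hX : ∀ x ∈ R, ∀ y ∈ R, B x y = 0 := fun x hx _ hy => hR hy x hx
  let v := finBasis F R
  have li := v.linearIndependent.map' R.subtype R.ker_subtype
  choose f f1 f2 using fun j => h.wp.exists_dual_vec (li.notMem_span j)
  have f3 : ∀ i j, B (v i) (f j) = if i = j then 1 else 0 := fun i j => by
    split_ifs with k
    · exact k ▸ f1 i
    · exact f2 j _ (Submodule.subset_span ⟨i, k, rfl⟩)
  let w : _ → R := fun i => ⟨_, sub_mem h hg (f i)⟩
  have h1 : ∀ x, g.1 x - x = ∑ i, B (v i) x • (w i : V) := fun x => by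
    have := hg (x - ∑ i, B (v i) x • f i) fun y hy => by
      rw [show y = ∑ i, v.repr ⟨y, hy⟩ i • (v i : V) from
        (congrArg Subtype.val (v.sum_repr ⟨y, hy⟩).symm).trans (Submodule.coe_sum _ _ _)]
      simp [f3]
    simp only [map_sub, map_sum, map_smul] at this
    simp only [w, smul_sub, Finset.sum_sub_distrib]
    linear_combination (norm := module) this
  have h2 : ∀ x, g.1 x - x = -∑ i, B (w i) x • (v i : V) := fun x =>
    sub_eq_zero.1 (h.wp.nondeg' _ fun y => by
      have a := hX _ (sub_mem h hg y) _ (sub_mem h hg x)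
      have b := congrArg (B · x) (h1 y)
      simp only [map_sub, LinearMap.sub_apply, UG_map, map_sum, LinearMap.sum_apply,
        LinearMap.map_smulₛₗ, LinearMap.smul_apply, smul_eq_mul, h.herm.eq] at a b
      simp only [map_sub, map_neg, map_sum, map_smul, smul_eq_mul, mul_comm (B (w _) x)]
      linear_combination -a - b)
  obtain ⟨t, ht⟩ := exists_trace_eq σ (.inl h.herm.ne_id) h.herm.invol 1 (map_one σ)
  have h3 : ∀ s : Finset _, ∃ k ∈ S, k ∈ pt B (perp B R) ∧ ∀ x, k.1 x =
      x + t • ∑ i ∈ s, B (v i) x • (w i : V) - σ t • ∑ i ∈ s, B (w i) x • (v i : V) := fun s => by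
    induction s using Finset.induction with
    | empty => exact ⟨1, one_mem _, one_mem _, by simp⟩
    | insert i s hi ih =>
      obtain ⟨k, k1, k2, k3⟩ := ih
      refine ⟨k * _, mul_mem k1 (hS (v i, t • w i)), mul_mem k2 fun y hy => ?_, fun x => ?_⟩
      · rw [suU_apply, hy _ (v i).2, hy _ (t • w i).2]; simp
      · refine (congrArg k.1 (suU_apply h.herm hX (v i) (t • w i) x)).trans ?_
        rw [ map_sub, map_add, map_smul, map_smul, k2 _ (hR (v i).2),
          k2 _ (hR (t • w i).2), k3, Finset.sum_insert hi, Finset.sum_insert hi]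
        simp only [Submodule.coe_smul, LinearMap.map_smulₛₗ, LinearMap.smul_apply, smul_eq_mul]
        module
  obtain ⟨k, k1, -, k3⟩ := h3 Finset.univ
  rwa [show g = k from Subtype.ext (LinearEquiv.ext fun x => by
    rw [k3, ← h1, ← neg_neg (∑ i, B (w i) x • (v i : V)), ← h2]
    linear_combination (norm := module) -ht • (g.1 x - x))]

end U2

open U2 in
theorem dimR (h : HS q B) (ρ : Representation ℂ (UG B) X)
    (hz : ∀ v, B v v = 0 → v ≠ 0 → ZQ ρ v) {e : V} (he : B e e = 0) (he0 : e ≠ 0)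
    {R : Submodule F V} (hR : R ≤ perp B R) :
    ((q : ℂ) ^ 2 - 1) * (q : ℂ) ^ (2 * finrank F R) *
        ((finrank ℂ X : ℂ) - finrank ℂ (fx ρ (pt B (perp B R)))) =
      (q : ℂ) ^ 2 * ((q : ℂ) ^ (2 * finrank F R) - 1) *
        ((finrank ℂ X : ℂ) - finrank ℂ (fx ρ (Rf B e))) := by
  classical
  have := Fintype.ofFinite R
  have hX : ∀ x ∈ R, ∀ y ∈ R, B x y = 0 := fun x hx _ hy => hR hy x hx
  have cR : (Fintype.card R : ℂ) = (q : ℂ) ^ (2 * finrank F R) := by
    rw [Module.card_eq_pow_finrank (K := F), h.card]; push_cast; ring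
  have hZ : ∀ v : R, Rf B v.1 ≤ pt B (perp B R) := fun v g hg y hy => mem_Rf.1 hg y (hy _ v.2)
  have hs : ∀ p, (suU h.herm hX p).1 ∈ pt B (perp B R) := fun p y hy => by
    rw [suU_apply, hy _ p.1.2, hy _ p.2.2]; simp
  have key : ((q : ℂ) ^ 2) • ∑ v : R, pj ρ (Rf B v.1) = (Fintype.card R : ℂ) • (1 : End ℂ X) +
      (((q : ℂ) ^ 2 - 1) * Fintype.card R) • pj ρ (pt B (perp B R)) := by
    refine ext_of_wsp (fun g : pt B (perp B R) => ρ g) (fun a b v => by
      rw [← End.mul_apply, ← map_mul, ← Subgroup.coe_mul, comm h hR, Subgroup.coe_mul, map_mul,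
        End.mul_apply]) (p := Nat.card (UG B)) (Nat.cast_ne_zero.2 Nat.card_pos.ne')
      (fun g => by rw [← map_pow, pow_card_eq_one', map_one]) fun l u u0 hu => ?_
    have k : ∀ g ∈ pt B (perp B R), ρ g u ∈ ℂ ∙ u := fun g hg =>
      Submodule.mem_span_singleton.2 ⟨_, (hu ⟨g, hg⟩).symm⟩
    have hb := bich_of_wsp h.herm hX (ρ.comp (suSub B).subtype) (β := fun p => l ⟨_, hs p⟩) u0
      fun p => hu ⟨_, hs p⟩
    have k1 : ∀ p, l ⟨_, hs p⟩ = 1 ↔ ρ (suU h.herm hX p).1 u = u := fun p => by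
      rw [hu ⟨_, hs p⟩]
      exact ⟨fun a => by rw [a, one_smul], fun a => smul_left_injective ℂ u0 (by simpa using a)⟩
    have k2 : ∀ v : R, u ∈ fx ρ (Rf B v.1) ↔ ∀ c : F, l ⟨_, hs (v, c • v)⟩ = 1 := fun v => by
      refine ⟨fun a c => (k1 _).2 (a _ (mem_Rf.2 fun x hx => by rw [suU_apply]; simp [hx])),
        fun a g hg => ?_⟩
      by_cases v0 : v.1 = 0
      · rw [show g = 1 from Subtype.ext (LinearEquiv.ext fun x => mem_Rf.1 hg x (by simp [v0]))]
        simp
      obtain ⟨s, hs', rfl⟩ := (mem_Rf_iso h (hX _ v.2 _ v.2) v0).1 hg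
      obtain ⟨t, ht⟩ := exists_trace_eq σ (.inl h.herm.ne_id) h.herm.invol 1 (map_one σ)
      refine Eq.trans ?_ ((k1 _).1 (a (t * s)))
      congr 2
      refine Subtype.ext (LinearEquiv.ext fun x => ?_)
      rw [suU_apply, uTrans_apply]
      simp only [Submodule.coe_smul, LinearMap.map_smulₛₗ, LinearMap.smul_apply, smul_eq_mul,
        map_mul, hs']
      linear_combination (norm := module) -ht • (s * B v x) • v.1
    simp only [LinearMap.smul_apply, LinearMap.sum_apply, LinearMap.add_apply, End.one_apply,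
      pj_apply ρ _ k, fun v => pj_apply ρ _ fun g hg => k g (hZ v hg), ← Finset.sum_smul, smul_smul,
      ← add_smul, Finset.sum_boole]
    congr 1
    split_ifs with a
    · rw [Finset.filter_true_of_mem fun v _ => fx_anti ρ (hZ v) a, Finset.card_univ]; ring
    · have := rank1 (R := R) h.card h.frob (fun v w => l ⟨_, hs (v, w)⟩) hb.add hb.zero hb.smul
        (fun v w => by rw [hb.swap v w, ← hb.add, add_neg_cancel, hb.zero]) (fun v hv w => ?_)
        (by_contra fun n => a fun g hg => gen h hR (S := (MulAction.stabilizer _ u).comap ρ.toHomUnits)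
          (fun p => (k1 p).1 (by_contra fun k => n ⟨p.1, p.2, k⟩)) hg)
      · simp only [← k2, Nat.card_eq_fintype_card, Fintype.card_subtype] at this
        rw [← this]; push_cast; ring
      refine (k1 _).2 ?_
      by_cases v0 : v.1 = 0
      · rw [show suU h.herm hX (v, w) = 1 from su_ext fun x => by rw [suU_apply]; simp [v0]]
        simp
      exact hz _ (hX _ v.2 _ v.2) v0 ((k2 v).2 hv) _ ⟨by rw [suU_apply]; simp [hX],
        fun x hx => ⟨-B w x, by rw [suU_apply]; simp [hx, sub_eq_add_neg]⟩⟩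
  have h1 := congrArg (LinearMap.trace ℂ X) key
  simp only [map_smul, map_sum, map_add, trace_pj, LinearMap.trace_one, smul_eq_mul] at h1
  rw [← Finset.add_sum_erase _ _ (Finset.mem_univ 0), Finset.sum_congr rfl
    (g := fun _ => (finrank ℂ (fx ρ (Rf B e)) : ℂ)) fun v hv => ?_, Finset.sum_const,
    show fx ρ (Rf B (0 : R).1) = ⊤ from eq_top_iff.2 fun u _ g hg => ?_, finrank_top,
    Finset.card_erase_of_mem (Finset.mem_univ _), nsmul_eq_mul, Finset.card_univ,
    Nat.cast_pred Fintype.card_pos, cR] at h1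
  · linear_combination h1
  · rw [show g = 1 from Subtype.ext (LinearEquiv.ext fun x => mem_Rf.1 hg x (by simp))]
    simp
  · obtain ⟨g, hg⟩ := trans_vec h he0 (w := v.1) (by simpa using hv) (by rw [he, hX _ v.2 _ v.2])
    rw [← hg, finrank_fx_Rf]

end CF.Wu
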