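import Cfsg.Agent.Wu.R
import Cfsg.Agent.Wu.FO

/-! Fixed vectors of long root subgroups when no quasi-reflection group has fixed vectors. -/

set_option autoImplicit false
set_option linter.unusedSectionVars false

open Module CF.Geom

namespace CF.Wu

variable {F V : Type*} [Field F] [Fintype F] [AddCommGroup V] [Module F V] [FiniteDimensional F V]
  [Finite V] {σ : F →+* F} {B : V →ₛₗ[σ] V →ₗ[F] F} {q : ℕ}
  {X : Type*} [AddCommGroup X] [Module ℂ X] [FiniteDimensional ℂ X]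

namespace U3

/-- The elements of the Heisenberg group over a subspace. -/
def ov (hH : IsHerm B) (U : Submodule F V) : Subgroup (Hs hH) where
  carrier := {x | x.w ∈ U}
  mul_mem' ha hb := U.add_mem ha hb
  one_mem' := U.zero_mem
  inv_mem' ha := U.neg_mem ha

theorem mem_ov {hH : IsHerm B} {U : Submodule F V} {x : Hs hH} : x ∈ ov hH U ↔ x.w ∈ U := Iff.rfl

theorem conj (h : HS q B) {e f : V} (hp : Hp B e f) (a : UG (rs B (Pp B e f)))
    (x : Hs (h.herm.restrict (Pp B e f))) :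
    lev h hp a * iota h.herm hp x * (lev h hp a)⁻¹ = iota h.herm hp (act _ a x) := by
  rw [lev_mul_iota, mul_inv_cancel_right]

theorem one (h : HS q B) (ρ : Representation ℂ (UG B) X) (hR : NoR ρ) {e f : V} (hp : Hp B e f)
    {u : Pp B e f} (hu : B u u ≠ 0) :
    fx ρ (Rf B e) ≤ fx ρ ((ov _ (F ∙ u)).map (iota h.herm hp)) := by
  have u0 : u ≠ 0 := fun e => hu (by simp [e])
  refine fo1 ρ (A := Rf B u) (fun g hg => ?_) ?_ (fun a ha => ?_) (fun a ha => ?_) (fun a ha => ?_)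
    (by rw [hR u hu, inf_bot_eq])
  · obtain ⟨x, rfl⟩ := (range_iota h hp).ge (Rf_le_Qs hp.he hg)
    exact ⟨x, mem_ov.2 ((iota_mem_Rf h hp).1 hg ▸ zero_mem _), rfl⟩
  · rintro _ ⟨x, -, rfl⟩
    exact mem_normalizer_Rf (c := 1) (by rw [one_smul]; exact ((range_iota h hp).le ⟨x, rfl⟩).1)
  · exact mem_normalizer_Rf (c := 1) (by rw [one_smul]; exact mem_Rf.1 ha e (h.herm.refl (mem_Pp.1 u.2).1))
  · obtain ⟨b, hb, rfl⟩ := (map_ext_Rf h (h.disj hp) u).ge ha
    refine Subgroup.mem_normalizer_fintype ?_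
    rintro _ ⟨x, hx, rfl⟩
    refine ⟨act _ b x, mem_ov.2 ?_, (conj h hp b x).symm⟩
    simpa using add_mem (sub_mem_span_of_Rf (h.pp hp) hb x.w) (mem_ov.1 hx)
  · obtain ⟨b, hb, rfl⟩ := (map_ext_Rf h (h.disj hp) u).ge ha
    obtain ⟨c, hc⟩ := Rf_form (h.pp hp) u0 hb
    rcases eq_or_ne c 0 with rfl | c0
    · obtain rfl : b = 1 := Subtype.ext (LinearEquiv.ext fun y => by simp [hc])
      exact .inl fun v _ => by simp
    refine .inr ?_
    rintro _ ⟨x, hx, rfl⟩ k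
    rw [mul_assoc, mul_assoc, ← mul_assoc (ext h _ b), conj, ← map_inv, ← map_mul, iota_mem_Rf h hp] at k
    obtain ⟨d, hd⟩ := Submodule.mem_span_singleton.1 (mem_ov.1 hx)
    rw [Hs.mul_w, Hs.inv_w, act_w, hc, neg_add_cancel_left, ← hd, map_smul, smul_eq_zero] at k
    rw [iota_mem_Rf h hp, ← hd, (mul_eq_zero.1 ((mul_eq_zero.1 (k.resolve_right u0)).resolve_left c0)).resolve_right hu,
      zero_smul]

end U3

theorem zq_of_noR (h : HS q B) (ρ : Representation ℂ (UG B) X) (hR : NoR ρ) {e : V}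
    (he : B e e = 0) (he0 : e ≠ 0) : ZQ ρ e := by
  obtain ⟨f, hp⟩ := exists_Hp h he he0
  have k := h.pp hp
  obtain ⟨b, hb⟩ := exists_orthonormal_basis k.herm.ne_id k.herm.invol k.herm.symm k.nd rfl
  intro v hv g hg
  obtain ⟨x, rfl⟩ := (range_iota h hp).ge hg
  refine Finset.sum_induction (fun i => b.repr x.w i • b i)
    (fun w => ∀ y : Hs (h.herm.restrict (Pp B e f)), y.w = w → ρ (iota h.herm hp y) v = v)
    (fun w₁ w₂ h₁ h₂ y hy => ?_) (fun y hy => hv _ ((iota_mem_Rf h hp).2 hy))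
    (fun i _ y hy => U3.one h ρ hR hp (u := b i) ((hb i i).trans_ne (by simp)) hv _
      ⟨y, U3.mem_ov.2 (Submodule.mem_span_singleton.2 ⟨_, hy.symm⟩), rfl⟩) x (b.sum_repr _).symm
  obtain ⟨t, ht⟩ := exists_trace_eq σ (.inl k.herm.ne_id) k.herm.invol _ (k.herm.eq w₁ w₁)
  rw [← mul_inv_cancel_left ⟨w₁, t, ht⟩ y, map_mul, map_mul, End.mul_apply, h₂ _ (by simp [hy]), h₁ _ rfl]

end CF.Wu
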