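import Cfsg.Agent.Wu.R
import Cfsg.Agent.Wu.U2
import Cfsg.Agent.Wu.U3

/-! The multiplicity of a representation without quasi-reflection fixed vectors in the Weil character. -/

set_option autoImplicit false
set_option linter.unusedSectionVars false

open Module CF.Geom

namespace CF.Wu

variable {F V : Type*} [Field F] [Fintype F] [AddCommGroup V] [Module F V] [FiniteDimensional F V]
  [Finite V] {σ : F →+* F} {B : V →ₛₗ[σ] V →ₗ[F] F} {q : ℕ}
  {X : Type*} [AddCommGroup X] [Module ℂ X] [FiniteDimensional ℂ X]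

namespace U4

open _root_.Classical in
theorem zeta {α : Type*} [Fintype α] [PartialOrder α] (Φ : α → ℂ) :
    ∃ c : α → ℂ, ∀ U, Φ U = ∑ W with W ≤ U, c W := by
  let c : α → ℂ := wellFounded_lt.fix fun U c => Φ U - ∑ W : {W // W < U}, c W W.2
  refine ⟨c, fun U => ?_⟩
  have e : c U = Φ U - ∑ W : {W // W < U}, c W := WellFounded.fix_eq _ _ _
  rw [← Finset.add_sum_erase _ _ (a := U) (by simp), e,
    Finset.sum_subtype (p := (· < U)) _ (fun W => by simp [lt_iff_le_and_ne, and_comm]), sub_add_cancel]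

theorem iso (h : HS q B) {R : Submodule F V} (hR : ∀ u ∈ R, B u u = 0) : R ≤ perp B R := fun w hw =>
  mem_perp.2 fun v hv => by
    by_contra n
    obtain ⟨t, ht⟩ := exists_trace_ne_zero σ (.inl h.herm.ne_id)
    have k := hR _ (R.add_mem hv (R.smul_mem (t / B v w) hw))
    have e : B v ((t / B v w) • w) = t := by rw [map_smul, smul_eq_mul, div_mul_cancel₀ _ n]
    rw [map_add, map_add, LinearMap.add_apply, LinearMap.add_apply, hR v hv, hR _ (R.smul_mem _ hw),
      ← h.herm.eq v, e] at k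
    exact ht (by linear_combination k)

end U4

theorem moeb (Φ : Submodule F V → ℂ) : ∃ c : Submodule F V → ℂ, ∀ χ : UG B → ℂ,
    ∑ᶠ g : UG B, Φ (fixS g) * χ g = ∑ᶠ W, c W * ∑ᶠ g : pt B W, χ g := by
  classical
  have := Fintype.ofFinite (Submodule F V)
  have := Fintype.ofFinite (UG B)
  obtain ⟨c, hc⟩ := U4.zeta Φ
  refine ⟨c, fun χ => ?_⟩
  simp only [finsum_eq_sum_of_fintype, hc, Finset.sum_mul, Finset.mul_sum, Finset.sum_filter]
  rw [Finset.sum_comm]
  refine Finset.sum_congr rfl fun W _ => ?_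
  simp only [ite_mul, zero_mul, ← Finset.sum_filter]
  exact Finset.sum_subtype _ (fun g => by simp [mem_pt, SetLike.le_def, mem_fixS]) fun g => c W * χ g

theorem uab (h : HS q B) {e : V} (he : B e e = 0) (he0 : e ≠ 0) : ∃ a b : ℂ,
    ∀ (Y : Type) [AddCommGroup Y] [Module ℂ Y] [FiniteDimensional ℂ Y]
      (ρ : Representation ℂ (UG B) Y), NoR ρ → ∑ᶠ g, om q g * ρ.character g =
        a * finrank ℂ Y + b * ((finrank ℂ Y : ℂ) - finrank ℂ (fx ρ (Rf B e))) := by
  have := Fintype.ofFinite (Submodule F V)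
  obtain ⟨c, hc⟩ := moeb (B := B) fun U => (-1) ^ finrank F V * (-(q : ℂ)) ^ finrank F U
  have k : ∀ W : Submodule F V, ∃ a b : ℂ, ∀ (Y : Type) [AddCommGroup Y] [Module ℂ Y] [FiniteDimensional ℂ Y]
      (ρ : Representation ℂ (UG B) Y), NoR ρ → (finrank ℂ (fx ρ (pt B W)) : ℂ) =
        a * finrank ℂ Y + b * ((finrank ℂ Y : ℂ) - finrank ℂ (fx ρ (Rf B e))) := fun W => by
    by_cases hW : ∀ u ∈ perp B W, B u u = 0
    · refine ⟨1, -((q : ℂ) ^ 2 * ((q : ℂ) ^ (2 * finrank F (perp B W)) - 1)) /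
        (((q : ℂ) ^ 2 - 1) * (q : ℂ) ^ (2 * finrank F (perp B W))), fun Y _ _ _ ρ hR => ?_⟩
      have d := dimR h ρ (fun v a b => zq_of_noR h ρ hR a b) he he0 (U4.iso h hW)
      have q2 := h.two_le
      have n1 : (q : ℂ) ^ 2 - 1 ≠ 0 := by
        rw [sub_ne_zero]; norm_cast; nlinarith
      have n2 : (q : ℂ) ≠ 0 := by norm_cast; omega
      rw [h.wp.perp_perp] at d
      field_simp
      linear_combination -d
    · push Not at hW
      obtain ⟨u, hu, n⟩ := hW
      refine ⟨0, 0, fun Y _ _ _ ρ hR => ?_⟩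
      rw [eq_bot_iff.2 ((fx_anti ρ (K := pt B W) fun g hg w hw => mem_Rf.1 hg w (h.herm.refl (mem_perp.1 hu w hw))).trans
        (hR u n).le)]
      simp
  choose a b k using k
  refine ⟨∑ W, c W * Nat.card (pt B W) * a W, ∑ W, c W * Nat.card (pt B W) * b W, fun Y _ _ _ ρ hR => ?_⟩
  refine (hc _).trans ?_
  rw [finsum_eq_sum_of_fintype, Finset.sum_mul, Finset.sum_mul, ← Finset.sum_add_distrib]
  exact Finset.sum_congr rfl fun W _ => by rw [← card_mul_finrank_fx, k W Y ρ hR]; ring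

end CF.Wu
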