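import Cfsg.Agent.Wu.P
import Cfsg.Agent.Wu.C
import Cfsg.Agent.Wu.U4
import Cfsg.Agent.Wu.B3
import Cfsg.Agent.Wu.M2

set_option autoImplicit false
set_option linter.unusedSectionVars false

open Module CF.Geom

namespace CF.Wu

variable {F V : Type*} [Field F] [Fintype F] [AddCommGroup V] [Module F V] [FiniteDimensional F V]
  [Finite V] {σ : F →+* F} {B : V →ₛₗ[σ] V →ₗ[F] F} {q : ℕ}
  {X : Type*} [AddCommGroup X] [Module ℂ X] [FiniteDimensional ℂ X]

theorem exists_W (h : HS q B) : ∃ W : Representation ℂ (UG B) (Fin (q ^ finrank F V) → ℂ),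
    W.character = om q ∧ NoR W := by
  obtain ⟨ψ, hψ⟩ := exists_Nt h
  obtain ⟨T, hT⟩ := heis_ex h hψ
  obtain ⟨W, hW⟩ := weil h hψ T hT
  refine ⟨W, funext fun g => ?_, IsW.noR h hW⟩
  have := IsW.char h hW g
  rw [Module.finrank_fin_fun, Nat.cast_pow] at this
  exact mul_left_cancel₀ (pow_ne_zero _ (Nat.cast_ne_zero.2 (by have := h.two_le; omega))) this

theorem noR_a (h : HS q B) (hodd : Odd (finrank F V)) (h3 : 3 ≤ finrank F V)
    (hex : ¬ (finrank F V = 3 ∧ q = 2)) (ρ : Representation ℂ (UG B) X) (hZ : ∀ z ∈ Zs B, ρ z = 1)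
    (hC : ∀ g : UG B, fx ρ (Subgroup.centralizer {g}) = ⊥) (h0 : fx ρ (suSub B) = ⊥) : NoR ρ := by
  obtain ⟨e, f, hp⟩ := exists_Hp' h (by omega)
  have hd := finrank_Pp h hp
  have ho : Odd (finrank F (Pp B e f)) := by
    obtain ⟨k, hk⟩ := hodd
    exact ⟨k - 1, by omega⟩
  obtain ⟨S, t, hS⟩ := singer (h.pp hp) ho
  have h1 := fx_sing h hp hS hex ρ hZ hC
  obtain ⟨u, hu⟩ := exists_an (h.pp hp) (by omega)
  refine noR_of h hp ρ u.2 hu ?_ (zq_sing h hp ρ hS h1) h0
  rw [← map_ext_Rf h (h.disj hp) u]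
  refine fx_le_of_Xp h hp ρ _ fun ψ hψ => ?_
  obtain ⟨W, hW⟩ := weil (h.pp hp) hψ (Tp h.herm hp ρ ψ) (cen_Tp h.herm hp ρ ψ)
  refine IsW.noR_sing (h.pp hp) hW (ap h hp ρ ψ) (ap_mul_Tp h hp ρ ψ) ho hS ?_ u hu
  rw [eq_bot_iff]
  intro v hv
  have : (v : X) ∈ fx ρ (S.map (lev h hp)) := by
    rintro _ ⟨s, hs, rfl⟩
    exact congrArg Subtype.val (hv s hs)
  rw [h1] at this
  exact Subtype.ext this

theorem fx_sub_bot {G : Type*} [Group G] {ρ : Representation ℂ G X} {Y : Submodule ℂ X}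
    (hY : ∀ g, ∀ v ∈ Y, ρ (MonoidHom.id _ g) v ∈ Y) {H : Subgroup G} (h : fx ρ H = ⊥) :
    fx (sub ρ (MonoidHom.id _) Y hY) H = ⊥ := by
  rw [eq_bot_iff]
  intro v hv
  have : (v : X) ∈ fx ρ H := fun g hg => congrArg Subtype.val (hv g hg)
  rw [h] at this
  exact Subtype.ext this

theorem sum_Rf (h : HS q B) {e : V} (he : B e e = 0) (he0 : e ≠ 0) (χ : UG B → ℂ) {c d : ℂ}
    (hc : ∀ g ∈ Rf B e, g ≠ 1 → c * χ g = d) :
    c * ∑ᶠ g : Rf B e, χ g = c * χ 1 + (q - 1) * d := by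
  classical
  have := Fintype.ofFinite (Rf B e)
  rw [finsum_eq_sum_of_fintype, ← Finset.add_sum_erase _ _ (Finset.mem_univ 1), mul_add,
    Finset.mul_sum, Finset.sum_congr rfl fun (g : Rf B e) hg =>
      hc g.1 g.2 fun e => (Finset.mem_erase.1 hg).1 (Subtype.ext e), Finset.sum_const,
    Finset.card_erase_of_mem (Finset.mem_univ _), Finset.card_univ, ← Nat.card_eq_fintype_card,
    card_Rf_iso h he he0, nsmul_eq_mul, Nat.cast_sub (by have := h.two_le; omega)]
  simp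

theorem conj_om (g : UG B) : starRingEnd ℂ (om q g) = om q g := by simp [om]

theorem sum_om_omc (h : HS q B) (hi : Cfsg.IsIrrCharacter (UG B) (omc q 1)) :
    ∑ᶠ g : UG B, om q g * omc q 1 g = Nat.card (UG B) := by
  have := Fintype.ofFinite (UG B)
  have := Fintype.ofFinite (normOne σ)
  have hq : ((q : ℂ) + 1) ≠ 0 := by exact_mod_cast Nat.succ_ne_zero q
  have h1 : ∀ g : UG B, ((q : ℂ) + 1) * omc q 1 g = ∑ z : normOne σ, om q (scal B z * g) := by
    intro g
    rw [omc, ← mul_assoc, mul_inv_cancel₀ hq, one_mul, finsum_eq_sum_of_fintype]; simp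
  have h2 : ∀ g : UG B, starRingEnd ℂ (omc q 1 g) = omc q 1 g := fun g => by
    apply mul_left_cancel₀ hq
    have := congrArg (starRingEnd ℂ) (h1 g)
    simp only [map_mul, map_add, map_natCast, map_one, map_sum, conj_om] at this
    rw [this, h1]
  have h3 := CF.Char.card_mul_inner (omc q 1 : UG B → ℂ) (omc q 1)
  rw [CF.Char.inner_irr_self hi, mul_one] at h3
  rw [h3, finsum_eq_sum_of_fintype]
  apply mul_left_cancel₀ hq
  have h4 : ∀ z : normOne σ, ∑ g : UG B, om q g * omc q 1 g =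
      ∑ g : UG B, om q (scal B z * g) * omc q 1 g := fun z =>
    (Fintype.sum_equiv (Equiv.mulLeft (scal B z)) _ _ fun g => by simp [omc_scal]).symm
  calc _ = ∑ z : normOne σ, ∑ g : UG B, om q (scal B z * g) * omc q 1 g := by
        rw [← Finset.sum_congr rfl fun z _ => h4 z, Finset.sum_const, Finset.card_univ,
          ← Nat.card_eq_fintype_card, card_normOne h.card h.frob]; simp
    _ = _ := by
        rw [Finset.sum_comm, Finset.mul_sum]
        refine Finset.sum_congr rfl fun g _ => ?_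
        rw [← Finset.sum_mul, ← h1, h2, mul_assoc]

theorem uval (h : HS q B) (hodd : Odd (finrank F V)) (h3 : 3 ≤ finrank F V) {Y : Type}
    [AddCommGroup Y] [Module ℂ Y] [FiniteDimensional ℂ Y] [Nontrivial Y]
    (ρ : Representation ℂ (UG B) Y) (hR : NoR ρ) (h0 : fx ρ (suSub B) = ⊥) :
    ∑ᶠ g, om q g * ρ.character g ≠ 0 := by
  obtain ⟨e, f, hp⟩ := exists_Hp' h (by omega)
  have he0 : e ≠ 0 := by rintro rfl; simpa using hp.hef
  obtain ⟨a, b, hab⟩ := uab h hp.he he0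
  obtain ⟨W, hW, hW'⟩ := exists_W h
  have hc : Cfsg.IsCharacter (UG B) (om q) := ⟨_, W, hW⟩
  obtain ⟨Y', hY, hφ⟩ := omc_rep h hW 1
  have e1 := hab _ W hW'
  have e2 := hab _ _ fun u hu => fx_sub_bot hY (hW' u hu)
  have d1 := card_mul_finrank_fx W (Rf B e)
  have d2 := card_mul_finrank_fx (sub W (MonoidHom.id _) Y' hY) (Rf B e)
  have p0 := Representation.char_one (sub W (MonoidHom.id _) Y' hY)
  rw [hφ] at e2 d2 p0
  rw [hW] at e1 d1
  rw [sum_om_omc h (omc_irr h hodd h3 hc 1)] at e2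
  rw [sum_om_sq h (by omega), Module.finrank_fin_fun, Nat.cast_pow] at e1
  rw [card_Rf_iso h hp.he he0] at d1 d2
  have s1 := sum_Rf h hp.he he0 (om q) fun g hg h1 => om_Rf h hg h1
  have s2 := sum_Rf h hp.he he0 (omc q 1) (c := q * (q + 1)) fun g hg h1 =>
    (mul_assoc _ _ _).trans (omc_one_Rf h hodd hp.he hg h1)
  have o1 := omc_one_one h hodd
  rw [← d1, om_one] at s1
  rw [← d2] at s2
  rw [p0] at s2 o1
  have hq : (q : ℂ) ≠ 0 := Nat.cast_ne_zero.2 (by have := h.two_le; omega)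
  have ha : a = 0 := by
    apply mul_left_cancel₀ (pow_ne_zero 3 hq)
    linear_combination (q : ℂ) ^ 2 * (q + 1) * e2 - q ^ 2 * e1 + q ^ 2 * (a + b) * o1 + b * s1 -
      b * s2 - b * q * o1
  have hb : b ≠ 0 := by
    rintro rfl
    rw [ha, zero_mul, zero_mul, add_zero] at e2
    exact Nat.card_pos.ne' (Nat.cast_eq_zero.1 e2)
  rw [hab Y ρ hR, ha, zero_mul, zero_add]
  refine mul_ne_zero hb (sub_ne_zero.2 fun k => ?_)
  exact fx_Rf_ne_top h ρ hp.he he0 (zq_of_noR h ρ hR hp.he he0) h0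
    (Submodule.eq_top_of_finrank_eq (Nat.cast_injective k).symm)

theorem good (h : HS q B) (h3 : 3 ≤ finrank F V) (hc : Nat.Coprime (finrank F V) (2 * (q + 1))) :
    ∃ φ : UG B → ℂ, Good q φ := by
  have hodd : Odd (finrank F V) := Nat.coprime_two_right.1 (Nat.Coprime.coprime_mul_right_right hc)
  have hc' : Nat.Coprime (finrank F V) (q + 1) := Nat.Coprime.coprime_mul_left_right hc
  have hex : ¬ (finrank F V = 3 ∧ q = 2) := by
    rintro ⟨h1, h2⟩
    rw [h1, h2] at hc'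
    exact absurd hc' (by decide)
  have : Nontrivial V := Module.nontrivial_of_finrank_pos (R := F) (by omega)
  have hq : ((q : ℂ) + 1) ≠ 0 := by exact_mod_cast Nat.succ_ne_zero q
  have hq2 := h.two_le
  obtain ⟨W, hW, hW'⟩ := exists_W h
  have hch : Cfsg.IsCharacter (UG B) (om q) := ⟨_, W, hW⟩
  have o1 := omc_one_one h hodd
  have hle : q ≤ q ^ finrank F V := Nat.le_self_pow (by omega) q
  have hcen : ∀ z ∈ Zs B, omc q 1 z = omc q 1 (1 : UG B) := fun z hz => by
    obtain ⟨z, rfl⟩ : z ∈ (scal B).range := range_scal h ▸ hz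
    simpa using omc_scal (q := q) 1 z (1 : UG B)
  have ker : ∀ {k : ℕ} (ρ : Representation ℂ (UG B) (Fin k → ℂ)),
      (∀ z ∈ Zs B, ρ.character z = ρ.character 1) → ∀ z ∈ Zs B, ρ z = 1 := fun ρ hz z hz' =>
    (CF.Char.character_eq_finrank_iff ρ z).1 (by rw [hz z hz', Representation.char_one])
  have top : ∀ {k : ℕ} (ρ : Representation ℂ (UG B) (Fin k → ℂ)), (∀ z ∈ Zs B, ρ z = 1) →
      fx ρ (suSub B) = fx ρ ⊤ := fun ρ hz => by
    rw [← Zs_sup_su h hc', fx_sup]
    exact (inf_eq_right.2 fun v _ z hz' => by rw [hz z hz']; rfl).symm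
  refine ⟨omc q 1, omc_irr h hodd h3 hch 1, hcen, ?_, fun g => ?_, ?_, ?_⟩
  · obtain ⟨k, -, hk⟩ := CF.Char.irr_one_eq_nat (omc_irr h hodd h3 hch 1)
    rw [hk] at o1 ⊢
    have : (q + 1) * k = q ^ finrank F V - q := by
      apply Nat.cast_injective (R := ℂ)
      rw [Nat.cast_sub hle]; push_cast; exact o1
    rw [← this, Nat.mul_div_cancel_left _ (Nat.succ_pos q)]
  · obtain ⟨Y', hY, hφ⟩ := omc_rep h hW 1
    obtain ⟨A, hA, hA'⟩ := cent_sum h hodd g
    rw [← hφ, ← fx_eq_bot_iff_char]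
    refine fx_sub_bot hY (eq_bot_iff.2 ((fx_anti W hA).trans_eq ?_))
    rw [fx_eq_bot_iff_char, hW, hA']
  · rintro χ ⟨k, ρ, hρ, rfl⟩ hz hC
    have := CF.Char.nontrivial_of_isIrreducible ρ
    have hC' : ∀ g : UG B, fx ρ (Subgroup.centralizer {g}) = ⊥ := fun g =>
      (fx_eq_bot_iff_char _ _).2 (hC g)
    have h0 : fx ρ (suSub B) = ⊥ := by
      rw [top ρ (ker ρ hz)]
      exact eq_bot_iff.2 ((fx_anti ρ le_top).trans_eq (hC' 1))
    obtain ⟨θ, hθ⟩ := eq_omc h hodd h3 hch ⟨k, ρ, hρ, rfl⟩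
      (uval h hodd h3 ρ (noR_a h hodd h3 hex ρ (ker ρ hz) hC' h0) h0)
    have : θ = 1 := by
      ext z
      have k1 := omc_scal (q := q) θ z (1 : UG B)
      rw [← hθ, mul_one, hz _ ⟨_, fun _ => rfl⟩] at k1
      have k2 := CF.Char.irr_one_ne_zero (⟨k, ρ, hρ, rfl⟩ : Cfsg.IsIrrCharacter _ ρ.character)
      simpa using (mul_right_cancel₀ k2 (k1.symm.trans (one_mul _).symm))
    rw [hθ, this]
  · rintro χ ⟨k, ρ, hρ, rfl⟩ hz h1
    have := CF.Char.nontrivial_of_isIrreducible ρ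
    have hirr : Cfsg.IsIrrCharacter _ ρ.character := ⟨k, ρ, hρ, rfl⟩
    have hd : (q + 1) * finrank ℂ (Fin k → ℂ) + q = q ^ finrank F V := by
      apply Nat.cast_injective (R := ℂ)
      rw [Representation.char_one] at h1
      push_cast
      rw [h1, o1]; ring
    have h0 : fx ρ (suSub B) = ⊥ := by
      rw [top ρ (ker ρ hz)]
      obtain ⟨-, hi⟩ := (CF.Char.isIrreducible_iff ρ).1 hρ
      refine (hi _ fun g v hv => by rw [hv g trivial]; exact hv).resolve_right fun ht => ?_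
      obtain ⟨v, hv⟩ := exists_ne (0 : Fin k → ℂ)
      have h2 := (hi (ℂ ∙ v) fun g w hw => by
        rw [(ht ▸ Submodule.mem_top : w ∈ fx ρ ⊤) g trivial]; exact hw).resolve_left
          (by simpa using hv)
      have h4 := finrank_span_singleton (K := ℂ) hv
      rw [h2, finrank_top] at h4
      rw [h4] at hd
      have : q ^ 3 ≤ q ^ finrank F V := Nat.pow_le_pow_right (by omega) h3
      have : q * (2 * 2) ≤ q ^ 3 := by
        rw [pow_succ', sq]; exact Nat.mul_le_mul_left _ (Nat.mul_le_mul hq2 hq2)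
      omega
    obtain ⟨η, hη⟩ := noR_c h hodd h3 hex ρ hd h0
    have hχ : (tw ρ (η.comp (udet h.nd))).character =
        fun g => ρ.character g * (η.comp (udet h.nd) g : ℂˣ) := by
      ext g
      show LinearMap.trace ℂ _ (((η.comp (udet h.nd) g : ℂˣ) : ℂ) • ρ g) = _
      rw [map_smul, smul_eq_mul, mul_comm]; rfl
    have h0' : fx (tw ρ (η.comp (udet h.nd))) (suSub B) = ⊥ := by
      rw [← h0]
      ext v
      refine forall₂_congr fun g hg => ?_
      rw [← ker_udet h.nd, MonoidHom.mem_ker] at hg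
      simp [hg]
    have hu := uval h hodd h3 _ hη h0'
    rw [hχ] at hu
    obtain ⟨θ, hθ⟩ := eq_omc h hodd h3 hch (CF.Char.irr_mul_linear hirr _) hu
    have hθ1 : θ = 1 := by
      by_contra hne
      have k1 := omc_ne_one h hodd hne
      rw [← congrFun hθ 1, map_one, Units.val_one, mul_one, h1, o1] at k1
      exact hq (by linear_combination -k1)
    subst hθ1
    have hη1 : η = 1 := by
      rw [← card_normOne h.card h.frob, Nat.coprime_comm] at hc'
      refine MonoidHom.ext fun z => ?_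
      obtain ⟨z, rfl⟩ := (powCoprime hc').surjective z
      have k1 := congrFun hθ (scal B z)
      rw [hz _ ⟨_, fun _ => rfl⟩, hcen _ ⟨_, fun _ => rfl⟩, ← h1, MonoidHom.comp_apply,
        udet_scal h] at k1
      exact Units.ext (mul_left_cancel₀ (CF.Char.irr_one_ne_zero hirr) (k1.trans (mul_one _).symm))
    rw [← hθ, hη1]; ext; simp

end CF.Wu
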