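/-
Hermitian Gauss sums.
-/
import Cfsg.Agent.Wu.D

set_option autoImplicit false
set_option linter.unusedSectionVars false

open Module CF.Geom

namespace CF.Wu

variable {F : Type*} [Field F] [Fintype F] {σ : F →+* F} {q : ℕ}

namespace G

theorem sum_fix (hF : Fintype.card F = q ^ 2) (hσ : ∀ x, σ x = x ^ q) {ψ : AddChar F ℂ}
    (hψ : Nt σ ψ) {s : F} (hs : σ s = -s) (h0 : s ≠ 0) : ∑ a, ψ (σ a * a * s) = -(q : ℂ) := by
  classical
  obtain ⟨t, ht, h1⟩ := hψ
  have z : ∑ μ with σ μ = μ, ψ (μ * s) = 0 := by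
    have e : ∑ μ with σ μ = μ, ψ (μ * s) = ψ t * ∑ μ with σ μ = μ, ψ (μ * s) := by
      rw [Finset.mul_sum]
      have f : σ (t / s) = t / s := by rw [map_div₀, ht, hs, neg_div_neg_eq]
      refine (Finset.sum_equiv (Equiv.addLeft (t / s)) (fun μ => ?_) fun μ _ => ?_).symm
      · simp [f]
      · rw [← AddChar.map_add_eq_mul, Equiv.coe_addLeft, add_mul, div_mul_cancel₀ _ h0]
    have : (1 - ψ t) * ∑ μ with σ μ = μ, ψ (μ * s) = 0 := by rw [sub_mul, one_mul, ← e, sub_self]
    exact (mul_eq_zero.1 this).resolve_left (sub_ne_zero.2 h1.symm)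
  obtain ⟨τ, t1, -, t3⟩ := exists_conj hF
  have i : ∀ a, σ (σ a) = a := fun a => by rw [hσ, hσ, ← t1, ← t1, t3]
  rw [← Finset.sum_fiberwise_of_maps_to (t := Finset.univ.filter fun μ => σ μ = μ)
    (g := fun a => σ a * a) fun a _ => by simp [i, mul_comm]]
  have c : ∀ μ ∈ Finset.univ.filter fun μ => σ μ = μ, ∑ a with σ a * a = μ, ψ (σ a * a * s) =
      (q + 1) * ψ (μ * s) - if μ = 0 then (q : ℂ) else 0 := fun μ hμ => by
    rw [Finset.sum_congr rfl (g := fun _ => ψ (μ * s)) fun a ha => by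
      rw [(Finset.mem_filter.1 ha).2], Finset.sum_const, nsmul_eq_mul]
    split_ifs with e
    · subst e
      have : (Finset.univ.filter fun a => σ a * a = 0) = {0} := by ext; simp
      rw [this]; simp
    · have := card_norm_eq hF e (by rw [← hσ]; exact (Finset.mem_filter.1 hμ).2)
      rw [Nat.card_eq_fintype_card, Fintype.card_subtype] at this
      simp only [pow_succ, ← hσ] at this
      simp [this]
  rw [Finset.sum_congr rfl c, Finset.sum_sub_distrib, ← Finset.mul_sum, z]
  simp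

theorem aux (hF : Fintype.card F = q ^ 2) (hσ : ∀ x, σ x = x ^ q) {ψ : AddChar F ℂ} (hψ : Nt σ ψ)
    (n : ℕ) : ∀ {U : Type*} [AddCommGroup U] [Module F U] [FiniteDimensional F U]
      (S : U →ₛₗ[σ] U →ₗ[F] F), finrank F U = n → (∀ u, σ (S u u) = -S u u) →
      ∃ N : ℕ, ∑ᶠ u, ψ (S u u) = (-(q : ℂ)) ^ N := by
  induction n using Nat.strong_induction_on with | _ n ih =>
  intro U _ _ _ S hn hS
  have := Module.finite_of_finite F (M := U)
  have := Fintype.ofFinite U
  rw [finsum_eq_sum_of_fintype]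
  by_cases h0 : ∀ u, S u u = 0
  · refine ⟨2 * n, ?_⟩
    simp only [h0, AddChar.map_zero_eq_one, Finset.sum_const, Finset.card_univ, nsmul_eq_mul, mul_one]
    rw [Module.card_eq_pow_finrank (K := F), hF, hn, pow_mul, neg_sq]
    push_cast; rfl
  push Not at h0
  obtain ⟨x, hx⟩ := h0
  obtain ⟨τ, t1, t2, t3⟩ := exists_conj hF
  obtain rfl : τ = σ := RingHom.ext fun a => by rw [t1, hσ]
  have k : ∀ y, S x y = 0 → τ (S y x) = -S y x := fun y hy => by
    have := hS (x + y)
    simp only [map_add, LinearMap.add_apply, hy, hS, zero_add, map_zero] at this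
    linear_combination this
  have k' : ∀ y, S x y = 0 → S y x = 0 := fun y hy => by
    obtain ⟨a, ha⟩ := DFunLike.ne_iff.1 t2
    have := k (a • y) (by rw [map_smul, hy, smul_zero])
    rw [LinearMap.map_smulₛₗ₂, smul_eq_mul, map_mul, t3, k y hy] at this
    exact (mul_eq_zero.1 (show (τ a - a) * S y x = 0 by linear_combination this)).resolve_left
      (sub_ne_zero.2 ha)
  let K := LinearMap.ker (S x)
  have hK : finrank F K < n := hn ▸ Submodule.finrank_lt fun e => hx (by
    have : x ∈ K := e ▸ Submodule.mem_top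
    exact this)
  obtain ⟨N, hN⟩ := ih _ hK (S.domRestrict₁₂ K K) rfl fun u => hS u
  have := Fintype.ofFinite K
  let e : F × K ≃ U :=
    { toFun := fun p => p.1 • x + p.2
      invFun := fun u => (S x u / S x x, ⟨u - (S x u / S x x) • x, by
        simp [K, div_mul_cancel₀ _ hx]⟩)
      left_inv := fun p => by
        have : S x (p.1 • x + p.2) / S x x = p.1 := by
          rw [map_add, map_smul, show S x p.2 = 0 from p.2.2, add_zero, smul_eq_mul,
            mul_div_cancel_right₀ _ hx]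
        ext <;> simp only [this, add_sub_cancel_left]
      right_inv := fun u => by simp }
  refine ⟨N + 1, ?_⟩
  rw [finsum_eq_sum_of_fintype] at hN
  rw [← e.sum_comp, pow_succ', ← hN, ← sum_fix hF hσ hψ (hS x) hx, Finset.sum_mul_sum,
    Fintype.sum_prod_type]
  refine Finset.sum_congr rfl fun a _ => Finset.sum_congr rfl fun y _ => ?_
  rw [← AddChar.map_add_eq_mul]
  congr 1
  have h1 : S x y = 0 := y.2
  simp [e, h1, k' _ h1, LinearMap.domRestrict₁₂_apply]
  ring

end G

theorem gauss {U : Type*} [AddCommGroup U] [Module F U] [FiniteDimensional F U]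
    (hF : Fintype.card F = q ^ 2) (hσ : ∀ x, σ x = x ^ q) (S : U →ₛₗ[σ] U →ₗ[F] F)
    (hS : ∀ u, σ (S u u) = -S u u) {ψ : AddChar F ℂ} (hψ : Nt σ ψ) :
    ∃ N : ℕ, ∑ᶠ u, ψ (S u u) = (-(q : ℂ)) ^ N :=
  G.aux hF hσ hψ _ S rfl hS

end CF.Wu
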