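/-
The Gauss sum behind the product of two Weil operators.
-/
import Cfsg.Agent.Wu.G

set_option autoImplicit false
set_option linter.unusedSectionVars false

open Module CF.Geom

namespace CF.Wu

variable {F V : Type*} [Field F] [Fintype F] [AddCommGroup V] [Module F V] [FiniteDimensional F V]
  [Finite V] {σ : F →+* F} {B : V →ₛₗ[σ] V →ₗ[F] F} {q : ℕ}

namespace WS

theorem sum_w (h : HS q B) [Fintype (Hs h.herm)] [Fintype V] (f : V → ℂ) :
    ∑ x : Hs h.herm, f x.w = q * ∑ v, f v := by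
  classical
  rw [← Finset.sum_fiberwise (g := Hs.w), Finset.mul_sum]
  refine Finset.sum_congr rfl fun v _ => ?_
  rw [Finset.sum_congr rfl (g := fun _ => f v) fun a ha => by rw [(Finset.mem_filter.1 ha).2],
    Finset.sum_const, nsmul_eq_mul, ← Fintype.card_subtype, ← Nat.card_eq_fintype_card]
  congr 2
  refine Eq.trans (Nat.card_congr ?_) (card_trace_eq h.card (a := B v v) (by rw [← h.frob, h.herm.eq]))
  exact
    { toFun := fun x => ⟨x.1.c, by rw [← h.frob, x.1.h, x.2]⟩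
      invFun := fun c => ⟨⟨v, c.1, by rw [h.frob]; exact c.2⟩, rfl⟩
      left_inv := fun x => Subtype.ext (Hs.ext x.2.symm rfl)
      right_inv := fun _ => rfl }

/-- The form of the Gauss sum. -/
def S (g g' : UG B) : V × V →ₛₗ[σ] V × V →ₗ[F] F :=
  LinearMap.mk₂'ₛₗ σ (RingHom.id F)
    (fun u w => B (u.1 - g.1 u.1) w.1 + B (u.2 - g'.1 u.2) w.2 + B (g.1 u.1 - u.1) (g'.1 w.2 - w.2))
    (fun _ _ _ => by simp; ring) (fun _ _ _ => by simp; ring) (fun _ _ _ => by simp; ring)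
    fun _ _ _ => by simp; ring

theorem c_eq (hH : IsHerm B) (g g' : UG B) (x y : Hs hH) :
    (act hH g x * x⁻¹ * (act hH g' y * y⁻¹)).c = S g g' (x.w, y.w) (x.w, y.w) := by
  have := x.h
  have := y.h
  simp [S] at *
  linear_combination ‹x.c + _ = _› + ‹y.c + _ = _›

theorem t0_inv (ψ : AddChar F ℂ) {hH : IsHerm B} (x : Hs hH) :
    t0 ψ x⁻¹ = starRingEnd ℂ (t0 ψ x) := by
  unfold t0
  by_cases hx : x.w = 0
  · have : σ x.c = -x.c := by have := x.h; rw [hx] at this; simp at this; linear_combination this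
    simp [hx, this, AddChar.map_neg_eq_conj]
  · simp [hx]

end WS

open WS

theorem Sg_eq (h : HS q B) {ψ : AddChar F ℂ} (hψ : Nt σ ψ) (g g' : UG B) :
    ∃ N : ℕ, Sg h.herm ψ g g' = (q : ℂ) ^ 2 * (-(q : ℂ)) ^ N := by
  classical
  have := Fintype.ofFinite (Hs h.herm)
  have := Fintype.ofFinite V
  let U : Submodule F (V × V) := LinearMap.ker
    (((g.1 : V →ₗ[F] V) - LinearMap.id).coprod ((g'.1 : V →ₗ[F] V) - LinearMap.id))
  have hU : ∀ x y : Hs h.herm,
      (act h.herm g x * x⁻¹ * (act h.herm g' y * y⁻¹)).w = 0 ↔ (x.w, y.w) ∈ U := fun x y => by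
    simp [U, sub_eq_add_neg]
  have ex : ∀ u, ∃ x : Hs h.herm, x.w = u := fun u => by
    obtain ⟨t, ht⟩ := exists_trace_eq σ (Or.inl h.herm.ne_id) h.herm.invol (B u u) (h.herm.eq u u)
    exact ⟨⟨u, t, ht⟩, rfl⟩
  obtain ⟨N, hN⟩ := gauss h.card h.frob ((S g g').domRestrict₁₂ U U) (fun u => by
    obtain ⟨⟨v, v'⟩, hu⟩ := u
    obtain ⟨x, rfl⟩ := ex v
    obtain ⟨y, rfl⟩ := ex v'
    have := (act h.herm g x * x⁻¹ * (act h.herm g' y * y⁻¹)).h
    rw [(hU x y).2 hu, c_eq, map_zero] at this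
    exact eq_neg_of_add_eq_zero_right this) hψ
  refine ⟨N, ?_⟩
  let f : V → V → ℂ := fun v v' => if (v, v') ∈ U then ψ (S g g' (v, v') (v, v')) else 0
  have e : ∀ x y : Hs h.herm,
      t0 ψ (act h.herm g x * x⁻¹ * (act h.herm g' y * y⁻¹)) = f x.w y.w := fun x y => by
    simp only [t0, f, hU, c_eq]
  rw [Sg, finsum_eq_sum_of_fintype, Fintype.sum_prod_type]
  simp only [e]
  rw [Finset.sum_congr rfl fun x _ => sum_w h (f x.w), sum_w h fun v => q * ∑ v', f v v',
    ← Finset.mul_sum, ← mul_assoc, ← sq, ← hN, ← Fintype.sum_prod_type', finsum_eq_sum_of_fintype,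
    ← Finset.sum_filter]
  congr 1
  exact Finset.sum_subtype _ (fun _ => by simp) fun u => ψ (S g g' u u)

theorem Sg_inv (h : HS q B) (ψ : AddChar F ℂ) (g g' : UG B) :
    Sg h.herm ψ g'⁻¹ g⁻¹ = starRingEnd ℂ (Sg h.herm ψ g g') := by
  have := Fintype.ofFinite (Hs h.herm)
  simp only [Sg, finsum_eq_sum_of_fintype, map_sum, ← t0_inv]
  refine (Fintype.sum_equiv ((Equiv.prodComm _ _).trans
    ((act h.herm g').toEquiv.prodCongr (act h.herm g).toEquiv)) _ _ fun p => ?_).symm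
  simp [mul_assoc]

end CF.Wu
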