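/-
The Weil operators attached to a representation of the Heisenberg group.
-/
import Cfsg.Agent.Wu.WS

set_option autoImplicit false
set_option linter.unusedSectionVars false

open Module CF.Geom

namespace CF.Wu

variable {F V : Type*} [Field F] [Fintype F] [AddCommGroup V] [Module F V] [FiniteDimensional F V]
  [Finite V] {σ : F →+* F} {B : V →ₛₗ[σ] V →ₗ[F] F} {q : ℕ}

namespace W

theorem card_over (h : HS q B) (U : Submodule F V) :
    Nat.card {x : Hs h.herm // x.w ∈ U} = q ^ (2 * finrank F U + 1) := by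
  have e : {x : Hs h.herm // x.w ∈ U} ≃ Σ w : U, {c : F // c + c ^ q = B w w} :=
    { toFun := fun x => ⟨⟨x.1.w, x.2⟩, x.1.c, by rw [← h.frob]; exact x.1.h⟩
      invFun := fun p => ⟨⟨p.1, p.2.1, by rw [h.frob]; exact p.2.2⟩, p.1.2⟩
      left_inv := fun _ => rfl
      right_inv := fun _ => rfl }
  have := Fintype.ofFinite U
  rw [Nat.card_congr e, Nat.card_sigma,
    Finset.sum_congr rfl fun (w : U) _ => card_trace_eq h.card (a := B w w)
      (by rw [← h.frob, h.herm.eq]),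
    Finset.sum_const, Finset.card_univ, Module.card_eq_pow_finrank (K := F), h.card, smul_eq_mul,
    ← pow_mul, pow_succ]

theorem card_H (h : HS q B) : Nat.card (Hs h.herm) = q ^ (2 * finrank F V + 1) := by
  rw [← finrank_top, ← card_over h ⊤]
  exact (Nat.card_congr (Equiv.subtypeUnivEquiv fun _ => Submodule.mem_top)).symm

theorem exists_w (hH : IsHerm B) (u : V) : ∃ x : Hs hH, x.w = u := by
  obtain ⟨t, ht⟩ := exists_trace_eq σ (Or.inl hH.ne_id) hH.invol (B u u) (hH.eq u u)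
  exact ⟨⟨u, t, ht⟩, rfl⟩

theorem central {hH : IsHerm B} {z : Hs hH} (hz : z.w = 0) (y : Hs hH) : y * z = z * y :=
  Hs.ext (add_comm _ _) (by simp [hz, add_comm])

theorem range_eq (h : HS q B) (g : UG B) {w : V} (hw : w ∈ perp B (fixS g)) :
    ∃ u, g.1 u - u = w := by
  have le : LinearMap.range ((g.1 : V →ₗ[F] V) - LinearMap.id) ≤ perp B (fixS g) := by
    rintro _ ⟨u, rfl⟩ k hk
    have := UG_map g k u
    rw [mem_fixS.1 hk] at this
    simp [this]
  have h1 := LinearMap.finrank_range_add_finrank_ker ((g.1 : V →ₗ[F] V) - LinearMap.id)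
  have h2 := h.wp.finrank_perp (fixS g)
  have h3 := Submodule.eq_of_le_of_finrank_eq le (by unfold fixS at h2 ⊢; omega)
  rw [← h3] at hw
  exact hw

/-- A commutator with non-trivial central character. -/
theorem exists_k (hH : IsHerm B) {ψ : AddChar F ℂ} (hψ : Nt σ ψ) {U : Submodule F V} (w : Hs hH)
    (hw : w.w ∉ perp B U) : ∃ k z : Hs hH, k.w ∈ U ∧ z.w = 0 ∧ ψ z.c ≠ 1 ∧ k * w * k⁻¹ = z * w := by
  obtain ⟨s, hs, h1⟩ := hψ
  obtain ⟨t, ht⟩ := exists_trace_eq σ (Or.inl hH.ne_id) hH.invol 1 (map_one σ)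
  rw [mem_perp] at hw
  push Not at hw
  obtain ⟨k0, hk, hb⟩ := hw
  obtain ⟨k, e⟩ := exists_w hH (σ (t * s / B k0 w.w) • k0)
  have b1 : B k.w w.w = t * s := by
    rw [e, LinearMap.map_smulₛₗ₂, hH.invol, smul_eq_mul, div_mul_cancel₀ _ hb]
  have b2 : B w.w k.w = -(σ t * s) := by rw [← hH.eq, b1, map_mul, hs, mul_neg]
  refine ⟨k, ⟨0, s, by simp [hs]⟩, e ▸ U.smul_mem _ hk, rfl, h1, ?_⟩
  rw [mul_inv_eq_iff_eq_mul]
  refine Hs.ext (by simp [add_comm]) ?_
  simp only [Hs.mul_c, Hs.mul_w, zero_add, map_zero, LinearMap.zero_apply, b1, b2]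
  linear_combination s * ht

variable {hH : IsHerm B} [Fintype (Hs hH)] {A : Type*} [Ring A] [Algebra ℂ A] (T : Hs hH →* A)

/-- The non-normalised Weil operator. -/
noncomputable def W0 (g : UG B) : A := ∑ x, T (act hH g x * x⁻¹)

/-- Twisted averaging. -/
noncomputable def E (g : UG B) : A →ₗ[ℂ] A where
  toFun a := ∑ y, T (act hH g y) * a * T y⁻¹
  map_add' a b := by simp [mul_add, add_mul, Finset.sum_add_distrib]
  map_smul' c a := by simp [Finset.smul_sum]

theorem E_apply (g : UG B) (a : A) : E T g a = ∑ y, T (act hH g y) * a * T y⁻¹ := rfl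

theorem W0_int (g : UG B) (y : Hs hH) : W0 T g * T y = T (act hH g y) * W0 T g := by
  simp only [W0, Finset.sum_mul, Finset.mul_sum, ← map_mul]
  exact (Fintype.sum_equiv (Equiv.mulLeft y) _ _ fun x => by simp [mul_assoc]).symm

theorem E_int {g : UG B} {a : A} (ha : ∀ y, a * T y = T (act hH g y) * a) :
    E T g a = (Fintype.card (Hs hH) : ℂ) • a := by
  rw [E_apply, Finset.sum_congr rfl fun y _ => by
    rw [← ha, mul_assoc, ← map_mul, mul_inv_cancel, map_one, mul_one]]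
  simp [Nat.cast_smul_eq_nsmul]

variable {T} {ψ : AddChar F ℂ}

theorem E_zero (hψ : Nt σ ψ) (hT : Cen T ψ) {g : UG B} {w : Hs hH} (hw : w.w ∉ perp B (fixS g)) :
    E T g (T w) = 0 := by
  obtain ⟨k, z, hk, hz, h1, e⟩ := exists_k hH hψ w hw
  have hk' : act hH g k = k := Hs.ext (mem_fixS.1 hk) rfl
  have : E T g (T w) = ψ z.c • E T g (T w) := by
    rw [E_apply, Finset.smul_sum]
    refine (Fintype.sum_equiv (Equiv.mulRight k) _ _ fun y => ?_).symm
    have : T (act hH g (y * k)) * T w * T (y * k)⁻¹ = T (act hH g y) * T (k * w * k⁻¹) * T y⁻¹ := by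
      simp only [map_mul (act hH g), hk', ← map_mul T]
      congr 1; group
    rw [Equiv.coe_mulRight, this, e, map_mul T z, hT z hz]
    simp
  have h2 : (1 - ψ z.c) • E T g (T w) = 0 := by rw [sub_smul, one_smul, ← this, sub_self]
  exact (smul_eq_zero.1 h2).resolve_left (sub_ne_zero.2 h1.symm)

theorem E_cen (hT : Cen T ψ) (g : UG B) {z : Hs hH} (hz : z.w = 0) (u : Hs hH) :
    E T g (T (z * (act hH g u * u⁻¹))) = ψ z.c • W0 T g := by
  rw [map_mul T z, hT z hz, smul_mul_assoc, one_mul, map_smul, E_apply, W0]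
  congr 1
  exact Fintype.sum_equiv (Equiv.mulRight u) _ _ fun y => by simp [mul_assoc]

theorem E_one (h : HS q B) [Fintype (Hs h.herm)] {T : Hs h.herm →* A} (hψ : Nt σ ψ) (hT : Cen T ψ)
    (w : Hs h.herm) : E T 1 (T w) = ((Fintype.card (Hs h.herm) : ℂ) * t0 ψ w) • (1 : A) := by
  unfold t0
  split_ifs with hw
  · rw [hT w hw, map_smul, E_int T (a := 1) fun y => by simp, smul_smul, mul_comm]
  · rw [E_zero hψ hT fun h1 => hw (h.nd.2 _ fun x => h1 x (mem_fixS.2 rfl)), mul_zero, zero_smul]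

theorem E_W (h : HS q B) [Fintype (Hs h.herm)] {T : Hs h.herm →* A} (hψ : Nt σ ψ) (hT : Cen T ψ)
    (g : UG B) (w : Hs h.herm) : ∃ c : ℂ, E T g (T w) = c • W0 T g := by
  by_cases hw : w.w ∈ perp B (fixS g)
  · obtain ⟨u, hu⟩ := range_eq h g hw
    obtain ⟨x, rfl⟩ := exists_w h.herm u
    exact ⟨_, by rw [← E_cen hT g (z := w * (act h.herm g x * x⁻¹)⁻¹) (by simp [← hu]; abel) x,
      inv_mul_cancel_right]⟩
  · exact ⟨0, by rw [E_zero hψ hT hw, zero_smul]⟩

section
variable (h : HS q B) [Fintype (Hs h.herm)] {T : Hs h.herm →* A} (hψ : Nt σ ψ) (hT : Cen T ψ)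

/-- The number of fixed points on the Heisenberg group. -/
noncomputable def κ (q : ℕ) (g : UG B) : ℂ := (q : ℂ) ^ (2 * finrank F (fixS g) + 1)

theorem cH : (Fintype.card (Hs h.herm) : ℂ) = (q : ℂ) ^ (2 * finrank F V + 1) := by
  rw [← Nat.card_eq_fintype_card, card_H h, Nat.cast_pow]

include h in
theorem q0 : (q : ℂ) ≠ 0 := Nat.cast_ne_zero.2 (by have := h.two_le; omega)

theorem κ_inv (g : UG B) : κ q g⁻¹ = κ q g := by
  have : fixS g⁻¹ = fixS g := by
    ext v
    rw [mem_fixS, mem_fixS]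
    exact (LinearEquiv.symm_apply_eq _).trans eq_comm
  rw [κ, this, κ]

include hψ hT

theorem E_W0 (g : UG B) : E T 1 (W0 T g) = ((q : ℂ) ^ (2 * finrank F V + 1) * κ q g) • (1 : A) := by
  classical
  rw [W0, map_sum, Finset.sum_congr rfl fun x _ => E_one h hψ hT _, ← Finset.sum_smul,
    ← Finset.mul_sum, cH h]
  congr 2
  have : ∀ x : Hs h.herm, t0 ψ (act h.herm g x * x⁻¹) = if x.w ∈ fixS g then 1 else 0 := fun x => by
    unfold t0
    by_cases hx : x.w ∈ fixS g
    · have : act h.herm g x = x := Hs.ext (mem_fixS.1 hx) rfl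
      simp [this, hx]
    · rw [if_neg hx, if_neg]
      exact fun e => hx (mem_fixS.2 (by simpa [add_neg_eq_zero] using e))
  rw [Finset.sum_congr rfl fun x _ => this x, Finset.sum_boole, κ, ← Nat.cast_pow, ← card_over h,
    Nat.card_eq_fintype_card, Fintype.card_subtype]

theorem W0_mul (g g' : UG B) :
    W0 T g * W0 T g' = (Sg h.herm ψ g g' / κ q (g * g')) • W0 T (g * g') := by
  have hq := q0 h
  have e : W0 T g * W0 T g' = ∑ p : Hs h.herm × Hs h.herm,
      T (act h.herm g p.1 * p.1⁻¹ * (act h.herm g' p.2 * p.2⁻¹)) := by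
    rw [W0, W0, Finset.sum_mul_sum, Fintype.sum_prod_type]
    simp only [map_mul T (_ * _) (_ * _)]
  obtain ⟨c, hc⟩ : ∃ c : ℂ, W0 T g * W0 T g' = c • W0 T (g * g') := by
    have h1 := E_int T (g := g * g') (a := W0 T g * W0 T g') fun y => by
      rw [mul_assoc, W0_int, ← mul_assoc, W0_int, mul_assoc, map_mul, MulAut.mul_apply]
    choose c hc using E_W h hψ hT (g * g')
    conv_lhs at h1 => rw [e, map_sum, Finset.sum_congr rfl fun p _ => hc _, ← Finset.sum_smul]
    exact ⟨(Fintype.card (Hs h.herm) : ℂ)⁻¹ * _, by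
      rw [mul_smul, h1, smul_smul, inv_mul_cancel₀ (by rw [cH h]; exact pow_ne_zero _ hq), one_smul]⟩
  have h2 : E T 1 (W0 T g * W0 T g') =
      ((q : ℂ) ^ (2 * finrank F V + 1) * Sg h.herm ψ g g') • (1 : A) := by
    rw [e, map_sum, Finset.sum_congr rfl fun x _ => E_one h hψ hT _, ← Finset.sum_smul,
      ← Finset.mul_sum, cH h, Sg, finsum_eq_sum_of_fintype]
  rw [hc, map_smul, E_W0 h hψ hT, smul_smul] at h2
  have hκ : κ q (g * g') ≠ 0 := pow_ne_zero _ hq
  have h3 := congrArg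
    (fun a => ((q : ℂ) ^ (2 * finrank F V + 1) * κ q (g * g'))⁻¹ • (a * W0 T (g * g'))) h2
  simp only [smul_mul_assoc, one_mul, smul_smul] at h3
  rw [hc]
  convert h3 using 2 <;> field_simp

theorem W0_inv (g : UG B) :
    W0 T g⁻¹ * W0 T g = ((q : ℂ) ^ (2 * finrank F V + 1) * κ q g) • (1 : A) := by
  rw [← E_W0 h hψ hT, E_apply, W0, Finset.sum_mul]
  refine (Fintype.sum_equiv (act h.herm g).toEquiv _ _ fun y => ?_).symm
  have : act h.herm g⁻¹ (act h.herm g y) = y := by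
    rw [← MulAut.mul_apply, ← map_mul, inv_mul_cancel, map_one, MulAut.one_apply]
  rw [map_one, MulAut.one_apply, mul_assoc, W0_int, MulEquiv.toEquiv_eq_coe, MulEquiv.coe_toEquiv,
    this, map_mul, map_inv, mul_assoc]

theorem Sg_val [Nontrivial A] (g g' : UG B) : Sg h.herm ψ g g' = (q : ℂ) ^ 2 * (-(q : ℂ)) ^
    (finrank F V + finrank F (fixS g) + finrank F (fixS g') + finrank F (fixS (g * g'))) := by
  have hq := q0 h
  obtain ⟨N, hN⟩ := Sg_eq h hψ g g'
  have hi : Sg h.herm ψ g'⁻¹ g⁻¹ = (q : ℂ) ^ 2 * (-(q : ℂ)) ^ N := by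
    rw [Sg_inv h, hN]; simp
  have h1 : W0 T g'⁻¹ * W0 T g⁻¹ * (W0 T g * W0 T g') =
      W0 T g'⁻¹ * (W0 T g⁻¹ * W0 T g) * W0 T g' := by simp only [mul_assoc]
  rw [W0_mul h hψ hT, W0_mul h hψ hT, W0_inv h hψ hT, ← mul_inv_rev, κ_inv, hN, hi] at h1
  simp only [smul_mul_assoc, mul_smul_comm, mul_one, W0_inv h hψ hT, smul_smul] at h1
  have h2 := smul_left_injective ℂ (one_ne_zero (α := A)) h1
  have h3 : (q : ℂ) ^ (2 * N + 4) = (q : ℂ) ^ (2 * (finrank F V + finrank F (fixS g) +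
      finrank F (fixS g') + finrank F (fixS (g * g'))) + 4) := by
    have h4 : (-(q : ℂ)) ^ N * (-(q : ℂ)) ^ N = (q : ℂ) ^ (2 * N) := by
      rw [← pow_add, ← two_mul, pow_mul, neg_sq, ← pow_mul]
    unfold κ at h2
    field_simp at h2
    rw [sq ((-(q : ℂ)) ^ N), h4] at h2
    linear_combination h2
  have h5 := Nat.pow_right_injective h.two_le (show q ^ _ = q ^ _ by exact_mod_cast h3)
  rw [hN]
  congr 2
  omega

end

end W

open W in
theorem weil (h : HS q B) {ψ : AddChar F ℂ} (hψ : Nt σ ψ) {A : Type*} [Ring A] [Algebra ℂ A]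
    (T : Hs h.herm →* A) (hT : Cen T ψ) : ∃ W : UG B →* A, IsW q T W := by
  rcases subsingleton_or_nontrivial A with hA | hA
  · exact ⟨1, fun _ _ => Subsingleton.elim _ _, fun _ _ _ => Subsingleton.elim _ _,
      fun _ => Subsingleton.elim _ _⟩
  have := Fintype.ofFinite (Hs h.herm)
  have hq := q0 h
  have f1 : fixS (1 : UG B) = ⊤ := eq_top_iff.2 fun v _ => mem_fixS.2 rfl
  have s : ∀ n : ℕ, (-1 : ℂ) ^ n * (-1) ^ n = 1 := fun n => by rw [← mul_pow]; simp
  refine ⟨⟨⟨fun g => (om q g / ((q : ℂ) ^ finrank F V * κ q g)) • W0 T g, ?_⟩, fun g g' => ?_⟩,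
    fun g x => ?_, fun g C hC => ?_, fun g => ?_⟩
  · have : W0 T 1 = (q : ℂ) ^ (2 * finrank F V + 1) • (1 : A) := by
      simp [W0, ← cH h, Nat.cast_smul_eq_nsmul]
    rw [this, smul_smul, om, κ, f1, finrank_top, neg_pow (q : ℂ), ← mul_assoc, s]
    convert one_smul ℂ (1 : A)
    field_simp
  · simp only [smul_mul_assoc, mul_smul_comm, W0_mul h hψ hT, smul_smul, Sg_val h hψ hT]
    congr 1
    simp only [om, κ, pow_add, neg_pow (q : ℂ), pow_mul, mul_pow, sq]
    have s1 := s (finrank F V)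
    have s2 := s (finrank F (fixS g))
    have s3 := s (finrank F (fixS g'))
    generalize (-1 : ℂ) ^ finrank F V = a at *
    generalize (-1 : ℂ) ^ finrank F (fixS g) = b at *
    generalize (-1 : ℂ) ^ finrank F (fixS g') = c at *
    field_simp
    linear_combination (-a) * (s1 * (b * b * c * c) + s2 * (c * c) + s3)
  · exact (smul_mul_assoc _ _ _).trans (by rw [W0_int]; exact (mul_smul_comm _ _ _).symm)
  · exact (Commute.sum_right _ _ _ fun x _ => hC _).smul_right _
  · have h1 := E_W0 h hψ hT g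
    have h2 := (E T 1).map_smul (om q g / ((q : ℂ) ^ finrank F V * κ q g)) (W0 T g)
    rw [h1, smul_smul, E_apply] at h2
    rw [finsum_eq_sum_of_fintype]
    refine Eq.trans (Finset.sum_congr rfl fun x _ => ?_) (h2.trans ?_)
    · rw [show act h.herm 1 x = x from rfl]; rfl
    · have : κ q g ≠ 0 := pow_ne_zero _ hq
      congr 1
      field_simp
      ring

end CF.Wu
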