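/-
Representations of the Heisenberg group.
-/
import Cfsg.Agent.Wu.W

set_option autoImplicit false
set_option linter.unusedSectionVars false

open Module CF.Geom CF.Char

namespace CF.Wu

variable {F V : Type*} [Field F] [Fintype F] [AddCommGroup V] [Module F V] [FiniteDimensional F V]
  [Finite V] {σ : F →+* F} {B : V →ₛₗ[σ] V →ₗ[F] F} {q : ℕ}
  {X : Type*} [AddCommGroup X] [Module ℂ X] [FiniteDimensional ℂ X]

theorem heis_char (h : HS q B) {ψ : AddChar F ℂ} (hψ : Nt σ ψ)
    {T : Representation ℂ (Hs h.herm) X} (hT : Cen T ψ) (x : Hs h.herm) :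
    T.character x = finrank ℂ X * t0 ψ x := by
  have := Fintype.ofFinite (Hs h.herm)
  have h1 := congrArg (LinearMap.trace ℂ X) (W.E_one h hψ hT x)
  rw [W.E_apply, map_sum, Finset.sum_congr rfl (g := fun _ => T.character x) fun y _ => by
    rw [← map_mul, ← map_mul]; exact T.char_conj x y, map_smul, LinearMap.trace_one,
    Finset.sum_const, Finset.card_univ, nsmul_eq_mul, smul_eq_mul, mul_assoc] at h1
  rw [mul_left_cancel₀ (Nat.cast_ne_zero.2 Fintype.card_ne_zero) h1, mul_comm]

namespace H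

theorem key (h : HS q B) {ψ : AddChar F ℂ} (hψ : Nt σ ψ) {Y : Type*} [AddCommGroup Y] [Module ℂ Y]
    [FiniteDimensional ℂ Y] {T : Representation ℂ (Hs h.herm) X} (hT : Cen T ψ)
    {T' : Representation ℂ (Hs h.herm) Y} (hT' : Cen T' ψ) :
    finrank ℂ (Representation.IntertwiningMap T T') * q ^ (2 * finrank F V) =
      finrank ℂ X * finrank ℂ Y := by
  classical
  have := Fintype.ofFinite (Hs h.herm)
  have : Invertible (Nat.card (Hs h.herm) : ℂ) := invertibleOfNonzero card_ne_zero_complex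
  have h1 := Representation.card_inv_mul_sum_char_mul_char_eq_finrank T T'
  have e : ∀ x : Hs h.herm, T'.character x * T.character x⁻¹ =
      (finrank ℂ X * finrank ℂ Y : ℂ) * if x.w ∈ (⊥ : Submodule F V) then 1 else 0 := fun x => by
    rw [heis_char h hψ hT, heis_char h hψ hT']
    unfold t0
    by_cases hx : x.w = 0
    · have : ψ x.c * ψ (σ x.c) = 1 := by rw [← AddChar.map_add_eq_mul, x.h, hx]; simp
      simp only [hx, Hs.inv_w, neg_zero, if_true, Hs.inv_c, Submodule.zero_mem]
      linear_combination (finrank ℂ X * finrank ℂ Y : ℂ) * this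
    · simp [hx]
  rw [Finset.sum_congr rfl fun x _ => e x, ← Finset.mul_sum, Finset.sum_boole,
    ← Fintype.card_subtype, ← Nat.card_eq_fintype_card, W.card_over h, W.card_H h, finrank_bot] at h1
  have hq := W.q0 h
  rw [← Nat.cast_inj (R := ℂ)]
  push_cast at h1 ⊢
  rw [← h1]
  field_simp
  ring

end H

theorem heis_ex (h : HS q B) {ψ : AddChar F ℂ} (hψ : Nt σ ψ) :
    ∃ T : Representation ℂ (Hs h.herm) (Fin (q ^ finrank F V) → ℂ), Cen T ψ := by
  have := Fintype.ofFinite (Hs h.herm)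
  have c : Cfsg.IsClassFunction (Hs h.herm) (t0 ψ) := fun x y => by
    by_cases hx : x.w = 0
    · rw [W.central hx, mul_inv_cancel_right]
    · simp [t0, hx]
  obtain ⟨_, ⟨n, T, hi, rfl⟩, h0⟩ : ∃ χ, Cfsg.IsIrrCharacter _ χ ∧ Cfsg.classInner (t0 ψ) χ ≠ 0 := by
    by_contra! h0
    simpa [t0] using congrFun (classFun_eq_zero_of_inner c h0) (1 : Hs h.herm)
  have hT : Cen T ψ := fun z hz => by
    obtain ⟨l, hl⟩ := schur T (T z) fun y => by
      show T z * T y = T y * T z
      rw [← map_mul, ← map_mul, W.central hz]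
    rw [inner_eq_sum_inv (gen_of_irr ⟨n, T, hi, rfl⟩)] at h0
    have e : l * ∑ x, t0 ψ x * T.character x⁻¹ = ψ z.c * ∑ x, t0 ψ x * T.character x⁻¹ := by
      rw [Finset.mul_sum, Finset.mul_sum]
      refine (Fintype.sum_equiv (Equiv.mulLeft z) _ _ fun x => ?_).symm
      have a : T.character x⁻¹ = l * T.character (z * x)⁻¹ := by
        have : T x⁻¹ = l • T (z * x)⁻¹ := by
          rw [← mul_one (T (z * x)⁻¹), ← mul_smul_comm]
          exact (show T x⁻¹ = T (z * x)⁻¹ * T z by rw [← map_mul]; simp).trans (by rw [hl]; rfl)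
        simp only [Representation.character, this, map_smul, smul_eq_mul]
      have b : t0 ψ (z * x) = ψ z.c * t0 ψ x := by
        by_cases hx : x.w = 0 <;> simp [t0, hz, hx, AddChar.map_add_eq_mul]
      rw [Equiv.coe_mulLeft, a, b]; ring
    rw [hl, mul_right_cancel₀ (right_ne_zero_of_mul h0) e]; rfl
  have k := H.key h hψ hT hT
  rw [Representation.IsIrreducible.finrank_intertwiningMap_self, one_mul, mul_comm 2, pow_mul, sq,
    Module.finrank_fin_fun] at k
  obtain rfl := Nat.mul_self_inj.1 k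
  exact ⟨T, hT⟩

theorem heis_dvd (h : HS q B) {ψ : AddChar F ℂ} (hψ : Nt σ ψ)
    {T : Representation ℂ (Hs h.herm) X} (hT : Cen T ψ) : q ^ finrank F V ∣ finrank ℂ X := by
  obtain ⟨T', hT'⟩ := heis_ex h hψ
  have k := H.key h hψ hT hT'
  rw [Module.finrank_fin_fun, two_mul, pow_add, ← mul_assoc] at k
  exact Dvd.intro_left _ (mul_right_cancel₀ (pow_ne_zero _ (by have := h.two_le; omega)) k)

theorem heis_schur (h : HS q B) {ψ : AddChar F ℂ} (hψ : Nt σ ψ)
    {T : Representation ℂ (Hs h.herm) X} (hT : Cen T ψ) (hd : finrank ℂ X = q ^ finrank F V)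
    (C : Module.End ℂ X) (hC : ∀ x, Commute C (T x)) : ∃ c : ℂ, C = c • 1 := by
  have k := H.key h hψ hT hT
  have hq : q ^ finrank F V ≠ 0 := pow_ne_zero _ (by have := h.two_le; omega)
  rw [hd, two_mul, pow_add, mul_eq_right₀ (mul_ne_zero hq hq)] at k
  have : Nontrivial X := Module.nontrivial_of_finrank_pos (R := ℂ) (hd ▸ Nat.pos_of_ne_zero hq)
  have n1 : (⟨1, fun _ => rfl⟩ : Representation.IntertwiningMap T T) ≠ 0 := fun e =>
    one_ne_zero (α := Module.End ℂ X) (congrArg Representation.IntertwiningMap.toLinearMap e)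
  obtain ⟨c, hc⟩ := (finrank_eq_one_iff_of_nonzero' _ n1).1 k ⟨C, fun x => (hC x).eq⟩
  exact ⟨c, (congrArg Representation.IntertwiningMap.toLinearMap hc).symm⟩

end CF.Wu
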