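import Cfsg.Agent.Wu.R

/-! Two opposite unipotent radicals generate the special unitary group. -/

set_option autoImplicit false
set_option linter.unusedSectionVars false

open Module CF.Geom

namespace CF.Wu

variable {F V : Type*} [Field F] [Fintype F] [AddCommGroup V] [Module F V] [FiniteDimensional F V]
  [Finite V] {σ : F →+* F} {B : V →ₛₗ[σ] V →ₗ[F] F} {q : ℕ}
  {X : Type*} [AddCommGroup X] [Module ℂ X] [FiniteDimensional ℂ X]

namespace K

theorem uEich_mem_Qs (hH : IsHerm B) {e w : V} {c : F} (he : B e e = 0) (hw : B e w = 0)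
    (hc : c + σ c = B w w) : uEich hH he hw hc ∈ Qs B e :=
  ⟨by rw [uEich_apply_of_perp _ _ _ _ he, hH.refl hw]; simp,
    fun x hx => ⟨-B w x, by rw [uEich_apply_of_perp _ _ _ _ hx]; module⟩⟩

theorem move (hH : IsHerm B) {S : Subgroup (UG B)} {e f v : V} (he : B e e = 0) (hf : B f f = 0)
    (hef : B e f ≠ 0) (hv : B v v = 0) (hev : B e v ≠ 0) (h1 : Qs B e ≤ S) (h2 : Qs B f ≤ S) :
    Qs B v ≤ S := by
  rw [← Qs_smul f (inv_ne_zero hef)] at h2
  rw [← Qs_smul v (inv_ne_zero hev)]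
  have b1 : B e ((B e f)⁻¹ • f) = 1 := by simp [hef]
  have b2 : B e ((B e v)⁻¹ • v) = 1 := by simp [hev]
  have b3 : B ((B e f)⁻¹ • f) ((B e f)⁻¹ • f) = 0 := by simp [hf]
  have b4 : B ((B e v)⁻¹ • v) ((B e v)⁻¹ • v) = 0 := by simp [hv]
  generalize (B e f)⁻¹ • f = f at h2 b1 b3
  generalize (B e v)⁻¹ • v = v at b2 b4
  have a1 : B e (v - f) = 0 := by simp [b1, b2]
  have a2 : -B v f + σ (-B v f) = B (v - f) (v - f) := by
    simp only [map_neg, map_sub, LinearMap.sub_apply, hH.eq, b3, b4]; ring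
  have ht := h1 (uEich_mem_Qs hH he a1 a2)
  have e1 : (uEich hH he a1 a2).1 f = v := by
    rw [uEich_apply]
    simp only [b1, map_sub, LinearMap.sub_apply, b3]
    module
  generalize uEich hH he a1 a2 = t at ht e1
  intro g hg
  simpa [mul_assoc] using mul_mem (mul_mem ht (h2 ((conj_mem_Qs (g := t) (r := t⁻¹ * g * t)).1
    (by simpa [mul_assoc, e1] using hg)))) (inv_mem ht)

end K

open K

theorem su_le_QQ (h : HS q B) {e f : V} (hp : Hp B e f) : suSub B ≤ Qs B e ⊔ Qs B f := by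
  have hH := h.herm
  have hfe := hH.flip_one hp.hef
  have k1 : ∀ v, B v v = 0 → B e v ≠ 0 → Qs B v ≤ Qs B e ⊔ Qs B f := fun v hv n =>
    move hH hp.he hp.hf (by simp [hp.hef]) hv n le_sup_left le_sup_right
  have k2 : ∀ v, B v v = 0 → B f v ≠ 0 → Qs B v ≤ Qs B e ⊔ Qs B f := fun v hv n =>
    move hH hp.hf hp.he (by simp [hfe]) hv n le_sup_right le_sup_left
  rw [← uEichSub_eq_suSub hH h.nd (e := e) (by rintro rfl; simpa using hp.hef) hp.he,
    Subgroup.closure_le]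
  rintro _ ⟨v, w, c, hv, hw, hc, rfl⟩
  by_cases v0 : v = 0
  · rw [show uEich hH hv hw hc = 1 by ext x; simp [uEich_apply, v0]]
    exact one_mem _
  refine (?_ : Qs B v ≤ _) (uEich_mem_Qs hH hv hw hc)
  by_cases c1 : B e v = 0
  swap
  · exact k1 v hv c1
  by_cases c2 : B f v = 0
  swap
  · exact k2 v hv c2
  obtain ⟨y, hy⟩ := h.exists_one v0
  obtain ⟨z, e', z1, z2⟩ := hH.hyp_decomp hp.he hp.hf hp.hef y
  have z3 : B v z = 1 := by
    rw [e'] at hy
    simpa [hH.refl c1, hH.refl c2] using hy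
  obtain ⟨d, hd⟩ := hH.exists_trace z
  have a1 : B (f + z - d • e) (f + z - d • e) = 0 := by
    simp only [map_add, map_sub, LinearMap.add_apply, LinearMap.sub_apply, LinearMap.map_smulₛₗ,
      LinearMap.smul_apply, smul_eq_mul, RingHom.id_apply, hp.he, hp.hf, hp.hef, hfe, z1, z2,
      hH.refl z1, hH.refl z2]
    linear_combination -hd
  have a2 : B e (f + z - d • e) ≠ 0 := by simp [hp.he, hp.hef, z1]
  exact move hH a1 hp.he (fun k => a2 (hH.refl k)) hv (by simp [c1, c2, hH.flip_one z3])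
    (k1 _ a1 a2) le_sup_left

theorem noR_of (h : HS q B) {e f : V} (hp : Hp B e f) (ρ : Representation ℂ (UG B) X)
    {u : V} (hu : u ∈ Pp B e f) (hu0 : B u u ≠ 0) (h1 : fx ρ (Rf B u) ≤ fx ρ (Rf B e))
    (h2 : ZQ ρ e) (h3 : fx ρ (suSub B) = ⊥) : NoR ρ := by
  have hH := h.herm
  obtain ⟨u1, u2⟩ := mem_Pp.1 hu
  have li : ∀ x y, B x y = 1 → B u x = 0 → LinearIndependent F ![u, x] := fun x y a b =>
    LinearIndependent.pair_iff.2 fun s t k => by
      have s0 : s = 0 := by simpa [b, hu0] using congrArg (B u) k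
      exact ⟨s0, by simpa [s0, show x ≠ 0 by rintro rfl; simp at a] using k⟩
  obtain ⟨g, hg, g1, g2⟩ := h.wp.exists_isom_pair (x := u) (x' := e) (y := u) (y' := f)
    (li _ _ hp.hef (hH.refl u1)) (li _ _ (hH.flip_one hp.hef) (hH.refl u2)) rfl (hp.hf.trans hp.he.symm) ((hH.refl u2).trans (hH.refl u1).symm)
  let n : UG B := ⟨g, hg⟩
  have h4 : fx ρ (Rf B u) = ⊥ := eq_bot_iff.2 fun v hv => h3.le (fx_anti ρ (su_le_QQ h hp) (by
    rw [fx_sup]
    refine ⟨h2 (h1 hv), ?_⟩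
    have := map_mem_fx (g := n) (K := Qs B f) (fun k hk => (conj_mem_Qs (g := n)).1
      (by simpa [mul_assoc, n, g2] using hk)) (h2 (h1 (map_mem_fx (g := n⁻¹) (fun k hk => by
        simpa [n, g1] using (conj_mem_Rf (g := n)).2 hk) hv)))
    simpa using this))
  intro u' hu'
  obtain ⟨g, c, c0, e⟩ := trans_an h hu0 hu'
  rw [← Submodule.finrank_eq_zero, ← Rf_smul u' c0, ← e, finrank_fx_Rf, h4, finrank_bot]

/-- If all `ZQ` hold and `SU` has no fixed vector, a long root subgroup acts non-trivially. -/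
theorem fx_Rf_ne_top (h : HS q B) (ρ : Representation ℂ (UG B) X) [Nontrivial X] {e : V}
    (he : B e e = 0) (he0 : e ≠ 0) (h2 : ZQ ρ e) (h3 : fx ρ (suSub B) = ⊥) :
    fx ρ (Rf B e) ≠ ⊤ := fun k => by
  obtain ⟨f, hp⟩ := exists_Hp h he he0
  obtain ⟨g, hg⟩ := trans_vec h he0 (w := f) (by rintro rfl; simpa using hp.hef) (he.trans hp.hf.symm)
  refine top_ne_bot (α := Submodule ℂ X) (eq_bot_iff.2 fun v _ => h3.le
    (fx_anti ρ (su_le_QQ h hp) ?_))
  rw [fx_sup]
  refine ⟨h2 (k ▸ trivial), ?_⟩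
  simpa using map_mem_fx (g := g) (K := Qs B f) (fun k hk => (conj_mem_Qs (g := g)).1
    (by simpa [mul_assoc, hg] using hk)) (h2 (show ρ g⁻¹ v ∈ _ from k ▸ trivial))

end CF.Wu
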