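import Cfsg.Agent.Wu.R
import Cfsg.Agent.Wu.FO

set_option autoImplicit false
set_option linter.unusedSectionVars false

open Module CF.Geom

namespace CF.Wu

namespace L

section eig

variable {A X : Type*} [AddCommGroup A] [Fintype A] [AddCommGroup X] [Module ℂ X]

/-- The joint eigenspace. -/
def eg (r : AddChar A (Module.End ℂ X)) (χ : AddChar A ℂ) : Submodule ℂ X where
  carrier := {v | ∀ a, r a v = χ a • v}
  add_mem' := fun {a b} ha hb x => by rw [map_add, ha x, hb x, smul_add]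
  zero_mem' := fun x => by simp
  smul_mem' := fun c a ha x => by rw [map_smul, ha x, smul_comm]

theorem mem_eg {r : AddChar A (Module.End ℂ X)} {χ : AddChar A ℂ} {v : X} :
    v ∈ eg r χ ↔ ∀ a, r a v = χ a • v := Iff.rfl

/-- The projection onto the joint eigenspace. -/
noncomputable def pj (r : AddChar A (Module.End ℂ X)) (χ : AddChar A ℂ) : Module.End ℂ X :=
  (Fintype.card A : ℂ)⁻¹ • ∑ a, χ (-a) • r a

theorem pj_apply (r : AddChar A (Module.End ℂ X)) (χ : AddChar A ℂ) (v : X) :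
    pj r χ v = (Fintype.card A : ℂ)⁻¹ • ∑ a, χ (-a) • r a v := by
  simp [pj, LinearMap.sum_apply]

theorem pj_mem (r : AddChar A (Module.End ℂ X)) (χ : AddChar A ℂ) (v : X) : pj r χ v ∈ eg r χ := by
  rw [pj_apply]
  refine Submodule.smul_mem _ _ fun b => ?_
  rw [map_sum, Finset.smul_sum]
  refine Fintype.sum_equiv (Equiv.addLeft b) _ _ fun a => ?_
  rw [Equiv.coe_addLeft, map_smul, ← Module.End.mul_apply, ← r.map_add_eq_mul, smul_smul,
    ← χ.map_add_eq_mul]
  simp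

theorem pj_eq (r : AddChar A (Module.End ℂ X)) (χ : AddChar A ℂ) {v : X} (hv : v ∈ eg r χ) :
    pj r χ v = v := by
  have h0 : (Fintype.card A : ℂ) ≠ 0 := Nat.cast_ne_zero.2 Fintype.card_ne_zero
  rw [pj_apply, Finset.sum_congr rfl fun a _ => show χ (-a) • r a v = v by
    rw [hv a, smul_smul, ← χ.map_add_eq_mul, neg_add_cancel, χ.map_zero_eq_one, one_smul],
    Finset.sum_const, Finset.card_univ, ← Nat.cast_smul_eq_nsmul ℂ, smul_smul,
    inv_mul_cancel₀ h0, one_smul]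

theorem sum_pj (r : AddChar A (Module.End ℂ X)) : ∑ χ, pj r χ = 1 := by
  classical
  have h0 : (Fintype.card A : ℂ) ≠ 0 := Nat.cast_ne_zero.2 Fintype.card_ne_zero
  simp only [pj]
  rw [← Finset.smul_sum, Finset.sum_comm, Finset.sum_eq_single 0]
  · rw [← Finset.sum_smul, AddChar.sum_apply_eq_ite, if_pos neg_zero, smul_smul,
      inv_mul_cancel₀ h0, one_smul, r.map_zero_eq_one]
  · intro a _ ha
    rw [← Finset.sum_smul, AddChar.sum_apply_eq_ite, if_neg (neg_ne_zero.2 ha), zero_smul]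
  · simp

theorem finrank_eq_sum [FiniteDimensional ℂ X] (r : AddChar A (Module.End ℂ X)) :
    finrank ℂ X = ∑ χ, finrank ℂ (eg r χ) := by
  have h1 := congrArg (LinearMap.trace ℂ X) (sum_pj r)
  rw [map_sum, LinearMap.trace_one, Finset.sum_congr rfl fun χ _ =>
    LinearMap.IsProj.trace (p := eg r χ) ⟨pj_mem r χ, fun _ => pj_eq r χ⟩] at h1
  exact_mod_cast h1.symm

end eig

variable {F V : Type*} [Field F] [Fintype F] [AddCommGroup V] [Module F V] [FiniteDimensional F V]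
  [Finite V] {σ : F →+* F} {B : V →ₛₗ[σ] V →ₗ[F] F} {q : ℕ}
  {X : Type*} [AddCommGroup X] [Module ℂ X] [FiniteDimensional ℂ X]

/-- The skew elements. -/
def Sk (σ : F →+* F) : AddSubgroup F where
  carrier := {s | σ s = -s}
  add_mem' := fun {a b} (ha : σ a = -a) (hb : σ b = -b) => by
    show σ (a + b) = _
    rw [map_add, ha, hb, neg_add]
  zero_mem' := by simp
  neg_mem' := fun {a} (ha : σ a = -a) => by
    show σ (-a) = _
    rw [map_neg, ha]

noncomputable instance (σ : F →+* F) : Fintype (Sk σ) := Fintype.ofFinite _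

theorem card_Sk (h : HS q B) : Fintype.card (Sk σ) = q := by
  rw [← Nat.card_eq_fintype_card, ← card_skew_eq h.card]
  exact Nat.card_congr (Equiv.subtypeEquivRight fun x => by
    show σ x = -x ↔ _
    rw [h.frob])

/-- Restriction to the skew elements. -/
def rk (σ : F →+* F) (ψ : AddChar F ℂ) : AddChar (Sk σ) ℂ := ψ.compAddMonoidHom (Sk σ).subtype

theorem rk_apply (ψ : AddChar F ℂ) (s : Sk σ) : rk σ ψ s = ψ s := rfl

theorem nt_iff {ψ : AddChar F ℂ} : Nt σ ψ ↔ rk σ ψ ≠ 0 := by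
  rw [Ne, DFunLike.ext_iff, not_forall]
  exact ⟨fun ⟨s, hs, h⟩ => ⟨⟨s, hs⟩, h⟩, fun ⟨s, h⟩ => ⟨s.1, s.2, h⟩⟩

theorem exists_shift {ψ : AddChar F ℂ} (hψ : Nt σ ψ) (χ : AddChar (Sk σ) ℂ) :
    ∃ c, σ c = c ∧ rk σ (ψ.mulShift c) = χ := by
  obtain ⟨s₀, hs, h1⟩ := hψ
  have h0 : s₀ ≠ 0 := by rintro rfl; exact h1 ψ.map_zero_eq_one
  have hb : Function.Bijective fun t : Sk σ => rk σ (ψ.mulShift (t / s₀)) := by
    rw [Fintype.bijective_iff_injective_and_card, AddChar.card_eq]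
    refine ⟨fun t t' e => ?_, rfl⟩
    by_contra hne
    have hd : (t : F) - t' ≠ 0 := sub_ne_zero.2 fun e => hne (Subtype.ext e)
    have ht : σ t = -t := t.2
    have ht' : σ t' = -t' := t'.2
    have := DFunLike.congr_fun e ⟨s₀ * s₀ / (t - t'), by
      show σ _ = _
      rw [map_div₀, map_mul, map_sub, hs, ht, ht', ← neg_sub', neg_mul_neg, div_neg]⟩
    simp only [rk_apply, AddChar.mulShift_apply] at this
    apply h1
    have e2 : s₀ = t / s₀ * (s₀ * s₀ / (t - t')) + -(t' / s₀ * (s₀ * s₀ / (t - t'))) := by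
      field_simp; ring
    rw [e2, ψ.map_add_eq_mul, this, ← ψ.map_add_eq_mul, add_neg_cancel, ψ.map_zero_eq_one]
  obtain ⟨t, ht⟩ := hb.2 χ
  exact ⟨t / s₀, by rw [map_div₀, show σ t = -t from t.2, hs, neg_div_neg_eq], ht⟩

/-- The central elements of the Heisenberg group. -/
def zt (hH : IsHerm B) (s : Sk σ) : Hs hH := ⟨0, s, by rw [show σ s = -s from s.2]; simp⟩

theorem eq_zt {hH : IsHerm B} {x : Hs hH} (hx : x.w = 0) : ∃ s, x = zt hH s :=
  ⟨⟨x.c, by
    have := x.h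
    rw [hx, map_zero] at this
    exact eq_neg_of_add_eq_zero_right this⟩, Hs.ext hx rfl⟩

variable {e f : V}

/-- The long root subgroup in the representation. -/
def rr (hH : IsHerm B) (hp : Hp B e f) (ρ : Representation ℂ (UG B) X) :
    AddChar (Sk σ) (Module.End ℂ X) where
  toFun s := ρ (iota hH hp (zt _ s))
  map_zero_eq_one' := by
    rw [show zt (hH.restrict (Pp B e f)) 0 = 1 from rfl, map_one, map_one]
  map_add_eq_mul' s t := by
    rw [← map_mul, ← map_mul]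
    congr 2
    exact Hs.ext (by simp [zt]) (by simp [zt])

theorem rr_apply (hH : IsHerm B) (hp : Hp B e f) (ρ : Representation ℂ (UG B) X) (s : Sk σ) :
    rr hH hp ρ s = ρ (iota hH hp (zt _ s)) := rfl

theorem Xp_eq (hH : IsHerm B) (hp : Hp B e f) (ρ : Representation ℂ (UG B) X) (ψ : AddChar F ℂ) :
    Xp hH hp ρ ψ = eg (rr hH hp ρ) (rk σ ψ) := by
  ext v
  refine ⟨fun hv s => hv (zt _ s) rfl, fun hv x hx => ?_⟩
  obtain ⟨s, rfl⟩ := eq_zt hx
  exact hv s

theorem fx_eq (h : HS q B) (hp : Hp B e f) (ρ : Representation ℂ (UG B) X) :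
    fx ρ (Rf B e) = eg (rr h.herm hp ρ) 0 := by
  ext v
  constructor
  · intro hv s
    rw [AddChar.zero_apply, one_smul]
    exact hv _ ((iota_mem_Rf h hp).2 rfl)
  · intro hv g hg
    obtain ⟨x, rfl⟩ : g ∈ (iota h.herm hp).range := range_iota h hp ▸ Rf_le_Qs hp.he hg
    obtain ⟨s, rfl⟩ := eq_zt ((iota_mem_Rf h hp).1 hg)
    exact (hv s).trans (one_smul _ _)

theorem lev_comm (h : HS q B) (hp : Hp B e f) (a : UG (rs B (Pp B e f))) (s : Sk σ) :
    lev h hp a * iota h.herm hp (zt _ s) = iota h.herm hp (zt _ s) * lev h hp a := by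
  rw [lev_mul_iota]
  congr 2
  exact Hs.ext (by simp [zt]) rfl

theorem exists_dil (h : HS q B) (hp : Hp B e f) (ρ : Representation ℂ (UG B) X)
    {ψ ψ' : AddChar F ℂ} (hψ : Nt σ ψ) (hψ' : Nt σ ψ') :
    ∃ d : UG B, (∀ a, lev h hp a * d = d * lev h hp a) ∧
      ∀ v ∈ Xp h.herm hp ρ ψ', ρ d v ∈ Xp h.herm hp ρ ψ := by
  obtain ⟨c, hc, e1⟩ := exists_shift hψ' (rk σ ψ)
  obtain ⟨t, rfl⟩ := exists_norm_eq h.herm.ne_id h.herm.invol hc
  have ht : t ≠ 0 := by
    rintro rfl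
    refine nt_iff.1 hψ (e1 ▸ DFunLike.ext _ _ fun s => ?_)
    simp [rk_apply]
  have hfe := h.herm.flip_one hp.hef
  let d := uDil h.herm hp.he hp.hf hp.hef (Units.mk0 t ht)
  have de : d.1 e = t • e := uDil_left ..
  have df : d.1 f = (σ t)⁻¹ • f := uDil_right ..
  have dp : ∀ x, B e x = 0 → B f x = 0 → d.1 x = x := fun x => uDil_of_perp _ _ _ _ _
  have k : ∀ a, lev h hp a * d = d * lev h hp a := fun a => by
    refine h.herm.ext_hyp hp.he hp.hf hp.hef ?_ ?_ fun x x1 x2 => ?_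
    · show (lev h hp a).1 (d.1 e) = d.1 ((lev h hp a).1 e)
      rw [lev_e, de, map_smul, lev_e]
    · show (lev h hp a).1 (d.1 f) = d.1 ((lev h hp a).1 f)
      rw [lev_f, df, map_smul, lev_f]
    · show (lev h hp a).1 (d.1 x) = d.1 ((lev h hp a).1 x)
      have := ext_mem h (h.disj hp) a ⟨x, mem_Pp.2 ⟨x1, x2⟩⟩
      rw [dp x x1 x2, show (lev h hp a).1 x = _ from this,
        dp _ (mem_Pp.1 (Subtype.mem _)).1 (mem_Pp.1 (Subtype.mem _)).2]
  refine ⟨d⁻¹, fun a => ?_, fun v hv x hx => ?_⟩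
  · rw [mul_inv_eq_iff_eq_mul, mul_assoc, k, inv_mul_cancel_left]
  · obtain ⟨s, rfl⟩ := eq_zt hx
    have hσ : σ t ≠ 0 := (map_ne_zero σ).2 ht
    let s' : Sk σ := ⟨σ t * t * s, by
      show σ _ = _
      rw [map_mul, hc, show σ s = -s from s.2, mul_neg]⟩
    have k2 : d * iota h.herm hp (zt _ s) = iota h.herm hp (zt _ s') * d := by
      refine h.herm.ext_hyp hp.he hp.hf hp.hef ?_ ?_ fun x x1 x2 => ?_
      · show d.1 ((iota h.herm hp _).1 e) = (iota h.herm hp _).1 (d.1 e)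
        rw [de, map_smul]
        simp [iota_apply, zt, hp.he, de]
      · show d.1 ((iota h.herm hp _).1 f) = (iota h.herm hp _).1 (d.1 f)
        rw [df, map_smul]
        simp only [iota_apply, zt, hp.hef, ZeroMemClass.coe_zero, smul_zero, add_zero, map_zero,
          LinearMap.zero_apply, zero_smul, sub_zero, mul_one, map_sub, map_smul, de, df, s']
        rw [smul_sub, smul_smul, smul_smul]
        congr 2
        field_simp
      · show d.1 ((iota h.herm hp _).1 x) = (iota h.herm hp _).1 (d.1 x)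
        rw [dp x x1 x2]
        simp [iota_apply, zt, x1, dp x x1 x2]
    have k3 : iota h.herm hp (zt _ s) * d⁻¹ = d⁻¹ * iota h.herm hp (zt _ s') := by
      rw [mul_inv_eq_iff_eq_mul, mul_assoc, ← k2, inv_mul_cancel_left]
    rw [← Module.End.mul_apply, ← map_mul, k3, map_mul, Module.End.mul_apply, hv _ rfl, map_smul]
    congr 1
    exact DFunLike.congr_fun e1 s

theorem rho_inj {G : Type*} [Group G] (ρ : Representation ℂ G X) (g : G) :
    Function.Injective (ρ g) := fun a b e => by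
  have := congrArg (ρ g⁻¹) e
  simpa only [← Module.End.mul_apply, ← map_mul, inv_mul_cancel, map_one,
    Module.End.one_apply] using this

theorem finrank_Xp (h : HS q B) (hp : Hp B e f) (ρ : Representation ℂ (UG B) X)
    {ψ ψ' : AddChar F ℂ} (hψ : Nt σ ψ) (hψ' : Nt σ ψ') :
    finrank ℂ (Xp h.herm hp ρ ψ') ≤ finrank ℂ (Xp h.herm hp ρ ψ) := by
  obtain ⟨d, -, hd⟩ := exists_dil h hp ρ hψ hψ'
  exact LinearMap.finrank_le_finrank_of_injective (f := (ρ d).restrict hd) fun a b e =>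
    Subtype.ext (rho_inj ρ d (congrArg Subtype.val e))

theorem free_lev (h : HS q B) (hp : Hp B e f) {S : Subgroup (UG (rs B (Pp B e f)))}
    {t : UG (rs B (Pp B e f))} (hS : Sing q S t) {s : UG (rs B (Pp B e f))} (hs : s ∈ S)
    (h1 : s ≠ 1) : ∀ x ∈ Qs B e, x⁻¹ * lev h hp s * x * (lev h hp s)⁻¹ ∈ Rf B e → x ∈ Rf B e := by
  intro x hx hm
  obtain ⟨y, rfl⟩ : x ∈ (iota h.herm hp).range := range_iota h hp ▸ hx
  rw [mul_assoc _ (lev h hp s), lev_mul_iota, mul_assoc, mul_inv_cancel_right, ← map_inv,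
    ← map_mul, iota_mem_Rf h hp, Hs.mul_w, Hs.inv_w, act_w, neg_add_eq_zero] at hm
  exact (iota_mem_Rf h hp).2 (hS.free s hs h1 _ hm.symm)

end L

open L

variable {F V : Type*} [Field F] [Fintype F] [AddCommGroup V] [Module F V] [FiniteDimensional F V]
  [Finite V] {σ : F →+* F} {B : V →ₛₗ[σ] V →ₗ[F] F} {q : ℕ}
  {X : Type*} [AddCommGroup X] [Module ℂ X] [FiniteDimensional ℂ X]

theorem fx_le_of_Xp (h : HS q B) {e f : V} (hp : Hp B e f) (ρ : Representation ℂ (UG B) X)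
    (K : Subgroup (UG (rs B (Pp B e f)))) (hK : ∀ ψ, Nt σ ψ → fx (ap h hp ρ ψ) K = ⊥) :
    fx ρ (K.map (lev h hp)) ≤ fx ρ (Rf B e) := by
  classical
  intro v hv
  obtain ⟨ψ₀, h0⟩ := exists_Nt h
  have h1 := LinearMap.congr_fun (sum_pj (rr h.herm hp ρ)) v
  rw [LinearMap.sum_apply, Finset.sum_eq_single 0 ?_ (by simp), Module.End.one_apply] at h1
  · rw [fx_eq h hp, ← h1]
    exact pj_mem _ _ _
  · intro χ _ hχ
    obtain ⟨c, -, rfl⟩ := exists_shift h0 χ
    have hm : pj (rr h.herm hp ρ) (rk σ (ψ₀.mulShift c)) v ∈ Xp h.herm hp ρ (ψ₀.mulShift c) := by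
      rw [Xp_eq]; exact pj_mem _ _ _
    have h2 : (⟨_, hm⟩ : Xp h.herm hp ρ (ψ₀.mulShift c)) ∈ fx (ap h hp ρ _) K := fun a ha => by
      refine Subtype.ext ?_
      show ρ (lev h hp a) (pj _ _ v) = pj _ _ v
      rw [pj_apply, map_smul, map_sum]
      congr 1
      refine Finset.sum_congr rfl fun s _ => ?_
      rw [map_smul, rr_apply, ← Module.End.mul_apply, ← map_mul, lev_comm, map_mul,
        Module.End.mul_apply, hv _ ⟨a, ha, rfl⟩]
    rw [hK _ (nt_iff.2 hχ)] at h2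
    exact congrArg Subtype.val h2

theorem fx_ap_bot (h : HS q B) {e f : V} (hp : Hp B e f) (ρ : Representation ℂ (UG B) X)
    (K : Subgroup (UG (rs B (Pp B e f)))) {ψ ψ' : AddChar F ℂ} (hψ : Nt σ ψ) (hψ' : Nt σ ψ')
    (hK : fx (ap h hp ρ ψ) K = ⊥) : fx (ap h hp ρ ψ') K = ⊥ := by
  obtain ⟨d, h1, h2⟩ := exists_dil h hp ρ hψ hψ'
  rw [eq_bot_iff]
  intro v hv
  have h3 : (⟨_, h2 v v.2⟩ : Xp h.herm hp ρ ψ) ∈ fx (ap h hp ρ ψ) K := fun a ha => by
    refine Subtype.ext ?_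
    show ρ (lev h hp a) (ρ d v) = ρ d v
    rw [← Module.End.mul_apply, ← map_mul, h1, map_mul, Module.End.mul_apply]
    exact congrArg (fun w : Xp h.herm hp ρ ψ' => ρ d w) (hv a ha)
  rw [hK] at h3
  exact Subtype.ext (rho_inj ρ d ((congrArg Subtype.val h3).trans (map_zero _).symm))

theorem finrank_eq_Xp (h : HS q B) {e f : V} (hp : Hp B e f) (ρ : Representation ℂ (UG B) X)
    {ψ : AddChar F ℂ} (hψ : Nt σ ψ) :
    finrank ℂ X = finrank ℂ (fx ρ (Rf B e)) + (q - 1) * finrank ℂ (Xp h.herm hp ρ ψ) := by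
  classical
  rw [finrank_eq_sum (rr h.herm hp ρ), ← Finset.add_sum_erase _ _ (Finset.mem_univ 0), fx_eq h hp,
    Finset.sum_congr rfl (g := fun _ => finrank ℂ (Xp h.herm hp ρ ψ)) ?_, Finset.sum_const,
    Finset.card_erase_of_mem (Finset.mem_univ _), Finset.card_univ, AddChar.card_eq, card_Sk h,
    smul_eq_mul]
  intro χ hχ
  obtain ⟨c, -, rfl⟩ := exists_shift hψ χ
  have h1 := nt_iff.2 (Finset.ne_of_mem_erase hχ)
  rw [← Xp_eq]
  exact le_antisymm (finrank_Xp h hp ρ hψ h1) (finrank_Xp h hp ρ h1 hψ)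

theorem zq_sing (h : HS q B) {e f : V} (hp : Hp B e f) (ρ : Representation ℂ (UG B) X)
    {S : Subgroup (UG (rs B (Pp B e f)))} {t : UG (rs B (Pp B e f))} (hS : Sing q S t)
    (h0 : fx ρ (S.map (lev h hp)) = ⊥) : ZQ ρ e := by
  refine fo1 ρ (A := S.map (lev h hp)) (Rf_le_Qs hp.he)
    (fun g hg => mem_normalizer_Rf (c := 1) (by rw [hg.1, one_smul])) ?_ ?_ ?_
    (by rw [h0, inf_bot_eq])
  · rintro _ ⟨s, -, rfl⟩
    exact mem_normalizer_Rf (c := 1) (by rw [lev_e h hp, one_smul])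
  · rintro _ ⟨s, -, rfl⟩
    exact mem_normalizer_Qs (c := 1) (by rw [lev_e h hp, one_smul])
  · rintro _ ⟨s, hs, rfl⟩
    by_cases h1 : s = 1
    · exact Or.inl fun v _ => by simp [h1]
    · exact Or.inr (free_lev h hp hS hs h1)

theorem zq_dvd (h : HS q B) {e f : V} (hp : Hp B e f) (ρ : Representation ℂ (UG B) X)
    {S : Subgroup (UG (rs B (Pp B e f)))} {t : UG (rs B (Pp B e f))} (hS : Sing q S t) :
    ∃ k, finrank ℂ (fx ρ (Rf B e)) =
      finrank ℂ (fx ρ (Qs B e)) + (q ^ finrank F (Pp B e f) + 1) * k := by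
  rw [← hS.card, ← Subgroup.card_map_of_injective (K := S) (ext_injective h (h.disj hp))]
  refine fo2 ρ (Rf_le_Qs hp.he)
    (fun g hg => mem_normalizer_Rf (c := 1) (by rw [hg.1, one_smul])) ?_ ?_ ?_
  · rintro _ ⟨s, -, rfl⟩
    exact mem_normalizer_Rf (c := 1) (by rw [lev_e h hp, one_smul])
  · rintro _ ⟨s, -, rfl⟩
    exact mem_normalizer_Qs (c := 1) (by rw [lev_e h hp, one_smul])
  · rintro _ ⟨s, hs, rfl⟩ h1
    exact free_lev h hp hS hs fun e => h1 (by rw [e, map_one])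

end CF.Wu
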