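import Cfsg.Agent.Wu.D

set_option autoImplicit false
set_option linter.unusedSectionVars false

open Module CF.Geom

namespace CF.Wu

variable {F V : Type*} [Field F] [Fintype F] [AddCommGroup V] [Module F V] [FiniteDimensional F V]
  [Finite V] {σ : F →+* F} {B : V →ₛₗ[σ] V →ₗ[F] F} {q : ℕ}
  {X : Type*} [AddCommGroup X] [Module ℂ X] [FiniteDimensional ℂ X]

theorem h90 (hσ : σ ≠ RingHom.id F) (h2 : ∀ a, σ (σ a) = a) {l : F} (hl : σ l * l = 1) :
    ∃ c, c ≠ 0 ∧ l * σ c = c := by
  obtain ⟨a, ha⟩ : ∃ a : F, σ a ≠ a := by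
    by_contra hc; push Not at hc; exact hσ (RingHom.ext hc)
  have k : ∀ c, l * σ (c + l * σ c) = c + l * σ c := fun c => by
    rw [map_add, map_mul, h2]; linear_combination c * hl
  by_cases h1 : 1 + l * σ 1 = 0
  · refine ⟨_, fun h => ha ?_, k a⟩
    rw [map_one] at h1
    linear_combination σ a * h1 - h
  · exact ⟨_, h1, k 1⟩

theorem S1.model (h : HS q B) (hodd : Odd (finrank F V)) : ∃ (K : Type) (_ : Field K)
    (_ : Fintype K) (_ : Algebra F K) (τ : K →+* K) (e : K ≃ₗ[F] V),
    Fintype.card K = (q ^ finrank F V) ^ 2 ∧ (∀ x, τ x = x ^ q ^ finrank F V) ∧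
    (∀ c, τ (algebraMap F K c) = algebraMap F K (σ c)) ∧ (∀ x, τ (τ x) = x) ∧
    ∀ x y, B (e x) (e y) = Algebra.trace F K (τ x * y) := by
  obtain ⟨p, hp, n, hpp, -⟩ := FiniteField.card' F
  have : Fact p.Prime := ⟨hpp⟩
  have : NeZero (finrank F V) := ⟨hodd.pos.ne'⟩
  let K := FiniteField.Extension F p (finrank F V)
  have := Fintype.ofFinite K
  have hK : Fintype.card K = (q ^ finrank F V) ^ 2 := by
    rw [← Nat.card_eq_fintype_card, FiniteField.natCard_extension, Nat.card_eq_fintype_card, h.card,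
      ← pow_mul, ← pow_mul, mul_comm]
  obtain ⟨τ, t1, -, t2⟩ := exists_conj hK
  have t3 : ∀ c, τ (algebraMap F K c) = algebraMap F K (σ c) := fun c => by
    obtain ⟨k, hk⟩ := hodd
    rw [t1, ← map_pow]
    congr 1
    rw [hk, pow_succ, pow_mul, pow_mul, ← h.card, FiniteField.pow_card_pow, h.frob]
  let B' : K →ₛₗ[σ] K →ₗ[F] F := LinearMap.mk₂'ₛₗ σ (RingHom.id F)
    (fun x y => Algebra.trace F K (τ x * y)) (fun _ _ _ => by simp [add_mul])
    (fun c x y => by
      rw [Algebra.smul_def, map_mul τ, t3, mul_assoc, ← Algebra.smul_def, map_smul])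
    (fun _ _ _ => by simp [mul_add]) (fun c x y => by simp)
  have s1 : B'.IsSymm := ⟨fun x y => (algebraMap F K).injective (by
    show algebraMap F K (σ (Algebra.trace F K (τ x * y))) =
      algebraMap F K (Algebra.trace F K (τ y * x))
    rw [← t3, FiniteField.algebraMap_trace_eq_sum_pow, FiniteField.algebraMap_trace_eq_sum_pow,
      map_sum]
    refine Finset.sum_congr rfl fun i _ => ?_
    rw [map_pow, map_mul, t2, mul_comm])⟩
  have s2 : ∀ x, (∀ y, B' x y = 0) → x = 0 := fun x hx =>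
    τ.injective (by rw [map_zero]; exact (traceForm_nondegenerate F K).1 _ hx)
  obtain ⟨e, he⟩ := exists_equiv_herm h.herm.ne_id h.herm.invol s1
    ⟨s2, fun y hy => s2 y fun x => by rw [← s1.eq, hy, map_zero]⟩ h.herm.symm h.nd
    (FiniteField.finrank_extension F p _)
  exact ⟨K, inferInstance, this, inferInstance, τ, e, hK, t1, t3, t2, he⟩

theorem singer0 (h : HS q B) (hodd : Odd (finrank F V)) : ∃ (S : Subgroup (UG B)) (t : UG B),
    Nat.card S = q ^ finrank F V + 1 ∧ (∀ s ∈ S, s ≠ 1 → ∀ v, s.1 v = v → v = 0) ∧ t ∈ S ∧ t ≠ 1 ∧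
    Subgroup.centralizer {t} ≤ S ∧
    (∀ (v : V) (c : F), v ≠ 0 → t.1 v = c • v → finrank F V = 1) ∧
    (∀ l : normOne σ, ∃ s ∈ S, udet h.nd s = l) ∧
    (q = 2 → finrank F V = 3 → ∃ (b : V) (ζ : F), ζ ≠ 1 ∧ B b b = 1 ∧ B b (t.1 b) = 0 ∧
      B b (t.1 (t.1 b)) = 0 ∧ t.1 (t.1 (t.1 b)) = ζ • b) := by
  obtain ⟨K, _, _, _, τ, e, hK, t1, t3, t2, he⟩ := S1.model h hodd
  have hm : finrank F K = finrank F V := e.finrank_eq
  have hq := h.two_le
  let μ : normOne τ →* UG B := MonoidHom.mk' (fun a =>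
    ⟨e.symm.trans ((Units.mulLeftLinearEquiv F K a.1).trans e), mem_UG.2 fun u v => by
      obtain ⟨x, rfl⟩ := e.surjective u
      obtain ⟨y, rfl⟩ := e.surjective v
      simp only [LinearEquiv.trans_apply, LinearEquiv.symm_apply_apply, he,
        Units.mulLeftLinearEquiv_apply, map_mul]
      congr 1
      linear_combination τ x * y * mem_normOne.1 a.2⟩) fun a b => by ext; simp [mul_assoc]
  have hμ : ∀ a x, (μ a).1 (e x) = e (((a : Kˣ) : K) * x) := fun a x => by simp [μ]
  have inj : Function.Injective μ := fun a b k => Subtype.ext (Units.ext (by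
    have := hμ a 1
    rw [k, hμ] at this
    simpa using this.symm))
  have det : ∀ a, ((udet h.nd (μ a) : Fˣ) : F) = Algebra.norm F ((a : Kˣ) : K) := fun a => by
    rw [udet_coe, Algebra.norm_apply, ← LinearMap.det_conj _ e]
    congr 1
  obtain ⟨a₀, ha₀⟩ := IsCyclic.exists_generator (α := normOne τ)
  have o1 : orderOf ((a₀ : Kˣ) : K) = q ^ finrank F V + 1 := by
    rw [orderOf_units, Subgroup.orderOf_coe, orderOf_eq_card_of_forall_mem_zpowers ha₀,
      card_normOne hK t1]
  have top : IntermediateField.adjoin F {((a₀ : Kˣ) : K)} = ⊤ := by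
    set L := IntermediateField.adjoin F {((a₀ : Kˣ) : K)}
    have k1 := Module.finrank_mul_finrank F L K
    have := Fintype.ofFinite L
    have k2 := congrArg Subtype.val (FiniteField.pow_card_sub_one_eq_one
      (⟨_, IntermediateField.mem_adjoin_simple_self F _⟩ : L)
      fun k => a₀.1.ne_zero (congrArg Subtype.val k))
    have k3 := Nat.le_of_dvd (Nat.sub_pos_of_lt Fintype.one_lt_card) (orderOf_dvd_of_pow_eq_one k2)
    rw [o1, Module.card_eq_pow_finrank (K := F), h.card, ← pow_mul] at k3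
    have k4 : finrank F V < 2 * finrank F L :=
      (Nat.pow_lt_pow_iff_right (a := q) (by omega)).1 (by omega)
    rw [← hm, ← k1, mul_comm] at k4
    have k5 := Nat.lt_of_mul_lt_mul_right k4
    have k6 : 0 < finrank L K := finrank_pos
    exact IntermediateField.finrank_eq_one_iff_eq_top.1 (by omega)
  refine ⟨μ.range, μ a₀, ?_, ?_, ⟨_, rfl⟩, fun k => ?_, fun g hg => ?_, fun v c hv k => ?_,
    fun l => ?_, fun h2 h3 => ?_⟩
  · rw [← card_normOne hK t1]
    exact (Nat.card_congr (MonoidHom.ofInjective inj).toEquiv).symm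
  · rintro _ ⟨a, rfl⟩ ha v hv
    obtain ⟨x, rfl⟩ := e.surjective v
    rw [hμ, e.injective.eq_iff] at hv
    by_contra h0
    refine ha ?_
    rw [show a = 1 from Subtype.ext (Units.ext (mul_right_cancel₀
      (fun k => h0 (by rw [k, map_zero])) (hv.trans (one_mul x).symm))), map_one]
  · rw [inj (k.trans (map_one μ).symm)] at o1
    have := pow_pos (show 0 < q by omega) (finrank F V)
    simp at o1; omega
  · let g' : K →ₗ[F] K := e.symm.toLinearMap ∘ₗ (g.1 : V →ₗ[F] V) ∘ₗ e.toLinearMap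
    have e1 : ∀ x, g.1 (e x) = e (g' x) := fun x => by simp [g']
    have h1 : ∀ a ∈ Algebra.adjoin F {((a₀ : Kˣ) : K)}, ∀ x, g' (a * x) = a * g' x := fun a ha => by
      induction ha using Algebra.adjoin_induction with
      | mem a ha =>
        intro x
        obtain rfl := Set.mem_singleton_iff.1 ha
        apply e.injective
        rw [← e1, ← hμ, ← hμ, ← e1]
        exact congrArg (fun z : UG B => z.1 (e x)) (Subgroup.mem_centralizer_singleton_iff.1 hg)
      | algebraMap c => intro x; simp [← Algebra.smul_def]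
      | add a b _ _ ha hb => intro x; simp [add_mul, ha, hb]
      | mul a b _ _ ha hb => intro x; simp [mul_assoc, ha, hb]
    rw [← IntermediateField.adjoin_toSubalgebra_of_isAlgebraic fun x _ =>
      Algebra.IsAlgebraic.isAlgebraic x, top] at h1
    have e2 : ∀ x, g' x = g' 1 * x := fun x => by simpa [mul_comm] using h1 x trivial 1
    have e3 : τ (g' 1) * g' 1 = 1 := sub_eq_zero.1 ((traceForm_nondegenerate F K).1 _ fun y => by
      have := UG_map g (e 1) (e y)
      rw [e1, e1, he, he, e2 y, map_one τ] at this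
      rw [Algebra.traceForm_apply, sub_mul, map_sub, mul_assoc, this, sub_self])
    refine ⟨⟨Units.mk0 _ (right_ne_zero_of_mul_eq_one e3), e3⟩,
      Subtype.ext (LinearEquiv.ext fun v => ?_)⟩
    obtain ⟨x, rfl⟩ := e.surjective v
    rw [hμ, e1, e2 x]; rfl
  · obtain ⟨x, rfl⟩ := e.surjective v
    rw [hμ, ← map_smul, e.injective.eq_iff, Algebra.smul_def] at k
    have := mul_right_cancel₀ (fun k => hv (by rw [k, map_zero])) k
    rw [IntermediateField.adjoin_simple_eq_bot_iff.2 ⟨c, this.symm⟩] at top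
    rw [← hm, ← IntermediateField.finrank_top', ← top, IntermediateField.finrank_bot]
  · obtain ⟨c, hc, k⟩ := h90 h.herm.ne_id h.herm.invol (mem_normOne.1 l.2)
    obtain ⟨b, rfl⟩ := FiniteField.norm_surjective F K c
    have hb : b ≠ 0 := Algebra.norm_ne_zero_iff.1 hc
    have hb' : τ b ≠ 0 := (map_ne_zero τ).2 hb
    have k1 : Algebra.norm F (τ b) = σ (Algebra.norm F b) := (algebraMap F K).injective (by
      rw [← t3, FiniteField.algebraMap_norm_eq_pow, FiniteField.algebraMap_norm_eq_pow, map_pow])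
    refine ⟨_, ⟨⟨Units.mk0 (b / τ b) (div_ne_zero hb hb'), mem_normOne.2 (by
      rw [Units.val_mk0, map_div₀, t2]; field_simp)⟩, rfl⟩, Subtype.ext (Units.ext ?_)⟩
    rw [det]
    apply mul_right_cancel₀ ((map_ne_zero σ).2 hc)
    rw [k, ← k1, ← map_mul]
    exact congrArg _ (div_mul_cancel₀ _ hb')
  · set a : K := ((a₀ : Kˣ) : K)
    have c1 : Nat.card F = 4 := by rw [Nat.card_eq_fintype_card, h.card, h2]; rfl
    rw [h2, h3] at o1
    have a9 : a ^ 9 = 1 := by simpa [o1] using pow_orderOf_eq_one a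
    have a3 : a ^ 3 ≠ 1 := fun k => by
      have := orderOf_dvd_of_pow_eq_one k
      rw [o1] at this; exact absurd this (by decide)
    have a6 : 1 + a ^ 3 + a ^ 6 = 0 := (mul_eq_zero.1 (show (a ^ 3 - 1) * (1 + a ^ 3 + a ^ 6) = 0 by
      linear_combination a9)).resolve_left (sub_ne_zero.2 a3)
    have n1 : algebraMap F K (Algebra.norm F a) = a ^ 3 := by
      rw [FiniteField.algebraMap_norm_eq_pow_sum, hm, h3, c1]
      simp only [Finset.sum_range_succ, Finset.sum_range_zero]
      norm_num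
      linear_combination (a ^ 12 + a ^ 3) * a9
    have tr : ∀ x : K, algebraMap F K (Algebra.trace F K x) = x + x ^ 4 + x ^ 16 := fun x => by
      rw [FiniteField.algebraMap_trace_eq_sum_pow, hm, h3, c1]
      simp [Finset.sum_range_succ]
    have two : (2 : K) = 0 := by
      have k := FiniteField.cast_card_eq_zero K
      rw [hK, h2, h3] at k
      exact pow_eq_zero_iff (n := 6) (by norm_num) |>.1 (by norm_num at k ⊢; exact k)
    refine ⟨e 1, Algebra.norm F a, fun k => a3 (by rw [← n1, k, map_one]), ?_, ?_, ?_, ?_⟩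
    · apply (algebraMap F K).injective
      rw [he, tr, map_one, map_one]; linear_combination two
    · apply (algebraMap F K).injective
      rw [hμ, he, tr, map_one, map_zero]
      show 1 * (a * 1) + (1 * (a * 1)) ^ 4 + (1 * (a * 1)) ^ 16 = 0
      linear_combination a * a6 + a ^ 7 * a9
    · apply (algebraMap F K).injective
      rw [hμ, hμ, he, tr, map_one, map_zero]
      show 1 * (a * (a * 1)) + (1 * (a * (a * 1))) ^ 4 + (1 * (a * (a * 1))) ^ 16 = 0
      linear_combination a ^ 2 * a6 + (a ^ 23 + a ^ 14 + a ^ 5) * a9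
    · rw [hμ, hμ, hμ, ← map_smul, Algebra.smul_def, n1]
      congr 1
      show a * (a * (a * 1)) = _
      ring

end CF.Wu
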