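import Cfsg.Agent.Wu.R
import Cfsg.Agent.Wu.S1

set_option autoImplicit false
set_option linter.unusedSectionVars false

open Module CF.Geom
open scoped commutatorElement

namespace CF.Wu

variable {F V : Type*} [Field F] [Fintype F] [AddCommGroup V] [Module F V] [FiniteDimensional F V]
  [Finite V] {σ : F →+* F} {B : V →ₛₗ[σ] V →ₗ[F] F} {q : ℕ}
  {X : Type*} [AddCommGroup X] [Module ℂ X] [FiniteDimensional ℂ X]

theorem trans_gen (h : HS q B) (h3 : 3 ≤ finrank F V) (hex : ¬ (finrank F V = 3 ∧ q = 2)) :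
    uTransSub h.herm = suSub B := by
  refine uTransSub_eq_suSub h.herm h.nd (by omega) ?_
  by_cases hq : q = 2
  · right; omega
  · obtain ⟨a, h1, h2⟩ := exists_fixed_ne_zero_ne_one h.card hq
    exact Or.inl ⟨a, by rw [h.frob, h1], h2⟩

theorem su_perfect (h : HS q B) (h3 : 3 ≤ finrank F V) (hex : ¬ (finrank F V = 3 ∧ q = 2)) :
    ⁅suSub B, suSub B⁆ = suSub B := by
  refine le_antisymm (Subgroup.commutator_le_left _ _) ?_
  conv_lhs => rw [← trans_gen h h3 hex]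
  rw [Subgroup.closure_le]
  rintro _ ⟨v, s, hv, hs, rfl⟩
  obtain ⟨a, ha, b, hb, e⟩ := uTrans_eq_commutator h.herm h.nd h3 hv hs
  rw [e]
  exact Subgroup.commutator_mem_commutator (uEichSub_le_suSub _ ha) (uEichSub_le_suSub _ hb)

theorem nsub (h : HS q B) (h3 : 3 ≤ finrank F V) (hex : ¬ (finrank F V = 3 ∧ q = 2))
    (N : Subgroup (UG B)) [N.Normal] (hN : ¬ N ≤ Zs B) : suSub B ≤ N := by
  have hp := su_perfect h h3 hex
  have hP : commutator (suSub B) = ⊤ := by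
    apply Subgroup.map_injective (suSub B).subtype_injective
    rw [commutator_def, Subgroup.map_commutator, ← MonoidHom.range_eq_map, Subgroup.range_subtype, hp]
  have := isSimpleGroup_su h.herm h.nd (by omega) (suSub B).subtype_injective
    (Subgroup.range_subtype _) (trans_gen h h3 hex) hP
  rcases ((inferInstance : (N.subgroupOf (suSub B)).Normal).map (QuotientGroup.mk' _)
    (QuotientGroup.mk'_surjective (Subgroup.center (suSub B)))).eq_bot_or_eq_top with h0 | h1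
  · rw [Subgroup.map_eq_bot_iff, QuotientGroup.ker_mk'] at h0
    have k1 : ⁅⁅N, suSub B⁆, suSub B⁆ = ⊥ := by
      rw [Subgroup.commutator_eq_bot_iff_le_centralizer]
      intro x hx s hs
      have hx' := Subgroup.commutator_le_inf _ _ hx
      exact congrArg Subtype.val (Subgroup.mem_center_iff.1
        (h0 (show (⟨x, hx'.2⟩ : suSub B) ∈ N.subgroupOf _ from hx'.1)) ⟨s, hs⟩)
    have k2 := Subgroup.commutator_commutator_eq_bot_of_rotate (H₁ := suSub B) (H₂ := suSub B)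
      (H₃ := N) (by rwa [Subgroup.commutator_comm (suSub B) N]) k1
    rw [hp, Subgroup.commutator_eq_bot_iff_le_centralizer] at k2
    refine absurd (fun t ht => ?_) hN
    exact center_su_scalar h.herm h.nd (by omega) (ρ := (Subgroup.centralizer {t}).subtype)
      (fun s hs => ⟨⟨s, Subgroup.mem_centralizer_singleton_iff.2 (k2 hs t ht).symm⟩, rfl⟩)
      ⟨t, Subgroup.mem_centralizer_singleton_iff.2 rfl⟩ (Subgroup.mem_center_iff.2 fun g =>
        Subtype.ext (Subgroup.mem_centralizer_singleton_iff.1 g.2))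
  · rw [← Subgroup.subgroupOf_eq_top, eq_top_iff, ← hP, commutator_def, Subgroup.commutator_le]
    intro a _ b _
    obtain ⟨m, hm, e⟩ := h1.ge (Subgroup.mem_top (QuotientGroup.mk' _ a))
    obtain ⟨z, hz, rfl⟩ := (QuotientGroup.mk'_eq_mk' _).1 e
    have : ⁅m * z, b⁆ = m * (b * m⁻¹ * b⁻¹) := by
      rw [commutatorElement_def, mul_assoc m z, ← Subgroup.mem_center_iff.1 hz b]; group
    rw [this]
    exact mul_mem hm (Subgroup.Normal.conj_mem inferInstance _ (inv_mem hm) b)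

theorem nsub32 (h : HS q B) (hq : q = 2) (hd : finrank F V = 3) {t : UG B} {b : V} {ζ : F}
    (hζ : ζ ≠ 1) (h1 : B b b = 1) (h2 : B b (t.1 b) = 0) (h3 : B b (t.1 (t.1 b)) = 0)
    (h4 : t.1 (t.1 (t.1 b)) = ζ • b) (N : Subgroup (UG B)) [N.Normal] (ht : t ∈ N) {u : V}
    (hu : B u u ≠ 0) : Rf B u ≤ N := by
  have hN : N.Normal := inferInstance
  have e01 := h2
  have e02 := h3
  have e12 : B (t.1 b) (t.1 (t.1 b)) = 0 := by rw [UG_map, h2]
  have e10 := h.herm.refl e01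
  have e20 := h.herm.refl e02
  have e21 := h.herm.refl e12
  have e11 : B (t.1 b) (t.1 b) = 1 := by rw [UG_map, h1]
  have e22 : B (t.1 (t.1 b)) (t.1 (t.1 b)) = 1 := by rw [UG_map, e11]
  have li : ∀ x y z : V, B x x = 1 → B y y = 1 → B z z = 1 → B x y = 0 → B x z = 0 → B y z = 0 →
      LinearIndependent F ![x, y, z] := fun x y z a1 a2 a3 a4 a5 a6 => by
    rw [Fintype.linearIndependent_iff]
    intro g hg i
    have k1 := congrArg (B x) hg
    have k2 := congrArg (B y) hg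
    have k3 := congrArg (B z) hg
    simp [Fin.sum_univ_three, a1, a2, a3, a4, a5, a6, h.herm.refl a4, h.herm.refl a5,
      h.herm.refl a6] at k1 k2 k3
    fin_cases i <;> assumption
  have l1 := li _ _ _ h1 e11 e22 e01 e02 e12
  have ex : ∀ g g' : UG B, g.1 b = g'.1 b → g.1 (t.1 b) = g'.1 (t.1 b) →
      g.1 (t.1 (t.1 b)) = g'.1 (t.1 (t.1 b)) → g = g' := fun g g' a1 a2 a3 => by
    refine Subtype.ext (LinearEquiv.toLinearMap_injective (LinearMap.ext_on_range
      (l1.span_eq_top_of_card_eq_finrank' (by simp [hd])) fun i => ?_))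
    fin_cases i <;> assumption
  obtain ⟨τ', t1, -, t3⟩ := h.wp.frame _ _ l1 (li _ _ _ h1 e22 e11 e02 e01 e21)
    (fun i j => by fin_cases i <;> fin_cases j <;> simp [*])
    (fun i => by fin_cases i <;> simp [*])
  let τ : UG B := ⟨τ', mem_UG.2 t1⟩
  have τ0 : τ.1 b = b := t3 0
  have τ1 : τ.1 (t.1 b) = t.1 (t.1 b) := t3 1
  have τ2 : τ.1 (t.1 (t.1 b)) = t.1 b := t3 2
  have hz : σ ζ * ζ = 1 := by
    have := UG_map t (t.1 (t.1 b)) (t.1 (t.1 b))
    rw [h4, e22] at this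
    simpa [h1, mul_comm] using this
  obtain ⟨r, r1, -, r3⟩ := exists_Rf_hom h (u := b) (by rw [h1]; exact one_ne_zero)
  let z : normOne σ := ⟨Units.mk0 ζ (right_ne_zero_of_mul_eq_one hz), hz⟩
  have d0 : (r z).1 b = ζ • b := r3 z
  have d1 := mem_Rf.1 (r1 ▸ ⟨z, rfl⟩ : r z ∈ Rf B b)
  obtain ⟨d', hd', p0, p1, p2⟩ : ∃ d' : UG B, d' = t * r z * t⁻¹ ∧ d'.1 b = b ∧
      d'.1 (t.1 b) = ζ • t.1 b ∧ d'.1 (t.1 (t.1 b)) = t.1 (t.1 b) := by
    have := mem_Rf.1 ((conj_mem_Rf (g := t)).2 (r1 ▸ ⟨z, rfl⟩ : r z ∈ Rf B b))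
    refine ⟨_, rfl, this _ e10, ?_, this _ e12⟩
    show t.1 ((r z).1 (t.1.symm (t.1 b))) = _
    rw [LinearEquiv.symm_apply_apply, d0, map_smul]
  have k : t * τ * t = r z * d' * τ := by
    refine ex _ _ ?_ ?_ ?_
    · show t.1 (τ.1 (t.1 b)) = (r z).1 (d'.1 (τ.1 b))
      rw [τ1, h4, τ0, p0, d0]
    · show t.1 (τ.1 (t.1 (t.1 b))) = (r z).1 (d'.1 (τ.1 (t.1 b)))
      rw [τ2, τ1, p2, d1 _ e02]
    · show t.1 (τ.1 (t.1 (t.1 (t.1 b)))) = (r z).1 (d'.1 (τ.1 (t.1 (t.1 b))))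
      rw [h4, τ2, p1, map_smul, map_smul, map_smul, τ0, d1 _ e01]
  have k2 : r (z * z) ∈ N := by
    have : r (z * z) = t * (τ * t * τ⁻¹) * (t * ((r z)⁻¹ * t⁻¹ * (r z)⁻¹⁻¹)) := by
      rw [← mul_assoc t, ← mul_assoc t, k, hd', map_mul]; group
    rw [this]
    exact mul_mem (mul_mem ht (hN.conj_mem _ ht _)) (mul_mem ht (hN.conj_mem _ (inv_mem ht) _))
  have c3 : Nat.card (normOne σ) = 3 := by rw [card_normOne h.card h.frob, hq]
  have k3 : Rf B b ≤ N := by
    have : Fact (Nat.Prime 3) := ⟨Nat.prime_three⟩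
    have z1 : z * z ≠ 1 := fun e => hζ (by
      have := pow_card_eq_one' (x := z)
      rw [c3, pow_succ, sq, e, one_mul] at this
      exact congrArg (fun y : normOne σ => ((y : Fˣ) : F)) this)
    rw [← r1]
    rintro _ ⟨l, rfl⟩
    obtain ⟨m, rfl⟩ := mem_zpowers_of_prime_card c3 z1 (g' := l)
    rw [map_zpow]
    exact zpow_mem k2 m
  obtain ⟨g, c, hc, e⟩ := trans_an h (u := b) (by rw [h1]; exact one_ne_zero) hu
  rw [← Rf_smul u hc, ← e]
  intro x hx
  simpa [mul_assoc] using hN.conj_mem _ (k3 (conj_Rf_eq g b x hx)) g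

theorem singer (h : HS q B) (hodd : Odd (finrank F V)) :
    ∃ (S : Subgroup (UG B)) (t : UG B), Sing q S t := by
  obtain ⟨S, t, h1, h2, h3, h4, h5, h6, h7, h8⟩ := singer0 h hodd
  refine ⟨S, t, h1, h2, h3, h4, h5, h6, fun u hu => ?_⟩
  have hu0 : u ≠ 0 := by rintro rfl; simp at hu
  have ht : t ∈ Subgroup.normalClosure (S : Set (UG B)) := Subgroup.subset_normalClosure h3
  by_cases d1 : finrank F V = 1
  · refine fun g _ => Subgroup.subset_normalClosure (h5 ?_)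
    have hs := (finrank_eq_one_iff_of_nonzero' u hu0).1 d1
    obtain ⟨c, hc⟩ := hs (t.1 u)
    refine Subgroup.mem_centralizer_singleton_iff.2 (commute_Zs ⟨c, fun v => ?_⟩ g).eq.symm
    obtain ⟨d, rfl⟩ := hs v
    rw [map_smul, ← hc, smul_comm]
  by_cases hex : finrank F V = 3 ∧ q = 2
  · obtain ⟨b, ζ, a1, a2, a3, a4, a5⟩ := h8 hex.2 hex.1
    exact nsub32 h hex.2 hex.1 a1 a2 a3 a4 a5 _ ht hu
  have k := nsub h (by obtain ⟨k, hk⟩ := hodd; omega) hex (Subgroup.normalClosure (S : Set (UG B)))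
    fun hz => by
      obtain ⟨c, hc⟩ := hz ht
      exact d1 (h6 u c hu0 (hc u))
  intro g _
  obtain ⟨s, hs, e⟩ := h7 (udet h.nd g)
  have : s⁻¹ * g ∈ suSub B := by
    rw [← ker_udet h.nd, MonoidHom.mem_ker, map_mul, map_inv, e, inv_mul_cancel]
  simpa using mul_mem (Subgroup.subset_normalClosure hs) (k this)

end CF.Wu
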