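import Cfsg.Agent.Wu.R

set_option autoImplicit false
set_option linter.unusedSectionVars false

open Module CF.Geom

namespace CF.Wu

variable {F V : Type*} [Field F] [Fintype F] [AddCommGroup V] [Module F V] [FiniteDimensional F V]
  [Finite V] {σ : F →+* F} {B : V →ₛₗ[σ] V →ₗ[F] F} {q : ℕ}
  {X : Type*} [AddCommGroup X] [Module ℂ X] [FiniteDimensional ℂ X]

theorem IsW.dec {hH : IsHerm B} {A : Type*} [Ring A] [Algebra ℂ A] {T : Hs hH →* A}
    {W : UG B →* A} (hW : IsW q T W) (α : UG B →* A)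
    (hα : ∀ g x, α g * T x = T (act hH g x) * α g) :
    ∃ D : UG B →* A, (∀ g, α g = W g * D g) ∧ ∀ g x, Commute (D g) (T x) := by
  have k : ∀ g x, Commute (W g⁻¹ * α g) (T x) := fun g x => by
    show _ * _ = _ * _
    rw [mul_assoc, hα, ← mul_assoc, hW.int, ← MulAut.mul_apply, ← map_mul, inv_mul_cancel, map_one,
      MulAut.one_apply, mul_assoc]
  refine ⟨⟨⟨fun g => W g⁻¹ * α g, by simp⟩, fun a b => ?_⟩, fun g => ?_, k⟩
  · show W (a * b)⁻¹ * α (a * b) = W a⁻¹ * α a * (W b⁻¹ * α b)
    rw [← mul_assoc, (hW.comm b⁻¹ _ (k a)).eq, mul_inv_rev, map_mul, map_mul]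
    simp only [mul_assoc]
  · show _ = W g * (W g⁻¹ * α g)
    rw [← mul_assoc, ← map_mul, mul_inv_cancel, map_one, one_mul]

theorem IsW.char (h : HS q B) {T : Representation ℂ (Hs h.herm) X}
    {W : Representation ℂ (UG B) X} (hW : IsW q T W) (g : UG B) :
    (q : ℂ) ^ finrank F V * W.character g = finrank ℂ X * om q g := by
  have := Fintype.ofFinite (Hs h.herm)
  have k := congrArg (LinearMap.trace ℂ X) (hW.avg g)
  rw [finsum_eq_sum_of_fintype, map_sum, Finset.sum_congr rfl fun x _ =>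
    show LinearMap.trace ℂ X (T x * W g * T x⁻¹) = W.character g by
      rw [LinearMap.trace_mul_comm, ← mul_assoc, ← map_mul, inv_mul_cancel, map_one, one_mul]; rfl,
    Finset.sum_const, Finset.card_univ, ← Nat.card_eq_fintype_card, card_Hs h, map_smul,
    LinearMap.trace_one, nsmul_eq_mul, smul_eq_mul] at k
  apply mul_left_cancel₀ (pow_ne_zero (finrank F V + 1)
    (Nat.cast_ne_zero (R := ℂ).2 (show q ≠ 0 by have := h.two_le; omega)))
  push_cast at k
  linear_combination k

theorem IsW.noR (h : HS q B) {T : Representation ℂ (Hs h.herm) X}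
    {W : Representation ℂ (UG B) X} (hW : IsW q T W) : NoR W := by
  classical
  intro u hu
  have := Fintype.ofFinite (Rf B u)
  rw [fx_eq_bot_iff_char, finsum_eq_sum_of_fintype]
  apply mul_left_cancel₀ (pow_ne_zero (finrank F V + 1)
    (Nat.cast_ne_zero (R := ℂ).2 (show q ≠ 0 by have := h.two_le; omega)))
  rw [← Finset.add_sum_erase _ _ (Finset.mem_univ 1), mul_add, Finset.mul_sum,
    Finset.sum_congr rfl (g := fun _ => -(finrank ℂ X * (q : ℂ) ^ finrank F V)) fun g hg => by
      linear_combination q * hW.char h g + finrank ℂ X *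
        om_Rf h g.2 fun e => (Finset.mem_erase.1 hg).1 (Subtype.ext e), Finset.sum_const,
    Finset.card_erase_of_mem (Finset.mem_univ _), Finset.card_univ, ← Nat.card_eq_fintype_card,
    card_Rf_an h hu]
  simp; ring

theorem IsW.noR_sing (h : HS q B) {T : Representation ℂ (Hs h.herm) X}
    {W : Representation ℂ (UG B) X} (hW : IsW q T W) (α : Representation ℂ (UG B) X)
    (hα : ∀ g x, α g * T x = T (act h.herm g x) * α g) (hodd : Odd (finrank F V))
    {S : Subgroup (UG B)} {t : UG B} (hS : Sing q S t) (h0 : fx α S = ⊥) : NoR α := by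
  classical
  obtain ⟨D, h1, h2⟩ := hW.dec α hα
  have := Fintype.ofFinite S
  have := Fintype.ofFinite (Hs h.herm)
  have hq : (q : ℂ) ≠ 0 := Nat.cast_ne_zero.2 (show q ≠ 0 by have := h.two_le; omega)
  rw [fx_eq_bot_iff_sum, finsum_eq_sum_of_fintype] at h0
  have k : ∀ r : S, ((q : ℂ) ^ finrank F V + 1) • D r = ∑ s : S, D s := fun r => by
    have e1 : ∑ s : S, ((q : ℂ) ^ (finrank F V + 1) * om q ((r : UG B)⁻¹ * (s : UG B))) • D s = 0 := by
      have : ∑ x, T x * (W (r : UG B)⁻¹ * ∑ s : S, α s) * T x⁻¹ = 0 := by simp [h0]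
      rw [← this]
      simp only [Finset.mul_sum, Finset.sum_mul]
      rw [Finset.sum_comm]
      refine Finset.sum_congr rfl fun s _ => ?_
      rw [← one_mul (D s), ← smul_mul_assoc, ← hW.avg, finsum_eq_sum_of_fintype, Finset.sum_mul]
      refine Finset.sum_congr rfl fun x _ => ?_
      rw [h1, map_mul]
      simp only [mul_assoc, (h2 _ _).eq]
    rw [← Finset.add_sum_erase _ _ (Finset.mem_univ r), Finset.sum_congr rfl
      (g := fun s : S => (q : ℂ) ^ (finrank F V + 1) • -D s) fun (s : S) (hs : s ∈ Finset.univ.erase r) =>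
        show ((q : ℂ) ^ (finrank F V + 1) * om q ((r : UG B)⁻¹ * (s : UG B))) • D s = _ by
        have : fixS ((r : UG B)⁻¹ * (s : UG B)) = ⊥ := eq_bot_iff.2 fun v hv =>
          hS.free _ (mul_mem (inv_mem r.2) s.2) (fun e => (Finset.mem_erase.1 hs).1
            (Subtype.ext (inv_mul_eq_one.1 e).symm)) v (mem_fixS.1 hv)
        rw [om, this, hodd.neg_one_pow]; simp, inv_mul_cancel, om_one, mul_smul,
      ← Finset.smul_sum, ← smul_add, smul_eq_zero, or_iff_right (pow_ne_zero _ hq),
      Finset.sum_neg_distrib, add_neg_eq_zero] at e1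
    rw [← Finset.add_sum_erase _ _ (Finset.mem_univ r), ← e1, add_smul, one_smul, add_comm]
  have k1 : S ≤ D.toHomUnits.ker := fun r hr => Units.ext (by
    have := (k ⟨r, hr⟩).trans (k 1).symm
    exact (smul_right_injective _ (by exact_mod_cast Nat.succ_ne_zero (q ^ finrank F V)) this).trans (map_one D))
  intro u hu
  rw [← hW.noR h u hu]
  ext v
  refine forall₂_congr fun g hg => ?_
  have := congrArg Units.val (Subgroup.normalClosure_le_normal k1 (hS.nc u hu hg))
  rw [h1, show D g = 1 from this, mul_one]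

theorem IsW.twist (h : HS q B) {T : Representation ℂ (Hs h.herm) X}
    {W : Representation ℂ (UG B) X} (hW : IsW q T W) (α : Representation ℂ (UG B) X)
    (hα : ∀ g x, α g * T x = T (act h.herm g x) * α g) [Nontrivial X]
    (hs : ∀ C : Module.End ℂ X, (∀ x, Commute C (T x)) → ∃ c : ℂ, C = c • 1) :
    ∃ η : UG B →* ℂˣ, α = tw W η := by
  obtain ⟨D, h1, h2⟩ := hW.dec α hα
  choose c hc using fun g => hs _ (h2 g)
  have inj := smul_left_injective ℂ (one_ne_zero (α := Module.End ℂ X))
  refine ⟨MonoidHom.toHomUnits ⟨⟨c, inj ?_⟩, fun a b => inj ?_⟩, MonoidHom.ext fun g => ?_⟩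
  · show c 1 • _ = (1 : ℂ) • _
    rw [← hc, map_one, one_smul]
  · show c (a * b) • _ = (c a * c b) • _
    rw [← hc, map_mul, hc, hc]; simp [smul_smul, mul_comm]
  · rw [h1, hc, mul_smul_comm, mul_one]; rfl

end CF.Wu
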