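import Cfsg.Agent.Wu.K
import Cfsg.Agent.Wu.W
import Cfsg.Agent.Wu.H
import Cfsg.Agent.Wu.X
import Cfsg.Agent.Wu.L
import Cfsg.Agent.Wu.S2

/-! Representations of the degree of the small Weil character. -/

set_option autoImplicit false
set_option linter.unusedSectionVars false

open Module CF.Geom

namespace CF.Wu

variable {F V : Type*} [Field F] [Fintype F] [AddCommGroup V] [Module F V] [FiniteDimensional F V]
  [Finite V] {σ : F →+* F} {B : V →ₛₗ[σ] V →ₗ[F] F} {q : ℕ}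
  {X : Type*} [AddCommGroup X] [Module ℂ X] [FiniteDimensional ℂ X]

namespace P

theorem fx_tw {G : Type*} [Group G] (ρ : Representation ℂ G X) {η : G →* ℂˣ} {K : Subgroup G}
    (h : ∀ g ∈ K, η g = 1) : fx (tw ρ η) K = fx ρ K :=
  Submodule.ext fun _ => forall₂_congr fun g hg => by rw [tw_apply, h g hg, Units.val_one, one_smul]

theorem Qs_le (h : HS q B) {e f : V} (hp : Hp B e f) : Qs B e ≤ suSub B := by
  rw [← range_iota h hp]
  rintro _ ⟨x, rfl⟩
  exact uEichSub_le_suSub h.herm (uEich_mem h.herm hp.he (mem_Pp.1 x.w.2).1 x.h)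

theorem num {q Q a d : ℕ} (hq : 2 ≤ q) (e : (q + 1) * (d + (q - 1) * (Q * a)) + q = Q * q ^ 2) (a0 : a ≠ 0) :
    a = 1 ∧ d < Q + 1 := by
  obtain ⟨q, rfl⟩ := Nat.exists_eq_add_of_le hq
  rw [show 2 + q - 1 = q + 1 by omega] at e
  obtain rfl | ⟨a, rfl⟩ : a = 1 ∨ ∃ b, a = b + 2 := by
    rcases a with _ | _ | a
    exacts [absurd rfl a0, .inl rfl, .inr ⟨a, rfl⟩]
  · exact ⟨rfl, by nlinarith⟩
  · exfalso
    nlinarith [Nat.zero_le (Q * q * q), Nat.zero_le (Q * q), Nat.zero_le (Q * a * (q + 1) * (q + 3)),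
      Nat.zero_le (d * (q + 3))]

end P

open P in
theorem noR_c (h : HS q B) (hodd : Odd (finrank F V)) (h3 : 3 ≤ finrank F V)
    (hex : ¬ (finrank F V = 3 ∧ q = 2)) (ρ : Representation ℂ (UG B) X)
    (hd : (q + 1) * finrank ℂ X + q = q ^ finrank F V) (h0 : fx ρ (suSub B) = ⊥) :
    ∃ η : normOne σ →* ℂˣ, NoR (tw ρ (η.comp (udet h.nd))) := by
  obtain ⟨e, f, hp⟩ := exists_Hp' h (by omega)
  obtain ⟨ψ, hψ⟩ := exists_Nt h
  have h' := h.pp hp
  have hm := finrank_Pp h hp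
  have q2 := h.two_le
  have e0 : e ≠ 0 := fun k => by simpa [k] using hp.hef
  have hT := cen_Tp h.herm hp ρ ψ
  obtain ⟨a, ha⟩ := heis_dvd h' hψ hT
  have h1 := finrank_eq_Xp h hp ρ hψ
  have a0 : a ≠ 0 := by
    rintro rfl
    rw [ha, mul_zero, mul_zero, add_zero] at h1
    have t := Submodule.eq_top_of_finrank_eq h1.symm
    have l : Rf B e ≤ ρ.ker := fun g hg => LinearMap.ext fun v => (t.ge trivial : v ∈ fx ρ _) g hg
    have k := nsub h h3 hex ρ.ker fun k => by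
      have : Rf B e = ⊥ := eq_bot_iff.2 fun g hg => by
        obtain ⟨c, hc⟩ := k (l hg)
        have c1 : c = 1 := smul_left_injective F e0 (by
          simpa using (hc e).symm.trans (mem_Rf.1 hg e hp.he))
        exact Subtype.ext (LinearEquiv.ext fun v => by simpa [c1] using hc v)
      have c := card_Rf_iso h hp.he e0
      rw [this, Subgroup.card_bot] at c
      omega
    have : finrank ℂ X = 0 := finrank_zero_iff_forall_zero.2 fun v =>
      (Submodule.mem_bot ℂ).1 (h0 ▸ fun g hg => LinearMap.congr_fun (k hg) v)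
    rw [this, mul_zero, zero_add] at hd
    have := Nat.pow_lt_pow_right (show 1 < q by omega) (show 1 < finrank F V by omega)
    rw [pow_one] at this
    omega
  rw [h1, ha, ← hm, pow_add] at hd
  obtain ⟨rfl, hlt⟩ := num q2 hd a0
  rw [mul_one] at ha
  obtain ⟨S, t, hS⟩ := singer h' (by rw [← hm, Nat.odd_add] at hodd; simpa using hodd)
  obtain ⟨k, hk⟩ := zq_dvd h hp ρ hS
  have zq : ZQ ρ e := (Submodule.eq_of_le_of_finrank_le (fx_anti ρ (Rf_le_Qs hp.he)) (by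
    rcases k with _ | k
    · simp [hk]
    · nlinarith [Nat.zero_le (k * (q ^ finrank F (Pp B e f) + 1))])).ge
  obtain ⟨W, hW⟩ := weil h' hψ _ hT
  have : Nontrivial (Xp h.herm hp ρ ψ) := Module.finrank_pos_iff.1 (by rw [ha]; positivity)
  obtain ⟨η, hη⟩ := IsW.twist h' hW (ap h hp ρ ψ) (ap_mul_Tp h hp ρ ψ) (heis_schur h' hψ hT ha)
  obtain ⟨u, hu⟩ := exists_an h' (by omega)
  obtain ⟨r, r1, r2, -⟩ := exists_Rf_hom h' hu
  have su : ∀ g ∈ suSub B, ((η.comp r)⁻¹.comp (udet h.nd)) g = 1 := fun g hg => by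
    rw [← ker_udet h.nd] at hg
    rw [MonoidHom.comp_apply, hg, map_one]
  have sq := fun g hg => su g (Qs_le h hp hg)
  refine ⟨(η.comp r)⁻¹, noR_of h hp _ u.2 hu ?_ ?_ ((fx_tw ρ su).trans h0)⟩
  · rw [← map_ext_Rf h (h.disj hp) u]
    refine fx_le_of_Xp h hp _ _ fun ψ' hψ' => fx_ap_bot h hp _ _ hψ hψ' (eq_bot_iff.2 fun v hv => ?_)
    have m : v.1 ∈ Xp h.herm hp ρ ψ := fun x hx => by
      rw [← v.2 x hx, tw_apply, sq _ (range_iota h hp ▸ ⟨x, rfl⟩), Units.val_one, one_smul]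
    have : (⟨v.1, m⟩ : Xp h.herm hp ρ ψ) ∈ fx W (Rf _ u) := fun g hg => by
      obtain ⟨l, rfl⟩ := r1.ge hg
      have e1 : ρ (lev h hp (r l)) v = (η (r l) : ℂ) • (W (r l) ⟨v.1, m⟩ : X) :=
        congrArg Subtype.val (show ap h hp ρ ψ (r l) ⟨v.1, m⟩ = (η (r l) : ℂ) • W (r l) ⟨v.1, m⟩ by
          rw [hη, tw_apply])
      have e2 : (((η.comp r)⁻¹.comp (udet h.nd)) (lev h hp (r l)) : ℂ) • ρ (lev h hp (r l)) v = v :=
        congrArg Subtype.val (hv _ hg)
      rw [e1, MonoidHom.comp_apply, udet_ext, r2, smul_smul] at e2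
      exact Subtype.ext (by simpa using e2)
    rw [IsW.noR h' hW u hu, Submodule.mem_bot] at this
    exact Subtype.ext (show v.1 = 0 from congrArg Subtype.val this)
  · rwa [ZQ, fx_tw ρ sq, fx_tw ρ fun g hg => sq g (Rf_le_Qs hp.he hg)]

end CF.Wu
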