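import Cfsg.Agent.Wu.D

set_option autoImplicit false
set_option linter.unusedSectionVars false

open Module CF.Geom

namespace CF.Wu

variable {F V : Type*} [Field F] [Fintype F] [AddCommGroup V] [Module F V] [FiniteDimensional F V]
  [Finite V] {σ : F →+* F} {B : V →ₛₗ[σ] V →ₗ[F] F} {q : ℕ}
  {X : Type*} [AddCommGroup X] [Module ℂ X] [FiniteDimensional ℂ X]

theorem HS.exists_one (h : HS q B) {u : V} (hu : u ≠ 0) : ∃ x, B u x = 1 := by
  obtain ⟨y, hy⟩ : ∃ y, B u y ≠ 0 := by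
    by_contra hc; push Not at hc; exact hu (h.nd.1 u hc)
  exact ⟨(B u y)⁻¹ • y, by simp [hy]⟩

theorem sub_mem_span_of_Rf (h : HS q B) {u : V} {g : UG B} (hg : g ∈ Rf B u) (x : V) :
    g.1 x - x ∈ F ∙ u := by
  rw [← h.wp.perp_perp (F ∙ u)]
  refine mem_perp.2 fun y hy => ?_
  rw [map_sub]
  nth_rewrite 1 [← hg y hy]
  rw [UG_map, sub_self]

theorem Rf_form (h : HS q B) {u : V} (hu : u ≠ 0) {g : UG B} (hg : g ∈ Rf B u) :
    ∃ c : F, ∀ x, g.1 x = x + (c * B u x) • u := by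
  obtain ⟨x₀, hx₀⟩ := h.exists_one hu
  obtain ⟨c, hc⟩ := Submodule.mem_span_singleton.1 (sub_mem_span_of_Rf h hg x₀)
  refine ⟨c, fun x => ?_⟩
  have h1 := mem_Rf.1 hg (x - B u x • x₀) (by simp [hx₀])
  rw [map_sub, map_smul, sub_eq_iff_eq_add, (eq_sub_iff_add_eq.1 hc).symm] at h1
  rw [h1]; module

theorem uTrans_mem_Rf (hH : IsHerm B) {e : V} (he : B e e = 0) {s : F} (hs : σ s = -s) :
    uTrans hH he hs ∈ Rf B e := mem_Rf.2 fun x hx => by rw [uTrans_apply, hx]; simp

theorem conj_Rf_eq (g : UG B) (u : V) : ∀ k ∈ Rf B (g.1 u), g⁻¹ * k * g ∈ Rf B u := by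
  intro k hk
  refine mem_Rf.2 fun x hx => ?_
  show g.1.symm (k.1 (g.1 x)) = x
  rw [mem_Rf.1 hk _ (by rw [UG_map, hx]), LinearEquiv.symm_apply_apply]

theorem mem_Rf_iso (h : HS q B) {e : V} (he : B e e = 0) (he0 : e ≠ 0) {g : UG B} :
    g ∈ Rf B e ↔ ∃ (s : F) (hs : σ s = -s), g = uTrans h.herm he hs := by
  constructor
  · intro hg
    obtain ⟨c, hc⟩ := Rf_form h he0 hg
    have hs := skew_of_isometry h.herm h.nd he0 he (c := c) fun x y => by
      rw [← hc, ← hc, UG_map]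
    exact ⟨c, hs, Subtype.ext (LinearEquiv.ext fun x => by rw [hc, uTrans_apply])⟩
  · rintro ⟨s, hs, rfl⟩
    exact uTrans_mem_Rf _ _ _

theorem card_Rf_iso (h : HS q B) {e : V} (he : B e e = 0) (he0 : e ≠ 0) :
    Nat.card (Rf B e) = q := by
  rw [← card_skew_eq h.card]
  symm
  refine Nat.card_eq_of_bijective (fun s => ⟨uTrans h.herm he (s := s.1) (by rw [h.frob, s.2]),
    uTrans_mem_Rf _ _ _⟩) ⟨fun s t e' => ?_, fun g => ?_⟩
  · obtain ⟨x, hx⟩ := h.exists_one he0
    have := congrArg (fun g : Rf B e => g.1.1 x) e'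
    simp only [uTrans_apply, hx, mul_one, add_right_inj] at this
    exact Subtype.ext (smul_left_injective F he0 this)
  · obtain ⟨s, hs, e⟩ := (mem_Rf_iso h he he0).1 g.2
    exact ⟨⟨s, by rw [← h.frob, hs]⟩, Subtype.ext e.symm⟩

theorem exists_Rf_hom (h : HS q B) {u : V} (hu : B u u ≠ 0) : ∃ r : normOne σ →* UG B,
    r.range = Rf B u ∧ (∀ l, udet h.nd (r l) = l) ∧ ∀ l, (r l).1 u = ((l : Fˣ) : F) • u := by
  have hu0 : u ≠ 0 := by rintro rfl; simp at hu
  choose r h1 h2 h3 using fun l : normOne σ => exists_quasiRefl h.herm hu (mem_normOne.1 l.2)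
  have ex : ∀ {a b : UG B}, a ∈ Rf B u → b ∈ Rf B u → a.1 u = b.1 u → a = b := by
    intro a b ha hb e
    refine Subtype.ext (LinearEquiv.ext fun x => ?_)
    have hx : B u (x - (B u x / B u u) • u) = 0 := by simp [hu]
    have k1 := mem_Rf.1 ha _ hx
    have k2 := mem_Rf.1 hb _ hx
    rw [map_sub, map_smul, sub_eq_iff_eq_add] at k1 k2
    rw [k1, k2, e]
  have hm : ∀ l, r l ∈ Rf B u := fun l => mem_Rf.2 (h3 l)
  refine ⟨MonoidHom.mk' r fun a b => ex (hm _) (mul_mem (hm a) (hm b)) ?_, ?_, fun l => ?_, h2⟩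
  · show _ = (r a).1 ((r b).1 u)
    rw [h2, h2, map_smul, h2, smul_smul]; simp [mul_comm]
  · ext g
    refine ⟨by rintro ⟨l, rfl⟩; exact hm l, fun hg => ?_⟩
    obtain ⟨c, hc⟩ := Rf_form h hu0 hg
    have e1 : g.1 u = (1 + c * B u u) • u := by rw [hc]; module
    have hn := UG_map g u u
    rw [e1] at hn
    simp only [LinearMap.map_smulₛₗ, LinearMap.smul_apply, smul_eq_mul, RingHom.id_apply] at hn
    have hn' : σ (1 + c * B u u) * (1 + c * B u u) = 1 :=
      mul_right_cancel₀ hu (by linear_combination hn)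
    refine ⟨⟨Units.mk0 _ (right_ne_zero_of_mul_eq_one hn'), hn'⟩, ex (hm _) hg ?_⟩
    rw [e1]; exact h2 _
  · exact Subtype.ext (Units.ext ((udet_coe _ _).trans (h1 l)))

theorem card_Rf_an (h : HS q B) {u : V} (hu : B u u ≠ 0) : Nat.card (Rf B u) = q + 1 := by
  obtain ⟨r, h1, h2, -⟩ := exists_Rf_hom h hu
  rw [← h1, ← card_normOne h.card h.frob]
  exact (Nat.card_congr (MonoidHom.ofInjective
    (Function.LeftInverse.injective h2)).toEquiv).symm

theorem finrank_fixS_Rf (h : HS q B) {u : V} {g : UG B} (hg : g ∈ Rf B u) (h1 : g ≠ 1) :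
    finrank F (fixS g) + 1 = finrank F V := by
  have hu0 : u ≠ 0 := by
    rintro rfl
    exact h1 (Subtype.ext (LinearEquiv.ext fun x => mem_Rf.1 hg x (by simp)))
  have k1 := h.wp.finrank_perp (F ∙ u)
  rw [finrank_span_singleton hu0] at k1
  have k2 : perp B (F ∙ u) ≤ fixS g := fun x hx => mem_fixS.2 (hg x hx)
  have k3 := Submodule.finrank_mono k2
  have k4 : finrank F (fixS g) < finrank F V := Submodule.finrank_lt fun e =>
    h1 (Subtype.ext (LinearEquiv.ext fun x => mem_fixS.1 (e ▸ Submodule.mem_top)))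
  omega

theorem om_one : om q (1 : UG B) = (q : ℂ) ^ finrank F V := by
  have : fixS (1 : UG B) = ⊤ := eq_top_iff.2 fun x _ => mem_fixS.2 rfl
  rw [om, this, finrank_top, ← mul_pow]; simp

theorem om_Rf (h : HS q B) {u : V} {g : UG B} (hg : g ∈ Rf B u) (h1 : g ≠ 1) :
    (q : ℂ) * om q g = -(q : ℂ) ^ finrank F V := by
  rw [om, ← finrank_fixS_Rf h hg h1, neg_pow (q : ℂ), pow_succ, pow_succ]
  have : ((-1 : ℂ) ^ finrank F (fixS g)) * (-1) ^ finrank F (fixS g) = 1 := by
    rw [← mul_pow]; simp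
  linear_combination (-(q : ℂ) * q ^ finrank F (fixS g)) * this

theorem conj_mem_Rf {u : V} {g r : UG B} : g * r * g⁻¹ ∈ Rf B (g.1 u) ↔ r ∈ Rf B u := by
  constructor
  · intro h
    simpa [mul_assoc] using conj_Rf_eq g u _ h
  · intro h
    have := conj_Rf_eq g⁻¹ (g.1 u) r (by
      rwa [show g⁻¹.1 (g.1 u) = u from g.1.symm_apply_apply u])
    simpa using this

theorem conj_mem_Qs {e : V} {g r : UG B} : g * r * g⁻¹ ∈ Qs B (g.1 e) ↔ r ∈ Qs B e := by
  have k : ∀ (g r : UG B) (e : V), r ∈ Qs B e → g * r * g⁻¹ ∈ Qs B (g.1 e) := by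
    intro g r e hr
    refine ⟨?_, fun x hx => ?_⟩
    · show g.1 (r.1 (g.1.symm (g.1 e))) = _
      rw [LinearEquiv.symm_apply_apply, hr.1]
    · obtain ⟨y, rfl⟩ := g.1.surjective x
      obtain ⟨c, hc⟩ := hr.2 y (by rwa [UG_map] at hx)
      refine ⟨c, ?_⟩
      show g.1 (r.1 (g.1.symm (g.1 y))) = _
      rw [LinearEquiv.symm_apply_apply, hc, map_add, map_smul]
  refine ⟨fun h => ?_, k g r e⟩
  have := k g⁻¹ _ _ h
  rw [show g⁻¹.1 (g.1 e) = e from g.1.symm_apply_apply e] at this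
  simpa [mul_assoc] using this

theorem Rf_smul (u : V) {c : F} (hc : c ≠ 0) : Rf B (c • u) = Rf B u := by
  rw [Rf, Submodule.span_singleton_smul_eq (IsUnit.mk0 c hc)]

theorem Qs_smul (e : V) {c : F} (hc : c ≠ 0) : Qs B (c • e) = Qs B e := by
  have k : ∀ (e : V) (c : F), c ≠ 0 → Qs B e ≤ Qs B (c • e) := by
    intro e c hc g hg
    refine ⟨by rw [map_smul, hg.1], fun x hx => ?_⟩
    obtain ⟨d, hd⟩ := hg.2 x (by simpa [hc] using hx)
    exact ⟨d / c, by rw [hd, smul_smul, div_mul_cancel₀ _ hc]⟩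
  refine le_antisymm ?_ (k e c hc)
  simpa [smul_smul, hc] using k (c • e) c⁻¹ (inv_ne_zero hc)

theorem Rf_le_Qs {e : V} (he : B e e = 0) : Rf B e ≤ Qs B e := by
  exact fun g hg => ⟨mem_Rf.1 hg e he, fun x hx => ⟨0, by simp [mem_Rf.1 hg x hx]⟩⟩

theorem mem_normalizer_Rf {u : V} {g : UG B} {c : F} (hg : g.1 u = c • u) :
    g ∈ Subgroup.normalizer (Rf B u : Set (UG B)) := by
  have : Rf B (g.1 u) = Rf B u := by
    by_cases hc : c = 0
    · have : u = 0 := g.1.injective (by rw [hg, hc, zero_smul, map_zero])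
      rw [this, map_zero]
    · rw [hg, Rf_smul u hc]
  intro r
  have k := conj_mem_Rf (u := u) (g := g) (r := r)
  rw [this] at k
  exact k.symm

theorem mem_normalizer_Qs {e : V} {g : UG B} {c : F} (hg : g.1 e = c • e) :
    g ∈ Subgroup.normalizer (Qs B e : Set (UG B)) := by
  have : Qs B (g.1 e) = Qs B e := by
    by_cases hc : c = 0
    · have : e = 0 := g.1.injective (by rw [hg, hc, zero_smul, map_zero])
      rw [this, map_zero]
    · rw [hg, Qs_smul e hc]
  intro r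
  have k := conj_mem_Qs (e := e) (g := g) (r := r)
  rw [this] at k
  exact k.symm

theorem finrank_fx_Rf (ρ : Representation ℂ (UG B) X) (g : UG B) (u : V) :
    finrank ℂ (fx ρ (Rf B (g.1 u))) = finrank ℂ (fx ρ (Rf B u)) := by
  have k : ∀ (g : UG B) (u : V), finrank ℂ (fx ρ (Rf B u)) ≤ finrank ℂ (fx ρ (Rf B (g.1 u))) := by
    intro g u
    refine LinearMap.finrank_le_finrank_of_injective
      (f := (ρ g).restrict fun v hv => map_mem_fx (conj_Rf_eq g u) hv) fun a b e => ?_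
    have := congrArg (fun v : fx ρ (Rf B (g.1 u)) => ρ g⁻¹ v) e
    simp only [LinearMap.restrict_coe_apply, ← Module.End.mul_apply, ← map_mul, inv_mul_cancel,
      map_one, Module.End.one_apply] at this
    exact Subtype.ext this
  refine le_antisymm ?_ (k g u)
  have := k g⁻¹ (g.1 u)
  rwa [show g⁻¹.1 (g.1 u) = u from g.1.symm_apply_apply u] at this

theorem iota_injective (h : HS q B) {e f : V} (hp : Hp B e f) :
    Function.Injective (iota h.herm hp) := by
  rw [injective_iff_map_eq_one]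
  intro x hx
  have h1 : (iota h.herm hp x).1 f = f := by rw [hx]; rfl
  have h2 : B x.w f = 0 := h.herm.refl (mem_Pp.1 x.w.2).2
  rw [iota_apply, hp.hef, h2] at h1
  have h3 : (x.w : V) = x.c • e := by linear_combination (norm := module) h1
  have h4 := (mem_Pp.1 x.w.2).2
  rw [h3, map_smul, h.herm.flip_one hp.hef, smul_eq_mul, mul_one] at h4
  exact Hs.ext (Subtype.ext (by rw [h3, h4, zero_smul]; rfl)) h4

theorem range_iota (h : HS q B) {e f : V} (hp : Hp B e f) : (iota h.herm hp).range = Qs B e := by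
  have hfe := h.herm.flip_one hp.hef
  ext g
  constructor
  · rintro ⟨x, rfl⟩
    refine ⟨?_, fun y hy => ⟨-B x.w y, ?_⟩⟩
    · rw [iota_apply, hp.he, h.herm.refl (mem_Pp.1 x.w.2).1]; simp
    · rw [iota_apply, hy]; module
  · intro hg
    obtain ⟨w, e1, w1, w2⟩ := h.herm.hyp_decomp hp.he hp.hf hp.hef (g.1 f)
    have e2 : B e (g.1 f) = 1 := by
      conv_lhs => rw [← hg.1]
      rw [UG_map, hp.hef]
    rw [e2, one_smul] at e1
    set c := B f (g.1 f)
    have e3 := UG_map g f f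
    rw [e1, hp.hf] at e3
    simp only [map_add, LinearMap.add_apply, LinearMap.map_smulₛₗ, LinearMap.smul_apply,
      smul_eq_mul, RingHom.id_apply, hp.he, hp.hf, hp.hef, hfe, w1, w2, h.herm.refl w1,
      h.herm.refl w2] at e3
    refine ⟨⟨⟨w, mem_Pp.2 ⟨w1, w2⟩⟩, -c, ?_⟩, h.herm.ext_hyp hp.he hp.hf hp.hef ?_ ?_ ?_⟩
    · show -c + σ (-c) = B w w
      rw [map_neg]; linear_combination -e3
    · rw [iota_apply, hp.he, hg.1]; simp [h.herm.refl w1]
    · rw [iota_apply, hp.hef, e1]; simp only [h.herm.refl w2]; module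
    · intro x x1 x2
      obtain ⟨d, hd⟩ := hg.2 x x1
      have e4 := UG_map g f x
      rw [e1, hd, x2] at e4
      simp only [map_add, LinearMap.add_apply, LinearMap.map_smulₛₗ, LinearMap.smul_apply,
        smul_eq_mul, RingHom.id_apply, hp.he, hfe, x1, x2, h.herm.refl w1] at e4
      rw [iota_apply, x1, hd, show d = -B w x by linear_combination e4]; module

theorem iota_mem_Rf (h : HS q B) {e f : V} (hp : Hp B e f) {x : Hs (h.herm.restrict (Pp B e f))} :
    iota h.herm hp x ∈ Rf B e ↔ x.w = 0 := by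
  constructor
  · intro hx
    refine (h.pp hp).nd.1 _ fun y => ?_
    have h1 := mem_Rf.1 hx y (mem_Pp.1 y.2).1
    rw [iota_apply, (mem_Pp.1 y.2).1] at h1
    have h2 : B x.w y • e = 0 := by linear_combination (norm := module) -h1
    refine (smul_eq_zero.1 h2).resolve_right fun h0 => ?_
    have := hp.hef
    simp [h0] at this
  · intro hx
    refine mem_Rf.2 fun y hy => ?_
    rw [iota_apply, hy, hx]; simp

theorem finrank_Pp (h : HS q B) {e f : V} (hp : Hp B e f) :
    finrank F (Pp B e f) + 2 = finrank F V := by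
  have hfe := h.herm.flip_one hp.hef
  have k1 := h.wp.finrank_perp (Submodule.span F {e, f})
  have li : LinearIndependent F ![e, f] := LinearIndependent.pair_iff.2 fun a b hab => by
    have h1 := congrArg (B e) hab
    have h2 := congrArg (B f) hab
    simp [hp.he, hp.hf, hp.hef, hfe] at h1 h2
    exact ⟨h2, h1⟩
  have k2 := finrank_span_eq_card li
  rw [show Set.range ![e, f] = {e, f} by simp [Set.pair_comm], Fintype.card_fin] at k2
  rw [← k1, k2, add_comm]

theorem Hp.symm (h : HS q B) {e f : V} (hp : Hp B e f) : Hp B f e := by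
  exact ⟨hp.hf, hp.he, h.herm.flip_one hp.hef⟩

theorem exists_Hp (h : HS q B) {e : V} (he : B e e = 0) (he0 : e ≠ 0) : ∃ f, Hp B e f := by
  obtain ⟨f, h1, h2, -⟩ := h.wp.exists_partner (x := e) (Z := ⊥) (by simpa using he0)
    (by simpa using he) (by simp)
  exact ⟨f, he, by simpa using h1, h2⟩

theorem exists_Hp' (h : HS q B) (h2 : 2 ≤ finrank F V) : ∃ e f, Hp B e f := by
  obtain ⟨e, h1, h3⟩ := exists_isotropic_of_two_le h.herm.ne_id h.herm.invol h.herm.symm h2
  exact ⟨e, exists_Hp h h3 h1⟩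

theorem exists_an (h : HS q B) (h1 : 1 ≤ finrank F V) : ∃ u, B u u ≠ 0 := by
  have : Nontrivial V := Module.nontrivial_of_finrank_pos (R := F) h1
  obtain ⟨p, -, hp⟩ := exists_nonisotropic_mem (Or.inl h.herm.ne_id) h.herm.symm (U := ⊤)
    (by rw [h.wp.perp_top]; exact disjoint_bot_right) top_ne_bot
  exact ⟨p, hp⟩

theorem trans_vec (h : HS q B) {v w : V} (hv : v ≠ 0) (hw : w ≠ 0) (e : B v v = B w w) :
    ∃ g : UG B, g.1 v = w := by
  obtain ⟨g, h1, -, h3⟩ := h.wp.frame (fun _ : Unit => v) (fun _ => w)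
    (linearIndependent_unique_iff.2 hv) (linearIndependent_unique_iff.2 hw)
    (fun _ _ => e.symm) (fun _ => e.symm)
  exact ⟨⟨g, mem_UG.2 h1⟩, h3 ()⟩

theorem trans_an (h : HS q B) {u u' : V} (hu : B u u ≠ 0) (hu' : B u' u' ≠ 0) :
    ∃ (g : UG B) (c : F), c ≠ 0 ∧ g.1 u = c • u' := by
  obtain ⟨c, hc⟩ := exists_norm_eq h.herm.ne_id h.herm.invol (c := B u u / B u' u')
    (by rw [map_div₀, h.herm.eq, h.herm.eq])
  have hc0 : c ≠ 0 := by
    rintro rfl
    exact div_ne_zero hu hu' (by simpa using hc.symm)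
  have hu0 : u' ≠ 0 := by rintro rfl; simp at hu'
  obtain ⟨g, hg⟩ := trans_vec h (v := u) (w := c • u') (by rintro rfl; simp at hu)
    (smul_ne_zero hc0 hu0) (by
      simp only [LinearMap.map_smulₛₗ, LinearMap.smul_apply, smul_eq_mul, RingHom.id_apply]
      rw [← mul_assoc, mul_comm c, hc, div_mul_cancel₀ _ hu'])
  exact ⟨g, c, hc0, hg⟩

theorem map_ext_Rf (h : HS q B) {U : Submodule F V} (hU : Disjoint U (perp B U)) (u : U) :
    (Rf (rs B U) u).map (ext h hU) = Rf B u := by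
  ext g
  constructor
  · rintro ⟨a, ha, rfl⟩
    refine mem_Rf.2 fun v hv => ?_
    obtain ⟨x, y, hy, rfl⟩ := h.decomp hU v
    rw [map_add, mem_perp.1 hy u u.2, add_zero] at hv
    rw [ext_add h hU a x hy, mem_Rf.1 ha x hv]
  · intro hg
    obtain ⟨a, rfl⟩ : g ∈ (ext h hU).range := by
      rw [range_ext]
      exact fun y hy => mem_Rf.1 hg y (mem_perp.1 hy u u.2)
    refine ⟨a, mem_Rf.2 fun x hx => Subtype.ext ?_, rfl⟩
    rw [← ext_mem h hU, mem_Rf.1 hg x hx]

theorem finrank_fixS_ext (h : HS q B) {U : Submodule F V} (hU : Disjoint U (perp B U))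
    (a : UG (rs B U)) :
    finrank F (fixS (ext h hU a)) = finrank F (fixS a) + finrank F (perp B U) := by
  have e1 : fixS (ext h hU a) = (fixS a).map U.subtype ⊔ perp B U := by
    ext v
    rw [mem_fixS]
    constructor
    · intro hv
      obtain ⟨x, y, hy, rfl⟩ := h.decomp hU v
      rw [ext_add h hU a x hy, add_left_inj] at hv
      exact Submodule.add_mem_sup ⟨x, mem_fixS.2 (Subtype.ext hv), rfl⟩ hy
    · intro hv
      obtain ⟨_, ⟨x, hx, rfl⟩, y, hy, rfl⟩ := Submodule.mem_sup.1 hv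
      rw [Submodule.subtype_apply, ext_add h hU a x hy, mem_fixS.1 hx]
  have e2 := Submodule.finrank_sup_add_finrank_inf_eq ((fixS a).map U.subtype) (perp B U)
  rw [(hU.mono_left (Submodule.map_subtype_le _ _)).eq_bot, finrank_bot, add_zero,
    Submodule.finrank_map_subtype_eq] at e2
  rw [e1, e2]

theorem udet_ext (h : HS q B) {U : Submodule F V} (hU : Disjoint U (perp B U)) (a : UG (rs B U)) :
    udet h.nd (ext h hU a) = udet (h.res hU).nd a := by
  refine Subtype.ext (Units.ext ?_)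
  rw [udet_coe, udet_coe]
  refine ((h.wp.orthDecomp hU).det_hom (a, 1)).trans ?_
  simp

theorem range_scal (h : HS q B) [Nontrivial V] : (scal B).range = Zs B := by
  ext g
  constructor
  · rintro ⟨z, rfl⟩
    exact ⟨_, fun _ => rfl⟩
  · rintro ⟨c, hc⟩
    have hn := norm_eq_one_of_scalar h.nd hc
    exact ⟨⟨Units.mk0 c (right_ne_zero_of_mul_eq_one hn), hn⟩,
      Subtype.ext (LinearEquiv.ext fun v => (hc v).symm)⟩

theorem udet_scal (h : HS q B) (z : normOne σ) : udet h.nd (scal B z) = z ^ finrank F V := by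
  refine Subtype.ext (Units.ext ?_)
  rw [udet_coe, det_of_scalar (scal_apply z)]; simp

theorem commute_Zs {z : UG B} (hz : z ∈ Zs B) (g : UG B) : Commute z g := by
  obtain ⟨c, hc⟩ := hz
  refine Subtype.ext (LinearEquiv.ext fun v => ?_)
  show z.1 (g.1 v) = g.1 (z.1 v)
  rw [hc, hc, map_smul]

theorem Zs_sup_su (h : HS q B) [Nontrivial V] (hc : Nat.Coprime (finrank F V) (q + 1)) :
    Zs B ⊔ suSub B = ⊤ := by
  rw [eq_top_iff]
  intro g _
  rw [← card_normOne h.card h.frob, Nat.coprime_comm] at hc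
  obtain ⟨z, hz⟩ := (powCoprime hc).surjective (udet h.nd g)
  have h1 : (scal B z)⁻¹ * g ∈ suSub B := by
    rw [← ker_udet h.nd, MonoidHom.mem_ker, map_mul, map_inv, udet_scal h, ← hz]
    exact inv_mul_cancel _
  have h2 : scal B z ∈ Zs B := ⟨_, fun _ => rfl⟩
  simpa using Subgroup.mul_mem_sup h2 h1

theorem card_Hs (h : HS q B) : Nat.card (Hs h.herm) = q ^ (2 * finrank F V + 1) := by
  have e1 : Hs h.herm ≃ Σ w : V, {c : F // c + c ^ q = B w w} :=
    ⟨fun x => ⟨x.w, x.c, by rw [← h.frob, x.h]⟩, fun p => ⟨p.1, p.2.1, by rw [h.frob, p.2.2]⟩,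
      fun _ => rfl, fun _ => rfl⟩
  have := Fintype.ofFinite V
  rw [Nat.card_congr e1, Nat.card_sigma, Finset.sum_congr rfl fun w _ =>
    card_trace_eq h.card (a := B w w) (by rw [← h.frob, h.herm.eq]), Finset.sum_const,
    Finset.card_univ, Module.card_eq_pow_finrank (K := F), h.card, smul_eq_mul, ← pow_mul,
    pow_succ]

theorem exists_Nt (h : HS q B) : ∃ ψ : AddChar F ℂ, Nt σ ψ := by
  obtain ⟨a, ha⟩ : ∃ a : F, σ a ≠ a := by
    by_contra hc; push Not at hc; exact h.herm.ne_id (RingHom.ext hc)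
  obtain ⟨ψ, hψ⟩ := (AddChar.exists_apply_ne_zero (α := F) (a := a - σ a)).2 (sub_ne_zero.2 ha.symm)
  exact ⟨ψ, a - σ a, by rw [map_sub, h.herm.invol, neg_sub], hψ⟩

end CF.Wu
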